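import Mathlib

/-!
Coefficientwise order on real power series, geometric series, and evaluation bounds.
-/

set_option autoImplicit false

open PowerSeries

namespace Cfsg.Agent.Lib.Wall

scoped instance psPartialOrder : PartialOrder ℝ⟦X⟧ where
  le f g := ∀ n, coeff n f ≤ coeff n g
  le_refl _ _ := le_rfl
  le_trans _ _ _ h h' n := (h n).trans (h' n)
  le_antisymm _ _ h h' := PowerSeries.ext fun n => le_antisymm (h n) (h' n)

theorem ps_le_def {f g : ℝ⟦X⟧} : f ≤ g ↔ ∀ n, coeff n f ≤ coeff n g := Iff.rfl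

scoped instance psIsOrderedAddMonoid : IsOrderedAddMonoid ℝ⟦X⟧ where
  add_le_add_left f g h k n := by simp only [map_add]; linarith [h n]

theorem ps_nonneg {f : ℝ⟦X⟧} : 0 ≤ f ↔ ∀ n, 0 ≤ coeff n f := by
  simp only [ps_le_def, map_zero]

scoped instance psZeroLEOneClass : ZeroLEOneClass ℝ⟦X⟧ where
  zero_le_one := ps_nonneg.2 fun n => by rw [coeff_one]; split_ifs <;> norm_num

scoped instance psIsOrderedRing : IsOrderedRing ℝ⟦X⟧ :=
  IsOrderedRing.of_mul_nonneg fun f g hf hg => ps_nonneg.2 fun n => by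
    rw [coeff_mul]
    exact Finset.sum_nonneg fun p _ => mul_nonneg (ps_nonneg.1 hf _) (ps_nonneg.1 hg _)

theorem X_nonneg : (0 : ℝ⟦X⟧) ≤ X :=
  ps_nonneg.2 fun n => by rw [coeff_X]; split_ifs <;> norm_num

theorem X_pow_nonneg (w : ℕ) : (0 : ℝ⟦X⟧) ≤ X ^ w := pow_nonneg X_nonneg w

theorem C_le_C {a b : ℝ} (h : a ≤ b) : (C a : ℝ⟦X⟧) ≤ C b := fun n => by
  rw [coeff_C, coeff_C]; split_ifs <;> simp [h]

theorem C_nonneg {a : ℝ} (h : 0 ≤ a) : (0 : ℝ⟦X⟧) ≤ C a := by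
  simpa using C_le_C h

theorem C_ofNat (n : ℕ) [n.AtLeastTwo] : (C (OfNat.ofNat n : ℝ) : ℝ⟦X⟧) = OfNat.ofNat n :=
  map_ofNat C n

/-- `1 / (1 - c X^w)`. -/
noncomputable def geom (c : ℝ) (w : ℕ) : ℝ⟦X⟧ := mk fun n => if w ∣ n then c ^ (n / w) else 0

theorem coeff_geom (c : ℝ) (w n : ℕ) : coeff n (geom c w) = if w ∣ n then c ^ (n / w) else 0 :=
  coeff_mk _ _

theorem geom_nonneg {c : ℝ} (hc : 0 ≤ c) (w : ℕ) : 0 ≤ geom c w :=
  ps_nonneg.2 fun n => by rw [coeff_geom]; split_ifs <;> positivity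

theorem geom_mono {c c' : ℝ} (hc : 0 ≤ c) (h : c ≤ c') (w : ℕ) : geom c w ≤ geom c' w :=
  fun n => by rw [coeff_geom, coeff_geom]; split_ifs; exacts [pow_le_pow_left₀ hc h _, le_rfl]

theorem geom_eq (c : ℝ) {w : ℕ} (hw : 0 < w) : geom c w = 1 + C c * X ^ w * geom c w := by
  ext n
  rw [map_add, mul_assoc, coeff_C_mul, coeff_X_pow_mul', coeff_one, coeff_geom]
  by_cases h : w ≤ n
  · obtain ⟨k, rfl⟩ := Nat.exists_eq_add_of_le h
    have h0 : w + k ≠ 0 := by omega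
    rw [if_pos h, if_neg h0, Nat.add_sub_cancel_left, coeff_geom, zero_add]
    simp only [Nat.dvd_add_right (dvd_refl w)]
    split_ifs with h1
    · rw [Nat.add_div_left _ hw, pow_succ']
    · simp
  · rw [if_neg h]
    by_cases h0 : n = 0
    · simp [h0]
    · rw [if_neg h0, if_neg fun hd => h (Nat.le_of_dvd (Nat.pos_of_ne_zero h0) hd)]
      simp

theorem geom_mul (c : ℝ) {w : ℕ} (hw : 0 < w) : geom c w * (1 - C c * X ^ w) = 1 := by
  linear_combination geom_eq c hw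

theorem geom_one_mul {w : ℕ} (hw : 0 < w) : geom 1 w * (1 - X ^ w) = 1 := by
  simpa using geom_mul 1 hw

theorem one_le_geom {c : ℝ} (hc : 0 ≤ c) {w : ℕ} (hw : 0 < w) : 1 ≤ geom c w := by
  rw [geom_eq c hw]
  have := mul_nonneg (mul_nonneg (C_nonneg hc) (X_pow_nonneg w)) (geom_nonneg hc w)
  exact le_add_of_nonneg_right this

theorem geom_one_two_mul {w : ℕ} (hw : 0 < w) : geom 1 w = (1 + X ^ w) * geom 1 (2 * w) := by
  have h1 := geom_one_mul hw
  have h2 := geom_one_mul (w := 2 * w) (by omega)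
  rw [mul_comm 2 w, pow_mul] at h2
  rw [mul_comm 2 w]
  linear_combination (-(geom 1 w)) * h2 + (1 + X ^ w) * geom 1 (w * 2) * h1

/-- The star lemma. -/
theorem le_geom_mul {f g : ℝ⟦X⟧} {w : ℕ} (hw : 0 < w) (h : f ≤ g + X ^ w * f) :
    f ≤ geom 1 w * g := by
  have h1 : (1 - X ^ w) * f ≤ g := by
    rw [sub_mul, one_mul]; exact sub_le_iff_le_add.2 h
  calc f = geom 1 w * ((1 - X ^ w) * f) := by rw [← mul_assoc, geom_one_mul hw, one_mul]
    _ ≤ geom 1 w * g := mul_le_mul_of_nonneg_left h1 (geom_nonneg zero_le_one w)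

/-- The star lemma for a family of two series. -/
theorem le_geom_mul₂ {f : ℤˣ → ℝ⟦X⟧} {g : ℝ⟦X⟧} {w : ℕ} (hw : 0 < w) (σ : ℤˣ)
    (h : ∀ ε, f ε ≤ g + X ^ w * f (σ * ε)) (ε : ℤˣ) : f ε ≤ geom 1 w * g := by
  have h1 : f ε ≤ (1 + X ^ w) * g + X ^ (2 * w) * f ε := by
    have h2 := h (σ * ε)
    rw [← mul_assoc, Int.units_mul_self, one_mul] at h2
    calc f ε ≤ g + X ^ w * f (σ * ε) := h ε
      _ ≤ g + X ^ w * (g + X ^ w * f ε) := by
        gcongr; exact X_pow_nonneg w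
      _ = _ := by ring
  have := le_geom_mul (by omega) h1
  rwa [← mul_assoc, mul_comm (geom 1 (2 * w)), ← geom_one_two_mul hw] at this

section Ev

variable {q : ℝ}

/-- Evaluation bound: `f` evaluated at `X² = 1/q` has even part at most `e` and odd part at
most `o X`, expressed through multiplication by `1 / (1 - q X²)`. -/
def Ev (q : ℝ) (f : ℝ⟦X⟧) (e o : ℝ) : Prop :=
  0 ≤ f ∧ 0 ≤ e ∧ 0 ≤ o ∧ f * geom q 2 ≤ (C e + C o * X) * geom q 2

theorem Ev.mono {f g : ℝ⟦X⟧} {e o e' o' : ℝ} (hq : 0 ≤ q) (h : Ev q g e o) (hf : 0 ≤ f)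
    (hfg : f ≤ g) (he : e ≤ e') (ho : o ≤ o') : Ev q f e' o' := by
  refine ⟨hf, h.2.1.trans he, h.2.2.1.trans ho, ?_⟩
  have hG := geom_nonneg hq 2
  calc f * geom q 2 ≤ g * geom q 2 := by gcongr
    _ ≤ _ := h.2.2.2
    _ ≤ _ := by
      gcongr
      · exact C_le_C he
      · exact X_nonneg
      · exact C_le_C ho

theorem Ev.mono' {f : ℝ⟦X⟧} {e o e' o' : ℝ} (hq : 0 ≤ q) (h : Ev q f e o)
    (he : e ≤ e') (ho : o ≤ o') : Ev q f e' o' := h.mono hq h.1 le_rfl he ho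

theorem X_sq_mul_geom_le {x : ℝ} (hq : 0 ≤ q) (hx : 1 ≤ q * x) :
    X ^ 2 * geom q 2 ≤ C x * geom q 2 := by
  have hx0 : 0 ≤ x := by
    by_contra h
    have := mul_nonpos_of_nonneg_of_nonpos hq (not_le.1 h).le
    linarith
  have hG := geom_nonneg hq 2
  have h1 : C x * geom q 2 = C x + C (q * x) * (X ^ 2 * geom q 2) := by
    rw [map_mul]
    linear_combination C x * geom_eq q (w := 2) two_pos
  rw [h1]
  calc X ^ 2 * geom q 2 = 0 + C 1 * (X ^ 2 * geom q 2) := by simp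
    _ ≤ _ := by
      gcongr
      · exact C_nonneg hx0
      · exact mul_nonneg (X_pow_nonneg 2) hG
      · exact C_le_C hx

theorem Ev.add {f g : ℝ⟦X⟧} {e o e' o' : ℝ} (h : Ev q f e o) (h' : Ev q g e' o') :
    Ev q (f + g) (e + e') (o + o') := by
  refine ⟨add_nonneg h.1 h'.1, add_nonneg h.2.1 h'.2.1, add_nonneg h.2.2.1 h'.2.2.1, ?_⟩
  calc (f + g) * geom q 2 = f * geom q 2 + g * geom q 2 := by ring
    _ ≤ _ := add_le_add h.2.2.2 h'.2.2.2
    _ = _ := by simp only [map_add]; ring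

theorem Ev.mul {x : ℝ} (hq : 0 ≤ q) (hx : 1 ≤ q * x) {f g : ℝ⟦X⟧} {e o e' o' : ℝ}
    (h : Ev q f e o) (h' : Ev q g e' o') :
    Ev q (f * g) (e * e' + x * (o * o')) (e * o' + o * e') := by
  have hx0 : 0 ≤ x := by
    by_contra h
    have := mul_nonpos_of_nonneg_of_nonpos hq (not_le.1 h).le
    linarith
  obtain ⟨hf, he, ho, h⟩ := h
  obtain ⟨hg, he', ho', h'⟩ := h'
  refine ⟨mul_nonneg hf hg, by positivity, by positivity, ?_⟩
  have h1 : (0 : ℝ⟦X⟧) ≤ C e' + C o' * X :=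
    add_nonneg (C_nonneg he') (mul_nonneg (C_nonneg ho') X_nonneg)
  calc f * g * geom q 2 = f * (g * geom q 2) := by ring
    _ ≤ f * ((C e' + C o' * X) * geom q 2) := by gcongr
    _ = (C e' + C o' * X) * (f * geom q 2) := by ring
    _ ≤ (C e' + C o' * X) * ((C e + C o * X) * geom q 2) := by gcongr
    _ = (C (e * e') + C (e * o' + o * e') * X) * geom q 2 + C (o * o') * (X ^ 2 * geom q 2) := by
      simp only [map_add, map_mul]; ring
    _ ≤ (C (e * e') + C (e * o' + o * e') * X) * geom q 2 + C (o * o') * (C x * geom q 2) := by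
      exact add_le_add le_rfl
        (mul_le_mul_of_nonneg_left (X_sq_mul_geom_le hq hx) (C_nonneg (by positivity)))
    _ = _ := by simp only [map_add, map_mul]; ring

theorem Ev.mul₀ (hq : 0 ≤ q) {f g : ℝ⟦X⟧} {e o e' : ℝ}
    (h : Ev q f e o) (h' : Ev q g e' 0) : Ev q (f * g) (e * e') (o * e') := by
  obtain ⟨hf, he, ho, h⟩ := h
  obtain ⟨hg, he', -, h'⟩ := h'
  refine ⟨mul_nonneg hf hg, by positivity, by positivity, ?_⟩
  have h1 : (0 : ℝ⟦X⟧) ≤ C e' := C_nonneg he'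
  simp only [map_zero, zero_mul, add_zero] at h'
  calc f * g * geom q 2 = f * (g * geom q 2) := by ring
    _ ≤ f * (C e' * geom q 2) := by gcongr
    _ = C e' * (f * geom q 2) := by ring
    _ ≤ C e' * ((C e + C o * X) * geom q 2) := by gcongr
    _ = _ := by simp only [map_mul]; ring

theorem Ev.mul₀₀ (hq : 0 ≤ q) {f g : ℝ⟦X⟧} {e e' : ℝ}
    (h : Ev q f e 0) (h' : Ev q g e' 0) : Ev q (f * g) (e * e') 0 := by
  simpa using h.mul₀ hq h'

theorem ev_C {a : ℝ} (ha : 0 ≤ a) : Ev q (C a) a 0 :=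
  ⟨C_nonneg ha, ha, le_rfl, by simp⟩

theorem ev_one : Ev q 1 1 0 := by simpa using ev_C (q := q) zero_le_one

theorem ev_zero : Ev q 0 0 0 := by simpa using ev_C (q := q) le_rfl

theorem ev_X : Ev q X 0 1 := ⟨X_nonneg, le_rfl, zero_le_one, by simp⟩

theorem ev_X_pow_even {x : ℝ} (hq : 0 ≤ q) (hx : 1 ≤ q * x) (k : ℕ) :
    Ev q (X ^ (2 * k)) (x ^ k) 0 := by
  have hx0 : 0 ≤ x := by
    by_contra h
    have := mul_nonpos_of_nonneg_of_nonpos hq (not_le.1 h).le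
    linarith
  induction k with
  | zero => simpa using ev_one
  | succ k ih =>
    have : Ev q (X ^ 2) x 0 := ⟨X_pow_nonneg 2, hx0, le_rfl, by
      simpa using X_sq_mul_geom_le hq hx⟩
    rw [mul_add, pow_add, mul_one, pow_succ x]
    exact ih.mul₀₀ hq this

theorem ev_X_pow_odd {x : ℝ} (hq : 0 ≤ q) (hx : 1 ≤ q * x) (k : ℕ) :
    Ev q (X ^ (2 * k + 1)) 0 (x ^ k) := by
  have := (ev_X (q := q)).mul₀ hq (ev_X_pow_even hq hx k)
  rw [pow_succ']
  simpa using this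

theorem ev_geom (hq : 0 ≤ q) {c y : ℝ} (hc : 0 ≤ c) {w : ℕ} (hw : 0 < w)
    (h : Ev q (C c * X ^ w) y 0) (hy : y < 1) : Ev q (geom c w) (1 - y)⁻¹ 0 := by
  have hy' : 0 < 1 - y := by linarith
  refine ⟨geom_nonneg hc w, (inv_pos.2 hy').le, le_rfl, ?_⟩
  have h1 := h.2.2.2
  simp only [map_zero, zero_mul, add_zero] at h1 ⊢
  have h2 : C (1 - y) * geom q 2 ≤ (1 - C c * X ^ w) * geom q 2 := by
    rw [map_sub, map_one, sub_mul, sub_mul]
    gcongr
  calc geom c w * geom q 2 = C (1 - y)⁻¹ * (geom c w * (C (1 - y) * geom q 2)) := by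
        rw [mul_left_comm (geom c w), ← mul_assoc, ← map_mul, inv_mul_cancel₀ hy'.ne', map_one,
          one_mul]
    _ ≤ C (1 - y)⁻¹ * (geom c w * ((1 - C c * X ^ w) * geom q 2)) := by
        gcongr
        · exact C_nonneg (inv_pos.2 hy').le
        · exact geom_nonneg hc w
    _ = _ := by rw [← mul_assoc (geom c w), geom_mul c hw, one_mul]

/-- `1 / (1 - q X^{2(k+1)})` evaluates to at most `1 / (1 - x^k)`. -/
theorem ev_geom_q {x : ℝ} (hq : 0 < q) (hx : 1 ≤ q * x) {k : ℕ} (hk : x ^ k < 1) :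
    Ev q (geom q (2 * (k + 1))) (1 - x ^ k)⁻¹ 0 := by
  refine ev_geom hq.le hq.le (by omega) ?_ hk
  have h1 : Ev q (X ^ (2 * 1)) (q⁻¹ ^ 1) 0 :=
    ev_X_pow_even hq.le (by rw [mul_inv_cancel₀ hq.ne']) 1
  have h2 := ((ev_C hq.le).mul₀₀ hq.le h1).mul₀₀ hq.le (ev_X_pow_even hq.le hx k)
  rw [pow_one, mul_inv_cancel₀ hq.ne', one_mul, mul_assoc, ← pow_add] at h2
  rwa [show 2 * (k + 1) = 2 * 1 + 2 * k by ring]

theorem Ev.coeff_even {f : ℝ⟦X⟧} {e o : ℝ} (h : Ev q f e o) (n : ℕ) :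
    coeff (2 * n) (f * geom q 2) ≤ e * q ^ n := by
  refine (h.2.2.2 _).trans_eq ?_
  rw [add_mul, map_add, mul_assoc, coeff_C_mul, coeff_C_mul, coeff_geom, ← pow_one X,
    coeff_X_pow_mul', if_pos (dvd_mul_right 2 n), Nat.mul_div_cancel_left _ two_pos]
  split_ifs with h1
  · rw [coeff_geom, if_neg (by omega)]; simp
  · simp

theorem coeff_X_mul_geom_odd (n : ℕ) : coeff (2 * n + 1) (X * geom q 2) = q ^ n := by
  rw [coeff_succ_X_mul, coeff_geom, if_pos (dvd_mul_right 2 n), Nat.mul_div_cancel_left _ two_pos]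

theorem Ev.coeff_odd {f : ℝ⟦X⟧} {e o : ℝ} (h : Ev q f e o) (n : ℕ) :
    coeff (2 * n + 1) (f * geom q 2) ≤ o * q ^ n := by
  refine (h.2.2.2 _).trans_eq ?_
  rw [add_mul, map_add, mul_assoc, coeff_C_mul, coeff_C_mul, coeff_X_mul_geom_odd, coeff_geom,
    if_neg (by omega)]
  simp

end Ev

end Cfsg.Agent.Lib.Wall
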