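import Mathlib
import Cfsg.Agent.Lib.Wall.Series

/-!
Generating functions of graded sets; monic polynomials avoiding given roots.
-/

set_option autoImplicit false

open PowerSeries

namespace Cfsg.Agent.Lib.Wall

section Gfs

variable {α β : Type*}

/-- The elements of `S` of degree `d`. -/
def fib (deg : α → ℕ) (S : Set α) (d : ℕ) : Set α := {a | a ∈ S ∧ deg a = d}

/-- The generating function of a graded set. -/
noncomputable def gfs (deg : α → ℕ) (S : Set α) : ℝ⟦X⟧ := mk fun d => ((fib deg S d).ncard : ℝ)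

/-- Finitely many elements in each degree. -/
def LF (deg : α → ℕ) (S : Set α) : Prop := ∀ d, (fib deg S d).Finite

variable {deg : α → ℕ} {deg' : β → ℕ} {S S' : Set α} {T : Set β}

theorem coeff_gfs (d : ℕ) : coeff d (gfs deg S) = (fib deg S d).ncard := coeff_mk _ _

theorem gfs_nonneg : 0 ≤ gfs deg S := ps_nonneg.2 fun d => by rw [coeff_gfs]; positivity

theorem exists_injOn_of_rel (R : α → β → Prop) (h : ∀ a ∈ S, ∃ b ∈ T, R a b ∧ deg' b = deg a)
    (hi : ∀ a ∈ S, ∀ a' ∈ S, ∀ b, R a b → R a' b → a = a') (d : ℕ)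
    (hne : (fib deg S d).Nonempty) : ∃ f : α → β, (∀ a ∈ fib deg S d, f a ∈ fib deg' T d) ∧
      Set.InjOn f (fib deg S d) := by
  obtain ⟨a₀, ha₀⟩ := hne
  have : Nonempty β := ⟨(h a₀ ha₀.1).choose⟩
  choose! f hf using h
  refine ⟨f, fun a ha => ⟨(hf a ha.1).1, (hf a ha.1).2.2.trans ha.2⟩, fun a ha a' ha' e => ?_⟩
  exact hi a ha.1 a' ha'.1 _ (hf a ha.1).2.1 (e ▸ (hf a' ha'.1).2.1)

theorem LF.of_rel (hT : LF deg' T) (R : α → β → Prop)
    (h : ∀ a ∈ S, ∃ b ∈ T, R a b ∧ deg' b = deg a)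
    (hi : ∀ a ∈ S, ∀ a' ∈ S, ∀ b, R a b → R a' b → a = a') : LF deg S := fun d => by
  rcases (fib deg S d).eq_empty_or_nonempty with h0 | h0
  · rw [h0]; exact Set.finite_empty
  · obtain ⟨f, h1, h2⟩ := exists_injOn_of_rel R h hi d h0
    exact Set.Finite.of_injOn h1 h2 (hT d)

theorem gfs_le_of_rel (hT : LF deg' T) (R : α → β → Prop)
    (h : ∀ a ∈ S, ∃ b ∈ T, R a b ∧ deg' b = deg a)
    (hi : ∀ a ∈ S, ∀ a' ∈ S, ∀ b, R a b → R a' b → a = a') : gfs deg S ≤ gfs deg' T := fun d => by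
  rw [coeff_gfs, coeff_gfs]
  rcases (fib deg S d).eq_empty_or_nonempty with h0 | h0
  · rw [h0]; simp
  · obtain ⟨f, h1, h2⟩ := exists_injOn_of_rel R h hi d h0
    exact_mod_cast Set.ncard_le_ncard_of_injOn f h1 h2 (hT d)

theorem LF.subset (hS : LF deg S') (h : S ⊆ S') : LF deg S :=
  fun d => (hS d).subset fun _ ha => ⟨h ha.1, ha.2⟩

theorem gfs_mono (hS : LF deg S') (h : S ⊆ S') : gfs deg S ≤ gfs deg S' :=
  gfs_le_of_rel hS (· = ·) (fun a ha => ⟨a, h ha, rfl, rfl⟩) fun _ _ _ _ _ h h' => h.trans h'.symm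

theorem gfs_union_le : gfs deg (S ∪ S') ≤ gfs deg S + gfs deg S' := fun d => by
  rw [map_add, coeff_gfs, coeff_gfs, coeff_gfs]
  have : fib deg (S ∪ S') d = fib deg S d ∪ fib deg S' d := by
    ext a; simp only [fib, Set.mem_ofPred_eq, Set.mem_union]; tauto
  rw [this]
  exact_mod_cast Set.ncard_union_le _ _

theorem gfs_union_eq (hS : LF deg S) (hS' : LF deg S') (h : Disjoint S S') :
    gfs deg (S ∪ S') = gfs deg S + gfs deg S' := PowerSeries.ext fun d => by
  rw [map_add, coeff_gfs, coeff_gfs, coeff_gfs]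
  have : fib deg (S ∪ S') d = fib deg S d ∪ fib deg S' d := by
    ext a; simp only [fib, Set.mem_ofPred_eq, Set.mem_union]; tauto
  rw [this, Set.ncard_union_eq (h.mono (fun _ ha => ha.1) fun _ ha => ha.1) (hS d) (hS' d)]
  push_cast; rfl

theorem LF.prod (hS : LF deg S) (hT : LF deg' T) :
    LF (fun p : α × β => deg p.1 + deg' p.2) (S ×ˢ T) := fun d => by
  refine ((Finset.HasAntidiagonal.antidiagonal d).finite_toSet.biUnion
    (t := fun p => fib deg S p.1 ×ˢ fib deg' T p.2) fun p _ => (hS _).prod (hT _)).subset ?_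
  rintro ⟨a, b⟩ ⟨⟨ha, hb⟩, h⟩
  simp only [Set.mem_iUnion]
  exact ⟨(deg a, deg' b), by simpa using h, ⟨ha, rfl⟩, ⟨hb, rfl⟩⟩

theorem gfs_prod (hS : LF deg S) (hT : LF deg' T) :
    gfs (fun p : α × β => deg p.1 + deg' p.2) (S ×ˢ T) = gfs deg S * gfs deg' T :=
  PowerSeries.ext fun d => by
    classical
    rw [coeff_mul, coeff_gfs, Set.ncard_eq_toFinset_card _ (hS.prod hT d),
      Finset.card_eq_sum_card_fiberwise (f := fun p : α × β => (deg p.1, deg' p.2))
        (t := Finset.HasAntidiagonal.antidiagonal d) fun p hp => by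
          simpa using ((Set.Finite.mem_toFinset _).1 hp).2]
    push_cast
    refine Finset.sum_congr rfl fun p hp => ?_
    rw [coeff_gfs, coeff_gfs, ← Nat.cast_mul, ← Set.ncard_prod, ← Set.ncard_coe_finset]
    congr 2
    ext ⟨a, b⟩
    have := Finset.HasAntidiagonal.mem_antidiagonal.1 hp
    simp only [Finset.coe_filter, Set.Finite.mem_toFinset, fib, Set.mem_ofPred_eq, Set.mem_prod,
      Prod.ext_iff]
    constructor
    · rintro ⟨⟨h1, -⟩, h2, h3⟩; exact ⟨⟨h1.1, h2⟩, h1.2, h3⟩
    · rintro ⟨⟨h1, h2⟩, h3, h4⟩; exact ⟨⟨⟨h1, h3⟩, by omega⟩, h2, h4⟩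

theorem gfs_le_X_pow (hS : S.Subsingleton) {w : ℕ} (h : ∀ a ∈ S, deg a = w) :
    gfs deg S ≤ X ^ w := fun d => by
  rw [coeff_gfs, coeff_X_pow]
  have h1 : (fib deg S d).Subsingleton := hS.anti fun _ ha => ha.1
  split_ifs with hd
  · exact_mod_cast (Set.ncard_le_one h1.finite).2 h1
  · rw [show fib deg S d = ∅ from Set.eq_empty_of_forall_notMem fun a ha =>
      hd (ha.2.symm.trans (h a ha.1))]
    simp

theorem lf_nat {w : ℕ} (hw : 0 < w) : LF (fun m : ℕ => w * m) Set.univ := fun d =>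
  Set.Subsingleton.finite fun a ha b hb => Nat.eq_of_mul_eq_mul_left hw (ha.2.trans hb.2.symm)

theorem gfs_nat {w : ℕ} (hw : 0 < w) : gfs (fun m : ℕ => w * m) Set.univ = geom 1 w :=
  PowerSeries.ext fun d => by
    rw [coeff_gfs, coeff_geom]
    split_ifs with h
    · obtain ⟨k, rfl⟩ := h
      have : fib (fun m : ℕ => w * m) Set.univ (w * k) = {k} := by
        ext a; simp [fib, hw.ne']
      simp [this]
    · rw [show fib (fun m : ℕ => w * m) Set.univ d = ∅ from
        Set.eq_empty_of_forall_notMem fun a ha => h ⟨a, ha.2.symm⟩]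
      simp

end Gfs

section Poly

variable {F : Type*} [Field F]

/-- Monic polynomials without roots in `R`. -/
def Good (R : Set F) : Set (Polynomial F) := {f | f.Monic ∧ ∀ c ∈ R, f.eval c ≠ 0}

/-- The generating function of monic polynomials without roots in `R`. -/
noncomputable def aS (R : Set F) (w : ℕ) : ℝ⟦X⟧ :=
  gfs (fun f : Polynomial F => w * f.natDegree) (Good R)

theorem card_monic [Fintype F] (n : ℕ) :
    {f : Polynomial F | f.Monic ∧ f.natDegree = n}.ncard = Fintype.card F ^ n := by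
  rw [← Nat.card_coe_set_eq]
  refine (Nat.card_congr ((Polynomial.monicEquivDegreeLT n).trans
    (Polynomial.degreeLTEquiv F n).toEquiv)).trans ?_
  simp

theorem finite_monic [Finite F] (n : ℕ) :
    {f : Polynomial F | f.Monic ∧ f.natDegree = n}.Finite :=
  Set.finite_coe_iff.1 (Finite.of_equiv _ ((Polynomial.monicEquivDegreeLT n).trans
    (Polynomial.degreeLTEquiv F n).toEquiv).symm)

theorem lf_good [Finite F] (R : Set F) {w : ℕ} (hw : 0 < w) :
    LF (fun f : Polynomial F => w * f.natDegree) (Good R) := fun d =>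
  (finite_monic (d / w)).subset fun f hf =>
    ⟨hf.1.1, by rw [← hf.2, Nat.mul_div_cancel_left _ hw]⟩

theorem aS_nonneg (R : Set F) (w : ℕ) : 0 ≤ aS R w := gfs_nonneg

theorem aS_empty [Fintype F] {w : ℕ} (hw : 0 < w) :
    aS (∅ : Set F) w = geom (Fintype.card F) w :=
  PowerSeries.ext fun d => by
    rw [aS, coeff_gfs, coeff_geom]
    split_ifs with h
    · obtain ⟨k, rfl⟩ := h
      have : fib (fun f : Polynomial F => w * f.natDegree) (Good ∅) (w * k) =
          {f : Polynomial F | f.Monic ∧ f.natDegree = k} := by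
        ext a; simp [fib, hw.ne', Good]
      rw [this, card_monic, Nat.mul_div_cancel_left _ hw]
      simp
    · rw [show fib (fun f : Polynomial F => w * f.natDegree) (Good ∅) d = ∅ from
        Set.eq_empty_of_forall_notMem fun a ha => h ⟨_, ha.2.symm⟩]
      simp

theorem aS_insert [Finite F] {R : Set F} {c : F} (hc : c ∉ R) {w : ℕ} (hw : 0 < w) :
    aS (insert c R) w * geom 1 w = aS R w := by
  rw [aS, ← gfs_nat hw, ← gfs_prod (lf_good _ hw) (lf_nat hw)]
  have hdeg : ∀ (f : Polynomial F) (m : ℕ), f.Monic →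
      w * (f * (Polynomial.X - Polynomial.C c) ^ m).natDegree = w * f.natDegree + w * m := by
    intro f m hf
    rw [hf.natDegree_mul ((Polynomial.monic_X_sub_C c).pow m), Polynomial.natDegree_pow,
      Polynomial.natDegree_X_sub_C, mul_one, mul_add]
  apply le_antisymm
  · refine gfs_le_of_rel (lf_good R hw)
      (fun p g => g = p.1 * (Polynomial.X - Polynomial.C c) ^ p.2) ?_ ?_
    · rintro ⟨f, m⟩ ⟨hf, -⟩
      refine ⟨_, ⟨hf.1.mul ((Polynomial.monic_X_sub_C c).pow m), fun r hr => ?_⟩, rfl,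
        hdeg f m hf.1⟩
      rw [Polynomial.eval_mul, Polynomial.eval_pow]
      refine mul_ne_zero (hf.2 r (Or.inr hr)) (pow_ne_zero _ ?_)
      simpa [sub_eq_zero] using fun h : r = c => hc (h ▸ hr)
    · rintro ⟨f, m⟩ ⟨hf, -⟩ ⟨f', m'⟩ ⟨hf', -⟩ _ rfl h
      have key : ∀ (f : Polynomial F) (m : ℕ), f ∈ Good (insert c R) →
          (f * (Polynomial.X - Polynomial.C c) ^ m).rootMultiplicity c = m := by
        intro f m hf
        rw [Polynomial.rootMultiplicity_mul_X_sub_C_pow hf.1.ne_zero,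
          Polynomial.rootMultiplicity_eq_zero (hf.2 c (Or.inl rfl)), zero_add]
      dsimp only at h
      have hm : m = m' := by rw [← key f m hf, h, key f' m' hf']
      subst hm
      rw [mul_right_cancel₀ (pow_ne_zero _ (Polynomial.X_sub_C_ne_zero c)) h]
  · refine gfs_le_of_rel ((lf_good _ hw).prod (lf_nat hw))
      (fun g p => g = p.1 * (Polynomial.X - Polynomial.C c) ^ p.2) ?_ ?_
    · intro g hg
      obtain ⟨f, h1, h2⟩ :=
        Polynomial.exists_eq_pow_rootMultiplicity_mul_and_not_dvd g hg.1.ne_zero c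
      have hf : f.Monic := by
        refine ((Polynomial.monic_X_sub_C c).pow (g.rootMultiplicity c)).of_mul_monic_left ?_
        rw [← h1]; exact hg.1
      refine ⟨(f, g.rootMultiplicity c), ⟨⟨hf, ?_⟩, trivial⟩, by rw [mul_comm]; exact h1, ?_⟩
      · rintro r (rfl | hr)
        · rwa [Polynomial.dvd_iff_isRoot] at h2
        · have := hg.2 r hr
          rw [h1, Polynomial.eval_mul] at this
          exact right_ne_zero_of_mul this
      · rw [← hdeg f _ hf, mul_comm f, ← h1]
    · rintro _ _ _ _ _ rfl rfl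
      rfl

/-- Sequences of polynomials in `Good R`, trivial from `L` on. -/
def Seq (R : Set F) (L : ℕ) : Set (ℕ → Polynomial F) :=
  {f | (∀ i, f i ∈ Good R) ∧ ∀ i, L ≤ i → f i = 1}

/-- The weight of a sequence of polynomials. -/
def sdeg (L : ℕ) (f : ℕ → Polynomial F) : ℕ := ∑ i ∈ Finset.range L, 2 * (i + 1) * (f i).natDegree

theorem seq_bound [Finite F] (R : Set F) (L : ℕ) :
    LF (sdeg L) (Seq R L) ∧
      gfs (sdeg L) (Seq R L) ≤ ∏ i ∈ Finset.range L, aS R (2 * (i + 1)) := by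
  induction L with
  | zero =>
    have h : (Seq R 0).Subsingleton := fun f hf g hg =>
      funext fun i => (hf.2 i i.zero_le).trans (hg.2 i i.zero_le).symm
    refine ⟨fun d => (h.anti fun _ ha => ha.1).finite, ?_⟩
    simpa using gfs_le_X_pow (deg := sdeg 0) h (w := 0) fun a _ => by simp [sdeg]
  | succ L ih =>
    have hw : 0 < 2 * (L + 1) := by omega
    have h1 : ∀ f ∈ Seq R (L + 1), ∃ p ∈ Seq R L ×ˢ Good R,
        f = Function.update p.1 L p.2 ∧
          sdeg L p.1 + 2 * (L + 1) * p.2.natDegree = sdeg (L + 1) f := by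
      intro f hf
      refine ⟨(Function.update f L 1, f L), ⟨⟨fun i => ?_, fun i hi => ?_⟩, hf.1 L⟩, by simp, ?_⟩
      · rcases eq_or_ne i L with rfl | h
        · simp [Good]
        · simpa [Function.update_of_ne h] using hf.1 i
      · rcases eq_or_ne i L with rfl | h
        · simp
        · simpa [Function.update_of_ne h] using hf.2 i (by omega)
      · rw [sdeg, sdeg, Finset.sum_range_succ]
        congr 1
        refine Finset.sum_congr rfl fun i hi => ?_
        dsimp only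
        rw [Function.update_of_ne (Finset.mem_range.1 hi).ne]
    have h2 : ∀ f ∈ Seq R (L + 1), ∀ f' ∈ Seq R (L + 1), ∀ p : (ℕ → Polynomial F) × Polynomial F,
        f = Function.update p.1 L p.2 → f' = Function.update p.1 L p.2 → f = f' := by
      rintro _ _ _ _ _ rfl rfl; rfl
    refine ⟨(ih.1.prod (lf_good R hw)).of_rel _ h1 h2, ?_⟩
    refine (gfs_le_of_rel (ih.1.prod (lf_good R hw)) _ h1 h2).trans ?_
    rw [gfs_prod ih.1 (lf_good R hw), Finset.prod_range_succ]
    exact mul_le_mul_of_nonneg_right ih.2 gfs_nonneg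

end Poly

end Cfsg.Agent.Lib.Wall
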