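import Mathlib
import Cfsg.Agent.Lib.Wall.Count
import Cfsg.Agent.Lib.GL.OrthConj
import Cfsg.Agent.Lib.Forms.QuadTorus

/-!
Quadratic spaces with an isometry, up to isomorphism, and their generating functions.
-/

set_option autoImplicit false

open PowerSeries Module QuadraticMap

namespace Cfsg.Agent.Lib.Wall

open Cfsg.Agent.Lib.Forms Cfsg.Agent.Lib.GL.OrthConj

universe u

/-- A non-degenerate quadratic space with an isometry. -/
structure Obj (F : Type u) [Field F] : Type (u + 1) where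
  V : Type u
  [iA : AddCommGroup V]
  [iM : Module F V]
  [iF : FiniteDimensional F V]
  Q : QuadraticForm F V
  hQ : Nondeg Q
  g : Module.End F V
  hg : ∀ v, Q (g v) = Q v

attribute [instance] Obj.iA Obj.iM Obj.iF

variable {F : Type u} [Field F]

namespace Obj

/-- The dimension. -/
noncomputable def dim (X : Obj F) : ℕ := finrank F X.V

/-- The nilpotent part `g - 1`. -/
def N (X : Obj F) : Module.End F X.V := X.g - 1

theorem N_apply (X : Obj F) (v : X.V) : X.N v = X.g v - v := rfl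

theorem polar_g (X : Obj F) (u v : X.V) : polar X.Q (X.g u) (X.g v) = polar X.Q u v :=
  polar_map_of_isom X.g X.hg u v

theorem g_injective (X : Obj F) : Function.Injective X.g :=
  (injective_iff_map_eq_zero _).2 fun v hv => X.hQ.eq_zero fun w => by
    rw [← X.polar_g, hv]; simp

/-- Orthogonal sum. -/
@[reducible] def prod (X Y : Obj F) : Obj F where
  V := X.V × Y.V
  Q := X.Q.prod Y.Q
  hQ := nondeg_prod X.hQ Y.hQ
  g := X.g.prodMap Y.g
  hg v := by simp [X.hg, Y.hg]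

/-- The negative of the isometry. -/
@[reducible] def neg (X : Obj F) : Obj F where
  V := X.V
  Q := X.Q
  hQ := X.hQ
  g := -X.g
  hg v := by simp [X.hg]

/-- The object of an element of the orthogonal group. -/
@[reducible] def of {V : Type u} [AddCommGroup V] [Module F V] [FiniteDimensional F V] {Q : QuadraticForm F V}
    (hQ : Nondeg Q) (g : OG Q) : Obj F where
  V := V
  Q := Q
  hQ := hQ
  g := g.1
  hg := g.2

/-- Transport along a linear equivalence. -/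
@[reducible] def transport (X : Obj F) {W : Type u} [AddCommGroup W] [Module F W] [FiniteDimensional F W]
    (e : X.V ≃ₗ[F] W) : Obj F where
  V := W
  Q := X.Q.comp e.symm.toLinearMap
  hQ := nondeg_of_isom X.hQ e.symm fun _ => rfl
  g := e.toLinearMap ∘ₗ X.g ∘ₗ e.symm.toLinearMap
  hg v := by simp [X.hg]

theorem dim_prod (X Y : Obj F) : (X.prod Y).dim = X.dim + Y.dim := Module.finrank_prod

theorem dim_neg (X : Obj F) : X.neg.dim = X.dim := rfl

end Obj

/-- Isomorphism of objects; the quadratic form is respected when `b` holds, its polar form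
always. -/
def Iso (b : Prop) (X Y : Obj F) : Prop :=
  ∃ e : X.V ≃ₗ[F] Y.V, (∀ v, e (X.g v) = Y.g (e v)) ∧
    (∀ u v, polar Y.Q (e u) (e v) = polar X.Q u v) ∧ (b → ∀ v, Y.Q (e v) = X.Q v)

variable {b : Prop} {X Y Z A B A' B' : Obj F}

theorem Iso.refl (b : Prop) (X : Obj F) : Iso b X X :=
  ⟨LinearEquiv.refl F _, fun _ => rfl, fun _ _ => rfl, fun _ _ => rfl⟩

theorem Iso.symm (h : Iso b X Y) : Iso b Y X := by
  obtain ⟨e, h1, h2, h3⟩ := h
  refine ⟨e.symm, fun v => e.injective (by simp [h1]), fun u v => ?_, fun hb v => ?_⟩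
  · rw [← h2]; simp
  · rw [← h3 hb]; simp

theorem Iso.trans (h : Iso b X Y) (h' : Iso b Y Z) : Iso b X Z := by
  obtain ⟨e, h1, h2, h3⟩ := h
  obtain ⟨e', h1', h2', h3'⟩ := h'
  exact ⟨e.trans e', fun v => by simp [h1, h1'], fun u v => by simp [h2, h2'],
    fun hb v => by simp [h3 hb, h3' hb]⟩

theorem iso_of_isom (b : Prop) (e : X.V ≃ₗ[F] Y.V) (h1 : ∀ v, e (X.g v) = Y.g (e v))
    (h2 : ∀ v, Y.Q (e v) = X.Q v) : Iso b X Y :=
  ⟨e, h1, polar_map_of_isom e h2, fun _ => h2⟩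

theorem Iso.weaken (h : Iso True X Y) (b : Prop) : Iso b X Y := by
  obtain ⟨e, h1, h2, h3⟩ := h
  exact ⟨e, h1, h2, fun _ => h3 trivial⟩

theorem Iso.dim_eq (h : Iso b X Y) : X.dim = Y.dim := h.choose.finrank_eq

theorem Iso.prod (h : Iso b A A') (h' : Iso b B B') : Iso b (A.prod B) (A'.prod B') := by
  obtain ⟨e, h1, h2, h3⟩ := h
  obtain ⟨e', h1', h2', h3'⟩ := h'
  refine ⟨e.prodCongr e', fun v => Prod.ext (h1 _) (h1' _), fun u v => ?_, fun hb v => ?_⟩
  · exact (polar_prod _ _ _ _).trans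
      ((congrArg₂ (· + ·) (h2 _ _) (h2' _ _)).trans (polar_prod _ _ _ _).symm)
  · exact congrArg₂ (· + ·) (h3 hb _) (h3' hb _)

theorem Iso.neg (h : Iso b X Y) : Iso b X.neg Y.neg := by
  obtain ⟨e, h1, h2, h3⟩ := h
  exact ⟨e, fun v => (map_neg e _).trans (congrArg Neg.neg (h1 v)), h2, h3⟩

theorem iso_neg_neg (b : Prop) (X : Obj F) : Iso b X.neg.neg X :=
  ⟨LinearEquiv.refl F _, fun _ => neg_neg _, fun _ _ => rfl, fun _ _ => rfl⟩

theorem iso_transport (b : Prop) (X : Obj F) {W : Type u} [AddCommGroup W] [Module F W]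
    [FiniteDimensional F W] (e : X.V ≃ₗ[F] W) : Iso b X (X.transport e) :=
  iso_of_isom b e (fun v => by simp) fun v => by simp

/-- An isometric embedding commuting with the isometries. -/
structure Emb (A X : Obj F) where
  f : A.V →ₗ[F] X.V
  map_Q : ∀ v, X.Q (f v) = A.Q v
  map_g : ∀ v, f (A.g v) = X.g (f v)

namespace Emb

theorem map_polar (i : Emb A X) (u v : A.V) : polar X.Q (i.f u) (i.f v) = polar A.Q u v :=
  polar_map_of_isom i.f i.map_Q u v

theorem injective (i : Emb A X) : Function.Injective i.f :=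
  (injective_iff_map_eq_zero _).2 fun v hv => A.hQ.eq_zero fun w => by
    rw [← i.map_polar, hv]; simp

theorem map_N (i : Emb A X) (v : A.V) : i.f (A.N v) = X.N (i.f v) := by
  rw [Obj.N_apply, Obj.N_apply, map_sub, i.map_g]

theorem map_N_pow (i : Emb A X) (k : ℕ) (v : A.V) : i.f ((A.N ^ k) v) = (X.N ^ k) (i.f v) := by
  induction k with
  | zero => rfl
  | succ k ih => rw [pow_succ', pow_succ', Module.End.mul_apply, Module.End.mul_apply, i.map_N, ih]

theorem pow_eq_zero (i : Emb A X) {k : ℕ} (h : X.N ^ k = 0) : A.N ^ k = 0 :=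
  LinearMap.ext fun v => i.injective (by rw [i.map_N_pow, h]; simp)

/-- Composition. -/
def comp (j : Emb Y Z) (i : Emb X Y) : Emb X Z where
  f := j.f ∘ₗ i.f
  map_Q v := (j.map_Q _).trans (i.map_Q _)
  map_g v := (congrArg j.f (i.map_g v)).trans (j.map_g _)

/-- Negation. -/
def neg (i : Emb A X) : Emb A.neg X.neg where
  f := i.f
  map_Q := i.map_Q
  map_g v := (map_neg i.f _).trans (congrArg Neg.neg (i.map_g v))

/-- Removing a negation. -/
def ofNeg (i : Emb A X.neg) : Emb A.neg X where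
  f := i.f
  map_Q := i.map_Q
  map_g v := (map_neg i.f _).trans ((congrArg Neg.neg (i.map_g v)).trans (neg_neg _))

theorem dim_le (i : Emb A X) : A.dim ≤ X.dim := LinearMap.finrank_le_finrank_of_injective i.injective

end Emb

/-- An orthogonal decomposition. -/
structure Split (X A B : Obj F) where
  i : Emb A X
  j : Emb B X
  orth : ∀ a b, polar X.Q (i.f a) (j.f b) = 0
  span : ∀ v, ∃ a b, v = i.f a + j.f b

namespace Split

theorem iso (s : Split X A B) (b : Prop) : Iso b X (A.prod B) := by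
  have hQ : ∀ v : (A.prod B).V, X.Q (s.i.f.coprod s.j.f v) = (A.prod B).Q v := fun v => by
    rw [LinearMap.coprod_apply, Q_add, s.orth, s.i.map_Q, s.j.map_Q, add_zero]; rfl
  let φ : Emb (A.prod B) X := ⟨s.i.f.coprod s.j.f, hQ, fun v => by
    change s.i.f (A.g v.1) + s.j.f (B.g v.2) = X.g (s.i.f v.1 + s.j.f v.2)
    rw [s.i.map_g, s.j.map_g, map_add]⟩
  refine Iso.symm (iso_of_isom b (LinearEquiv.ofBijective φ.f ⟨φ.injective, fun v => ?_⟩)
    φ.map_g φ.map_Q)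
  obtain ⟨a, c, h⟩ := s.span v
  exact ⟨(a, c), h.symm⟩

theorem dim_eq (s : Split X A B) : X.dim = A.dim + B.dim :=
  (s.iso True).dim_eq.trans (A.dim_prod B)

/-- Swapping the summands. -/
def symm (s : Split X A B) : Split X B A where
  i := s.j
  j := s.i
  orth a c := by rw [polar_comm, s.orth]
  span v := by obtain ⟨a, c, h⟩ := s.span v; exact ⟨c, a, by rw [h, add_comm]⟩

/-- Removing a negation. -/
def ofNeg (s : Split X.neg A B) : Split X A.neg B.neg where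
  i := s.i.ofNeg
  j := s.j.ofNeg
  orth := s.orth
  span := s.span

/-- The decomposition of an orthogonal sum. -/
def ofProd (A B : Obj F) : Split (A.prod B) A B where
  i := ⟨LinearMap.inl F _ _, fun v => by simp, fun v => by simp⟩
  j := ⟨LinearMap.inr F _ _, fun v => by simp, fun v => by simp⟩
  orth a c := (polar_prod _ _ _ _).trans (by simp)
  span v := ⟨v.1, v.2, by simp⟩

theorem orth' (s : Split X A B) (a : A.V) (c : B.V) : polar X.Q (s.j.f c) (s.i.f a) = 0 :=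
  s.symm.orth c a

end Split

/-- The restriction to an invariant non-degenerate subspace. -/
@[reducible] def Obj.sub (X : Obj F) (U : Submodule F X.V) (hU : ∀ u ∈ U, X.g u ∈ U)
    (hn : ∀ u ∈ U, (∀ w ∈ U, polar X.Q u w = 0) → u = 0) : Obj F where
  V := U
  Q := X.Q.comp U.subtype
  hQ := nondeg_of fun x hx => Subtype.ext (hn x x.2 fun w hw => by
    rw [← hx ⟨w, hw⟩]; exact polar_map_of_isom U.subtype (fun _ => rfl) x ⟨w, hw⟩)
  g := X.g.restrict hU
  hg v := X.hg v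

/-- The inclusion of an invariant subspace. -/
def Obj.subEmb (X : Obj F) (U : Submodule F X.V) (hU : ∀ u ∈ U, X.g u ∈ U)
    (hn : ∀ u ∈ U, (∀ w ∈ U, polar X.Q u w = 0) → u = 0) : Emb (X.sub U hU hn) X :=
  ⟨U.subtype, fun _ => rfl, fun _ => rfl⟩

theorem Obj.g_mem_perp (X : Obj F) {U : Submodule F X.V} (hU : ∀ u ∈ U, X.g u ∈ U) :
    ∀ v ∈ perp X.Q U, X.g v ∈ perp X.Q U := fun v hv => mem_perp.2 fun u hu => by
  have h1 : Function.Surjective (X.g.restrict hU) :=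
    LinearMap.injective_iff_surjective.1 fun x y h =>
      Subtype.ext (X.g_injective (congrArg Subtype.val h))
  obtain ⟨u', h⟩ := h1 ⟨u, hu⟩
  have : X.g u' = u := congrArg Subtype.val h
  rw [← this, X.polar_g]
  exact mem_perp.1 hv _ u'.2

theorem Obj.exists_split (X : Obj F) (U : Submodule F X.V) (hU : ∀ u ∈ U, X.g u ∈ U)
    (hn : ∀ u ∈ U, (∀ w ∈ U, polar X.Q u w = 0) → u = 0) :
    ∃ (A B : Obj F) (s : Split X A B), LinearMap.range s.i.f = U ∧
      LinearMap.range s.j.f = perp X.Q U := by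
  have hd : Disjoint U (perp X.Q U) := Submodule.disjoint_def.2 fun u hu hu' =>
    hn u hu fun w hw => by rw [polar_comm]; exact mem_perp.1 hu' w hw
  have hn' : ∀ u ∈ perp X.Q U, (∀ w ∈ perp X.Q U, polar X.Q u w = 0) → u = 0 := fun u hu h => by
    have : u ∈ perp X.Q (perp X.Q U) := mem_perp.2 fun w hw => by rw [polar_comm]; exact h w hw
    rw [X.hQ.perp_perp] at this
    exact Submodule.disjoint_def.1 hd u this hu
  have htop : U ⊔ perp X.Q U = ⊤ := by
    apply Submodule.eq_top_of_finrank_eq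
    have h1 := Submodule.finrank_sup_add_finrank_inf_eq U (perp X.Q U)
    have h2 := X.hQ.finrank_perp U
    rw [hd.eq_bot, finrank_bot] at h1
    omega
  refine ⟨X.sub U hU hn, X.sub _ (X.g_mem_perp hU) hn',
    ⟨X.subEmb _ _ _, X.subEmb _ _ _, fun a c => mem_perp.1 c.2 a.1 a.2, fun v => ?_⟩,
    U.range_subtype, (perp X.Q U).range_subtype⟩
  obtain ⟨a, ha, c, hc, h⟩ := Submodule.mem_sup.1 (htop ▸ Submodule.mem_top : v ∈ U ⊔ perp X.Q U)
  exact ⟨⟨a, ha⟩, ⟨c, hc⟩, h.symm⟩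

/-- The Gram lemma. -/
theorem iso_of_gram {ι : Type*} (v : ι → X.V) (w : ι → Y.V)
    (hv : Submodule.span F (Set.range v) = ⊤) (hw : Submodule.span F (Set.range w) = ⊤)
    (hp : ∀ i j, polar Y.Q (w i) (w j) = polar X.Q (v i) (v j))
    (hq : b → ∀ i, Y.Q (w i) = X.Q (v i)) (s : ι → ι) (hsv : ∀ i, X.N (v i) = v (s i))
    (hsw : ∀ i, Y.N (w i) = w (s i)) : Iso b X Y := by
  set p := Finsupp.linearCombination F v
  set p' := Finsupp.linearCombination F w
  have hps : Function.Surjective p := by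
    rw [← LinearMap.range_eq_top, Finsupp.range_linearCombination, hv]
  have hps' : Function.Surjective p' := by
    rw [← LinearMap.range_eq_top, Finsupp.range_linearCombination, hw]
  have hpol : ∀ c d, polar Y.Q (p' c) (p' d) = polar X.Q (p c) (p d) := by
    have : (polarBilin Y.Q).compl₁₂ p' p' = (polarBilin X.Q).compl₁₂ p p := by
      ext i j
      simp [p, p', hp]
    intro c d
    exact LinearMap.congr_fun₂ this c d
  have hker : LinearMap.ker p = LinearMap.ker p' := by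
    ext c
    simp only [LinearMap.mem_ker]
    constructor
    · intro h
      refine Y.hQ.eq_zero fun y => ?_
      obtain ⟨d, rfl⟩ := hps' y
      rw [hpol, h]; simp
    · intro h
      refine X.hQ.eq_zero fun y => ?_
      obtain ⟨d, rfl⟩ := hps y
      rw [← hpol, h]; simp
  let e : X.V ≃ₗ[F] Y.V := (p.quotKerEquivOfSurjective hps).symm.trans
    ((Submodule.quotEquivOfEq _ _ hker).trans (p'.quotKerEquivOfSurjective hps'))
  have he : ∀ c, e (p c) = p' c := fun c => by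
    have : (p.quotKerEquivOfSurjective hps).symm (p c) = Submodule.Quotient.mk c := by
      rw [LinearEquiv.symm_apply_eq]; rfl
    simp only [e, LinearEquiv.trans_apply, this]
    rfl
  have he' : ∀ i, e (v i) = w i := fun i => by simpa [p, p'] using he (Finsupp.single i 1)
  have hpe : ∀ x y, polar Y.Q (e x) (e y) = polar X.Q x y := fun x y => by
    obtain ⟨c, rfl⟩ := hps x
    obtain ⟨d, rfl⟩ := hps y
    rw [he, he, hpol]
  refine ⟨e, fun x => ?_, hpe, fun hb x => ?_⟩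
  · have : e.toLinearMap ∘ₗ X.N = Y.N ∘ₗ e.toLinearMap :=
      LinearMap.ext_on_range hv fun i => by simp [hsv, he', hsw]
    have h1 := LinearMap.congr_fun this x
    simpa [Obj.N_apply] using h1
  · have hx : x ∈ Submodule.span F (Set.range v) := hv ▸ Submodule.mem_top
    induction hx using Submodule.span_induction with
    | mem x hx => obtain ⟨i, rfl⟩ := hx; rw [he', hq hb]
    | zero => simp
    | add x y _ _ hx hy => rw [map_add, Q_add, Q_add, hx, hy, hpe]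
    | smul c x _ hx => rw [map_smul, Q_smul, Q_smul, hx]

/-! ### Generating functions -/

/-- Isomorphism as a setoid. -/
def isoSetoid (F : Type u) [Field F] (b : Prop) : Setoid (Obj F) :=
  ⟨Iso b, Iso.refl b, Iso.symm, Iso.trans⟩

/-- Isomorphism classes. -/
def Cl (F : Type u) [Field F] (b : Prop) : Type (u + 1) := Quotient (isoSetoid F b)

/-- The class of an object. -/
def cl (b : Prop) (X : Obj F) : Cl F b := Quotient.mk (isoSetoid F b) X

theorem cl_eq : cl b X = cl b Y ↔ Iso b X Y := Quotient.eq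

/-- The dimension of a class. -/
noncomputable def cdim : Cl F b → ℕ := Quotient.lift Obj.dim fun _ _ h => Iso.dim_eq h

theorem cdim_cl : cdim (cl b X) = X.dim := rfl

/-- The generating function of the isomorphism classes of a set of objects. -/
noncomputable def gf (b : Prop) (S : Set (Obj F)) : ℝ⟦X⟧ := gfs cdim (cl b '' S)

theorem gf_nonneg {S : Set (Obj F)} : 0 ≤ gf b S := gfs_nonneg

theorem lf_cl [Finite F] (S : Set (Cl F b)) : LF cdim S := fun d => by
  let P := {p : QuadraticForm F (Fin d → F) × Module.End F (Fin d → F) //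
    Nondeg p.1 ∧ ∀ v, p.1 (p.2 v) = p.1 v}
  have : Finite (QuadraticForm F (Fin d → F)) := DFunLike.finite _
  have : Finite (Module.End F (Fin d → F)) := DFunLike.finite _
  let φ : P → Cl F b := fun p => cl b ⟨Fin d → F, p.1.1, p.2.1, p.1.2, p.2.2⟩
  refine (Set.finite_range φ).subset ?_
  rintro c ⟨-, hc⟩
  obtain ⟨X, rfl⟩ := Quotient.exists_rep c
  let e : X.V ≃ₗ[F] (Fin d → F) := LinearEquiv.ofFinrankEq _ _ (by rw [Module.finrank_fin_fun]; exact hc)
  exact ⟨⟨((X.transport e).Q, (X.transport e).g), (X.transport e).hQ, (X.transport e).hg⟩,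
    (cl_eq.2 (iso_transport b X e)).symm⟩

variable [Finite F] {S T U W : Set (Obj F)}

theorem gf_le_of_iso (h : ∀ X ∈ S, ∃ Y ∈ T, Iso b X Y) : gf b S ≤ gf b T :=
  gfs_mono (lf_cl _) (by
    rintro _ ⟨X, hX, rfl⟩
    obtain ⟨Y, hY, h⟩ := h X hX
    exact ⟨Y, hY, (cl_eq.2 h).symm⟩)

theorem gf_mono (h : S ⊆ T) : gf b S ≤ gf b T := gf_le_of_iso fun X hX => ⟨X, h hX, Iso.refl b X⟩

omit [Finite F] in
theorem gf_union_le : gf b (S ∪ T) ≤ gf b S + gf b T := by
  rw [gf, Set.image_union]; exact gfs_union_le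

theorem gf_le_add (h : S ⊆ T ∪ U) : gf b S ≤ gf b T + gf b U := (gf_mono h).trans gf_union_le

omit [Finite F] in
theorem gf_le_gfs {β : Type*} {deg : β → ℕ} {T : Set β} (hT : LF deg T) (R : Obj F → β → Prop)
    (h : ∀ X ∈ S, ∃ p ∈ T, R X p ∧ deg p = X.dim)
    (hi : ∀ X ∈ S, ∀ Y ∈ S, ∀ p, R X p → R Y p → Iso b X Y) : gf b S ≤ gfs deg T := by
  refine gfs_le_of_rel hT (fun c p => ∃ X ∈ S, cl b X = c ∧ R X p) ?_ ?_
  · rintro _ ⟨X, hX, rfl⟩
    obtain ⟨p, hp, h1, h2⟩ := h X hX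
    exact ⟨p, hp, ⟨X, hX, rfl, h1⟩, h2⟩
  · rintro _ - _ - p ⟨X, hX, rfl, h1⟩ ⟨Y, hY, rfl, h2⟩
    exact cl_eq.2 (hi X hX Y hY p h1 h2)

theorem gf_weaken (b : Prop) : gf b S ≤ gf True S :=
  gf_le_gfs (lf_cl _) (fun X c => cl True X = c) (fun X hX => ⟨_, ⟨X, hX, rfl⟩, rfl, rfl⟩)
    fun _ _ _ _ _ h h' => (cl_eq.1 (h.trans h'.symm)).weaken b

/-- Orthogonal sums of an object of `S` and an object of `T`. -/
def Sum (S T : Set (Obj F)) : Set (Obj F) := {X | ∃ A ∈ S, ∃ B ∈ T, Nonempty (Split X A B)}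

theorem gf_sum_le : gf b (Sum S T) ≤ gf b S * gf b T := by
  rw [gf, gf, gf, ← gfs_prod (lf_cl _) (lf_cl _)]
  refine gf_le_gfs ((lf_cl _).prod (lf_cl _))
    (fun X p => ∃ A B, Nonempty (Split X A B) ∧ p = (cl b A, cl b B)) ?_ ?_
  · rintro X ⟨A, hA, B, hB, ⟨s⟩⟩
    exact ⟨_, ⟨⟨A, hA, rfl⟩, ⟨B, hB, rfl⟩⟩, ⟨A, B, ⟨s⟩, rfl⟩, s.dim_eq.symm⟩
  · rintro X - Y - _ ⟨A, B, ⟨s⟩, rfl⟩ ⟨A', B', ⟨s'⟩, h⟩
    obtain ⟨h1, h2⟩ := Prod.ext_iff.1 h
    exact ((s.iso b).trans ((cl_eq.1 h1).prod (cl_eq.1 h2))).trans (s'.iso b).symm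

theorem gf_sum_le_of {f g : ℝ⟦X⟧} (h : gf b S ≤ f) (h' : gf b T ≤ g) : gf b (Sum S T) ≤ f * g :=
  gf_sum_le.trans (mul_le_mul h h' gf_nonneg (gf_nonneg.trans h))

/-- All members of `W` are isomorphic and of dimension `w`. -/
def Single (b : Prop) (W : Set (Obj F)) (w : ℕ) : Prop :=
  (∀ A ∈ W, ∀ B ∈ W, Iso b A B) ∧ ∀ A ∈ W, A.dim = w

omit [Finite F] in
theorem Single.gf_le {w : ℕ} (h : Single b W w) : gf b W ≤ PowerSeries.X ^ w :=
  gfs_le_X_pow (by rintro _ ⟨A, hA, rfl⟩ _ ⟨B, hB, rfl⟩; exact cl_eq.2 (h.1 A hA B hB))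
    (by rintro _ ⟨A, hA, rfl⟩; exact h.2 A hA)

omit [Finite F] in
theorem Single.weaken {w : ℕ} (h : Single True W w) (b : Prop) : Single b W w :=
  ⟨fun A hA B hB => (h.1 A hA B hB).weaken b, h.2⟩

omit [Finite F] in
theorem Single.subset {w : ℕ} (h : Single b W w) (h' : S ⊆ W) : Single b S w :=
  ⟨fun A hA B hB => h.1 A (h' hA) B (h' hB), fun A hA => h.2 A (h' hA)⟩

theorem gf_star {w : ℕ} (hw : 0 < w) (hW : Single b W w) (h : S ⊆ T ∪ Sum W S) :
    gf b S ≤ geom 1 w * gf b T :=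
  le_geom_mul hw ((gf_le_add h).trans (add_le_add le_rfl (gf_sum_le_of hW.gf_le le_rfl)))

/-- The objects whose negative lies in `S`. -/
def negS (S : Set (Obj F)) : Set (Obj F) := {X | X.neg ∈ S}

theorem gf_negS : gf b (negS S) ≤ gf b S :=
  gf_le_gfs (lf_cl _) (fun X c => cl b X.neg = c) (fun X hX => ⟨_, ⟨X.neg, hX, rfl⟩, rfl, rfl⟩)
    fun X _ Y _ _ h h' => ((iso_neg_neg b X).symm.trans (cl_eq.1 (h.trans h'.symm)).neg).trans
      (iso_neg_neg b Y)

/-- A multiplicative sign invariant. -/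
structure Ty (F : Type u) [Field F] where
  τ : Obj F → ℤˣ
  iso : ∀ X Y, Iso True X Y → τ X = τ Y
  prod : ∀ A B : Obj F, τ (A.prod B) = τ A * τ B
  neg : ∀ X : Obj F, τ X.neg = τ X

variable {τ : Ty F}

omit [Finite F] in
theorem Split.τ_eq (s : Split X A B) : τ.τ X = τ.τ A * τ.τ B :=
  (τ.iso _ _ (s.iso True)).trans (τ.prod A B)

/-- The members of `S` of type `ε`. -/
def Ty.sel (τ : Ty F) (S : Set (Obj F)) (ε : ℤˣ) : Set (Obj F) := {X | X ∈ S ∧ τ.τ X = ε}

/-- A bound for the classes of each type. -/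
def TB (τ : Ty F) (S : Set (Obj F)) (f : ℝ⟦X⟧) : Prop := ∀ ε, gf True (τ.sel S ε) ≤ f

theorem gf_sel_add : gf True (τ.sel S 1) + gf True (τ.sel S (-1)) ≤ gf True S := by
  rw [gf, gf, ← gfs_union_eq (lf_cl _) (lf_cl _), ← Set.image_union]
  · exact gf_mono (Set.union_subset (fun _ h => h.1) fun _ h => h.1)
  · rw [Set.disjoint_left]
    rintro _ ⟨X, hX, rfl⟩ ⟨Y, hY, h⟩
    have := τ.iso _ _ (cl_eq.1 h)
    rw [hX.2, hY.2] at this
    exact absurd this (by decide)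

omit [Finite F] in
theorem TB.nonneg {f : ℝ⟦X⟧} (h : TB τ S f) : 0 ≤ f := gf_nonneg.trans (h 1)

theorem TB.mono {f g : ℝ⟦X⟧} (h : TB τ T f) (hS : S ⊆ T) (hf : f ≤ g) : TB τ S g :=
  fun ε => ((gf_mono (T := τ.sel T ε) fun _ hX => ⟨hS hX.1, hX.2⟩).trans (h ε)).trans hf

theorem TB.of_gf {f : ℝ⟦X⟧} (h : gf True S ≤ f) : TB τ S f :=
  fun _ => (gf_mono fun _ hX => hX.1).trans h

theorem TB.union {f g : ℝ⟦X⟧} (h : TB τ S f) (h' : TB τ T g) : TB τ (S ∪ T) (f + g) := fun ε =>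
  (gf_le_add fun _ hX => hX.1.imp (fun h => ⟨h, hX.2⟩) fun h => ⟨h, hX.2⟩).trans
    (add_le_add (h ε) (h' ε))

theorem TB.sum_left {f g : ℝ⟦X⟧} (h : TB τ S f) (h' : gf True T ≤ g) :
    TB τ (Sum S T) (f * g) := fun ε => by
  have h1 : τ.sel (Sum S T) ε ⊆ Sum (τ.sel S ε) (τ.sel T 1) ∪ Sum (τ.sel S (-ε)) (τ.sel T (-1)) := by
    rintro X ⟨⟨A, hA, B, hB, ⟨s⟩⟩, rfl⟩
    rw [s.τ_eq]
    rcases Int.units_eq_one_or (τ.τ B) with h | h
    · exact Or.inl ⟨A, ⟨hA, by simp [h]⟩, B, ⟨hB, h⟩, ⟨s⟩⟩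
    · exact Or.inr ⟨A, ⟨hA, by simp [h]⟩, B, ⟨hB, h⟩, ⟨s⟩⟩
  refine (gf_le_add h1).trans ((add_le_add (gf_sum_le_of (h _) le_rfl)
    (gf_sum_le_of (h _) le_rfl)).trans ?_)
  rw [← mul_add]
  exact mul_le_mul_of_nonneg_left (gf_sel_add.trans h') h.nonneg

omit [Finite F] in
theorem sum_comm_subset : Sum S T ⊆ Sum T S := by
  rintro X ⟨A, hA, B, hB, ⟨s⟩⟩
  exact ⟨B, hB, A, hA, ⟨s.symm⟩⟩

theorem TB.sum_right {f g : ℝ⟦X⟧} (h : gf True S ≤ f) (h' : TB τ T g) :
    TB τ (Sum S T) (f * g) := (h'.sum_left h).mono sum_comm_subset (mul_comm _ _).le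

theorem TB.star {f : ℝ⟦X⟧} {w : ℕ} (hw : 0 < w) (hW : Single True W w) (h : S ⊆ T ∪ Sum W S)
    (hT : TB τ T f) : TB τ S (geom 1 w * f) := by
  obtain ⟨σ, hσ⟩ : ∃ σ, ∀ A ∈ W, τ.τ A = σ := by
    rcases W.eq_empty_or_nonempty with rfl | ⟨A, hA⟩
    · exact ⟨1, fun _ h => h.elim⟩
    · exact ⟨τ.τ A, fun B hB => τ.iso _ _ (hW.1 B hB A hA)⟩
  refine le_geom_mul₂ (f := fun ε => gf True (τ.sel S ε)) hw σ fun ε => ?_
  have h1 : τ.sel S ε ⊆ τ.sel T ε ∪ Sum W (τ.sel S (σ * ε)) := by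
    rintro X ⟨hX, rfl⟩
    rcases h hX with h | ⟨A, hA, B, hB, ⟨s⟩⟩
    · exact Or.inl ⟨h, rfl⟩
    · exact Or.inr ⟨A, hA, B, ⟨hB, by
        rw [s.τ_eq, hσ A hA, ← mul_assoc, Int.units_mul_self, one_mul]⟩, ⟨s⟩⟩
  exact (gf_le_add h1).trans (add_le_add (hT ε) (gf_sum_le_of hW.gf_le le_rfl))

omit [Finite F] in
theorem TB.pair {w : ℕ} (hS : Single True S w) (hT : Single True T w)
    (h : ∀ A ∈ S, ∀ B ∈ T, τ.τ A ≠ τ.τ B) : TB τ (S ∪ T) (PowerSeries.X ^ w) := fun ε => by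
  refine Single.gf_le ⟨?_, fun A hA => hA.1.elim (hS.2 A) (hT.2 A)⟩
  rintro A ⟨hA | hA, h1⟩ B ⟨hB | hB, h2⟩
  · exact hS.1 A hA B hB
  · exact absurd (h1.trans h2.symm) (h A hA B hB)
  · exact absurd (h2.trans h1.symm) (h B hB A hA)
  · exact hT.1 A hA B hB

theorem TB.negS {f : ℝ⟦X⟧} (h : TB τ S f) : TB τ (negS S) f := fun ε =>
  ((gf_mono (T := Wall.negS (τ.sel S ε)) fun X hX => ⟨hX.1, (τ.neg X).trans hX.2⟩).trans
    gf_negS).trans (h ε)

omit [Finite F] in
/-- Conjugacy classes as isomorphism classes of objects. -/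
theorem card_conjClasses_eq {G : Type*} [Group G] (φ : G → Obj F) {d : ℕ}
    (h1 : ∀ g h, IsConj g h ↔ Iso b (φ g) (φ h)) (h2 : ∀ g, φ g ∈ S ∧ (φ g).dim = d)
    (h3 : ∀ X ∈ S, X.dim = d → ∃ g, Iso b X (φ g)) :
    (Nat.card (ConjClasses G) : ℝ) = coeff d (gf b S) := by
  rw [gf, coeff_gfs, ← Nat.card_coe_set_eq]
  let Φ : ConjClasses G → fib cdim (cl b '' S) d := Quotient.lift
    (fun g => ⟨cl b (φ g), ⟨_, (h2 g).1, rfl⟩, (h2 g).2⟩)
    fun g h e => Subtype.ext (cl_eq.2 ((h1 g h).1 e))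
  rw [Nat.card_congr (Equiv.ofBijective Φ ⟨?_, ?_⟩)]
  · intro c c'
    obtain ⟨g, rfl⟩ := Quotient.exists_rep c
    obtain ⟨h, rfl⟩ := Quotient.exists_rep c'
    intro e
    exact Quotient.sound ((h1 g h).2 (cl_eq.1 (congrArg Subtype.val e)))
  · rintro ⟨_, ⟨X, hX, rfl⟩, hd⟩
    obtain ⟨g, hg⟩ := h3 X hX hd
    exact ⟨Quotient.mk _ g, Subtype.ext (cl_eq.2 hg.symm)⟩

end Cfsg.Agent.Lib.Wall
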