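import Mathlib
import Cfsg.Agent.Lib.Wall.Obj
import Cfsg.Agent.Lib.GL.JordanForm

/-!
Unipotent isometries: splitting off cyclic blocks and pairs of blocks.
-/

set_option autoImplicit false

open Module QuadraticMap

namespace Cfsg.Agent.Lib.Wall

open Cfsg.Agent.Lib.Forms Cfsg.Agent.Lib.GL.Jordan

universe u

variable {F : Type u} [Field F] {X Y A B : Obj F}

namespace Obj

/-- `q_j(x) = Q(N^j x)`. -/
def q (X : Obj F) (j : ℕ) (x : X.V) : F := X.Q ((X.N ^ j) x)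

/-- `γ_r(x, y) = B(N^r x, y)`. -/
def γ (X : Obj F) (r : ℕ) (x y : X.V) : F := polar X.Q ((X.N ^ r) x) y

theorem inv (X : Obj F) : Inv (polarBilin X.Q) X.N := inv_iff_sub_one.2 X.polar_g

theorem rel (x y : X.V) :
    polar X.Q (X.N x) y + polar X.Q x (X.N y) + polar X.Q (X.N x) (X.N y) = 0 := X.inv.rel x y

theorem pow_N_apply (a : ℕ) (x : X.V) : X.N ((X.N ^ a) x) = (X.N ^ (a + 1)) x := by
  rw [pow_succ', Module.End.mul_apply]

theorem pow_apply_N (a : ℕ) (x : X.V) : (X.N ^ a) (X.N x) = (X.N ^ (a + 1)) x := by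
  rw [pow_succ, Module.End.mul_apply]

theorem pow_pow_apply (a c : ℕ) (x : X.V) : (X.N ^ a) ((X.N ^ c) x) = (X.N ^ (a + c)) x := by
  rw [pow_add, Module.End.mul_apply]

theorem pow_apply_eq_zero {m a : ℕ} (hN : X.N ^ m = 0) (h : m ≤ a) (x : X.V) :
    (X.N ^ a) x = 0 := by
  rw [pow_eq_zero_of_le h hN]; rfl

theorem pol_zero {m a c : ℕ} (hN : X.N ^ m = 0) (h : m ≤ a + c) (x y : X.V) :
    polar X.Q ((X.N ^ a) x) ((X.N ^ c) y) = 0 :=
  X.inv.pow_left_eq_zero x (by rw [pow_pow_apply, pow_apply_eq_zero hN h])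

theorem pol_top {r a c : ℕ} (hN : X.N ^ (r + 1) = 0) (h : a + c = r) (x y : X.V) :
    polar X.Q ((X.N ^ a) x) ((X.N ^ c) y) = (-1) ^ c * X.γ r x y := by
  subst h
  have := X.inv.pow_add_left a c x (pow_apply_eq_zero hN le_rfl y)
  simp only [polarBilin_apply_apply] at this
  rw [γ, this, ← mul_assoc, ← mul_pow]
  simp

theorem γ_comm {r : ℕ} (hN : X.N ^ (r + 1) = 0) (x y : X.V) :
    X.γ r y x = (-1) ^ r * X.γ r x y := by
  rw [← pol_top hN (zero_add r), γ, polar_comm]; rfl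

theorem γ_add_left (r : ℕ) (x x' y : X.V) : X.γ r (x + x') y = X.γ r x y + X.γ r x' y := by
  simp [γ, polar_add_left]

theorem γ_add_right (r : ℕ) (x y y' : X.V) : X.γ r x (y + y') = X.γ r x y + X.γ r x y' := by
  simp [γ, polar_add_right]

theorem γ_smul_left (r : ℕ) (c : F) (x y : X.V) : X.γ r (c • x) y = c * X.γ r x y := by
  simp [γ, polar_smul_left]

theorem γ_smul_right (r : ℕ) (c : F) (x y : X.V) : X.γ r x (c • y) = c * X.γ r x y := by
  simp [γ, polar_smul_right]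

theorem γ_N_left {r : ℕ} (hN : X.N ^ (r + 1) = 0) (x y : X.V) : X.γ r (X.N x) y = 0 := by
  rw [γ, pow_apply_N, pow_apply_eq_zero hN le_rfl]; simp

theorem γ_N_right {r : ℕ} (hN : X.N ^ (r + 1) = 0) (x y : X.V) : X.γ r x (X.N y) = 0 := by
  rw [γ_comm hN, γ_N_left hN, mul_zero]

theorem exists_γ_ne_zero {r : ℕ} (h : X.N ^ r ≠ 0) : ∃ x y, X.γ r x y ≠ 0 := by
  by_contra! H
  exact h (LinearMap.ext fun x => X.hQ.eq_zero (H x))

theorem q_add (j : ℕ) (x y : X.V) :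
    X.q j (x + y) = X.q j x + X.q j y + polar X.Q ((X.N ^ j) x) ((X.N ^ j) y) := by
  rw [q, map_add, Q_add]; rfl

theorem q_smul (j : ℕ) (c : F) (x : X.V) : X.q j (c • x) = c * c * X.q j x := by
  rw [q, map_smul, Q_smul]; rfl

theorem q_pow (j s : ℕ) (x : X.V) : X.q j ((X.N ^ s) x) = X.q (j + s) x := by
  rw [q, pow_pow_apply]; rfl

theorem q_N (j : ℕ) (x : X.V) : X.q j (X.N x) = X.q (j + 1) x := by
  rw [q, pow_apply_N]; rfl

theorem Q_N (x : X.V) : X.Q (X.N x) = -polar X.Q x (X.N x) := by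
  have h := X.hg x
  rw [show X.g x = x + X.N x by simp [N_apply], Q_add] at h
  linear_combination h

theorem q_succ (j : ℕ) (x : X.V) :
    X.q (j + 1) x = -polar X.Q ((X.N ^ j) x) ((X.N ^ (j + 1)) x) := by
  rw [q, ← pow_N_apply, Q_N]

theorem q_eq_zero {m j : ℕ} (hN : X.N ^ m = 0) (h : m + 1 ≤ 2 * j) (x : X.V) : X.q j x = 0 := by
  obtain ⟨j, rfl⟩ : ∃ k, j = k + 1 := ⟨j - 1, by omega⟩
  rw [q_succ, pol_zero hN (by omega), neg_zero]

theorem γ_self_even {k : ℕ} (hN : X.N ^ (2 * k + 1) = 0) (x : X.V) :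
    X.γ (2 * k) x x = (-1) ^ k * (2 * X.q k x) := by
  have := pol_top hN (show k + k = 2 * k by ring) x x
  rw [polar_self'] at this
  rw [q, this, ← mul_assoc, ← mul_pow]; simp

theorem γ_self_odd {k : ℕ} (hN : X.N ^ (2 * k + 1 + 1) = 0) (x : X.V) :
    X.γ (2 * k + 1) x x = (-1) ^ k * X.q (k + 1) x := by
  have := pol_top hN (show k + (k + 1) = 2 * k + 1 by ring) x x
  rw [q_succ, this, pow_succ]
  have h : ((-1 : F) ^ k) * (-1) ^ k = 1 := by rw [← mul_pow]; simp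
  linear_combination (-X.γ (2 * k + 1) x x) * h

theorem q_add_N {r j : ℕ} (hN : X.N ^ (r + 1) = 0) (h : r ≤ 2 * j) (x z : X.V) :
    X.q j (x + X.N z) = X.q j x := by
  rw [q_add, q_N, q_eq_zero hN (j := j + 1) (by omega), pow_apply_N, pol_zero hN (by omega)]; simp

theorem adjust {r : ℕ} (hN : X.N ^ (r + 1) = 0) {U : Submodule F X.V} (hU : ∀ u ∈ U, X.N u ∈ U)
    {y : X.V} (hy : y ∈ U) (i₀ : ℕ) (h1 : 2 * i₀ ≤ r + 1)
    (h2 : ∀ l, r + 1 ≤ l + i₀ → X.q l y = 0) {x : X.V} (hγ : X.γ r x y ≠ 0) :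
    ∃ z ∈ U, (∀ i < i₀, X.q i (x + X.N z) = 0) ∧ ∀ i, i₀ ≤ i → X.q i (x + X.N z) = X.q i x := by
  have hUp : ∀ s, (X.N ^ s) y ∈ U := fun s => by
    induction s with
    | zero => exact hy
    | succ s ih => rw [← pow_N_apply]; exact hU _ ih
  induction i₀ generalizing x with
  | zero => exact ⟨0, U.zero_mem, fun i hi => by omega, fun i _ => by simp⟩
  | succ i ih =>
    obtain ⟨s, rfl⟩ : ∃ s, r = 2 * i + s + 1 := ⟨r - (2 * i + 1), by omega⟩
    have key : ∀ (c : F) (l : ℕ), i ≤ l → X.q l (x + X.N (c • (X.N ^ s) y)) =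
        X.q l x + c * polar X.Q ((X.N ^ l) x) ((X.N ^ (l + s + 1)) y) := fun c l hl => by
      rw [map_smul, pow_N_apply, q_add, q_smul, q_pow, h2 _ (by omega), map_smul, pow_pow_apply,
        polar_smul_right]
      simp [add_assoc]
    set c := -X.q i x * ((-1) ^ (i + s + 1) * X.γ (2 * i + s + 1) x y)⁻¹
    obtain ⟨z, hz, h3, h4⟩ := ih (x := x + X.N (c • (X.N ^ s) y)) (by omega)
      (fun l hl => h2 l (by omega)) (by rwa [γ_add_left, γ_N_left hN, add_zero])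
    refine ⟨c • (X.N ^ s) y + z, U.add_mem (U.smul_mem _ (hUp s)) hz, fun l hl => ?_,
      fun l hl => ?_⟩
    · rw [map_add, ← add_assoc]
      rcases Nat.lt_succ_iff_lt_or_eq.1 hl with h | rfl
      · exact h3 l h
      · rw [h4 l le_rfl, key c l le_rfl, pol_top hN (by ring)]
        have : ((-1 : F) ^ (l + s + 1) * X.γ (2 * l + s + 1) x y) ≠ 0 :=
          mul_ne_zero (pow_ne_zero _ (by simp)) hγ
        simp only [c]
        field_simp
        ring
    · rw [map_add, ← add_assoc, h4 l (by omega), key c l (by omega), pol_zero hN (by omega)]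
      simp

theorem fixpair {r : ℕ} (hN : X.N ^ (r + 1) = 0) {x y : X.V} (hγ : X.γ r x y ≠ 0) (w : X.V) :
    ∃ z, ∀ a < r, polar X.Q ((X.N ^ a) x) (w + X.N z) = 0 := by
  suffices h : ∀ k, ∃ z, ∀ a < r, r ≤ a + k → polar X.Q ((X.N ^ a) x) (w + X.N z) = 0 by
    obtain ⟨z, hz⟩ := h r
    exact ⟨z, fun a ha => hz a ha (by omega)⟩
  intro k
  induction k with
  | zero => exact ⟨0, fun a ha h => by omega⟩
  | succ k ih =>
    obtain ⟨z, hz⟩ := ih
    by_cases hk : r ≤ k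
    · exact ⟨z, fun a ha _ => hz a ha (by omega)⟩
    obtain ⟨a₀, rfl⟩ : ∃ a₀, r = a₀ + (k + 1) := ⟨r - (k + 1), by omega⟩
    set c := -polar X.Q ((X.N ^ a₀) x) (w + X.N z) *
      ((-1) ^ (k + 1) * X.γ (a₀ + (k + 1)) x y)⁻¹
    refine ⟨z + c • (X.N ^ k) y, fun a ha h => ?_⟩
    rw [map_add, ← add_assoc, polar_add_right, map_smul, polar_smul_right, pow_N_apply]
    rcases (show a₀ ≤ a by omega).eq_or_lt with rfl | h'
    · rw [pol_top hN rfl]
      have : ((-1 : F) ^ (k + 1) * X.γ (a₀ + (k + 1)) x y) ≠ 0 :=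
        mul_ne_zero (pow_ne_zero _ (by simp)) hγ
      simp only [c, smul_eq_mul]
      field_simp
      ring
    · rw [hz a ha (by omega), pol_zero hN (by omega)]
      simp

section Cyc

variable {κ : Type} {x : κ → X.V}

/-- The span of the `N^a x_i` with `a ≥ s`. -/
def cyc (X : Obj F) (x : κ → X.V) (s : ℕ) : Submodule F X.V :=
  Submodule.span F (Set.range fun p : ℕ × κ => (X.N ^ (s + p.1)) (x p.2))

theorem pow_mem_cyc {s a : ℕ} (h : s ≤ a) (i : κ) : (X.N ^ a) (x i) ∈ X.cyc x s := by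
  obtain ⟨c, rfl⟩ := Nat.exists_eq_add_of_le h
  exact Submodule.subset_span ⟨(c, i), rfl⟩

theorem cyc_le {s : ℕ} {U : Submodule F X.V} (h : ∀ a i, s ≤ a → (X.N ^ a) (x i) ∈ U) :
    X.cyc x s ≤ U :=
  Submodule.span_le.2 (by rintro _ ⟨p, rfl⟩; exact h _ _ (by omega))

theorem cyc_anti {s t : ℕ} (h : s ≤ t) : X.cyc x t ≤ X.cyc x s :=
  cyc_le fun _ i ha => pow_mem_cyc (h.trans ha) i

theorem N_mem_cyc {s : ℕ} {v : X.V} (hv : v ∈ X.cyc x s) : X.N v ∈ X.cyc x s :=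
  cyc_le (U := (X.cyc x s).comap X.N) (fun a i ha => by
    rw [Submodule.mem_comap, pow_N_apply]; exact pow_mem_cyc (by omega) i) hv

theorem g_mem_cyc {s : ℕ} {v : X.V} (hv : v ∈ X.cyc x s) : X.g v ∈ X.cyc x s := by
  rw [show X.g v = v + X.N v by simp [N_apply]]
  exact Submodule.add_mem _ hv (N_mem_cyc hv)

theorem exists_pow_of_mem_cyc {s : ℕ} {v : X.V} (hv : v ∈ X.cyc x s) : ∃ w, (X.N ^ s) w = v :=
  cyc_le (U := LinearMap.range (X.N ^ s)) (fun a i ha => by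
    obtain ⟨c, rfl⟩ := Nat.exists_eq_add_of_le ha
    exact ⟨_, pow_pow_apply _ _ _⟩) hv

theorem eq_zero_of_mem_cyc {m : ℕ} (hN : X.N ^ m = 0) {v : X.V} (hv : v ∈ X.cyc x m) : v = 0 := by
  obtain ⟨w, rfl⟩ := exists_pow_of_mem_cyc hv
  exact pow_apply_eq_zero hN le_rfl w

theorem mem_perp_cyc {s : ℕ} {v : X.V} (h : ∀ a i, s ≤ a → polar X.Q ((X.N ^ a) (x i)) v = 0) :
    v ∈ perp X.Q (X.cyc x s) :=
  mem_perp_span.2 (by rintro _ ⟨p, rfl⟩; exact h _ _ (by omega))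

variable [Fintype κ]

/-- The combination `N^s (∑ c_i x_i)`. -/
def lc (X : Obj F) (x : κ → X.V) (s : ℕ) : (κ → F) →ₗ[F] X.V :=
  (X.N ^ s) ∘ₗ Fintype.linearCombination F x

theorem lc_apply (s : ℕ) (c : κ → F) : X.lc x s c = (X.N ^ s) (∑ i, c i • x i) := by
  simp [lc, Fintype.linearCombination_apply]

theorem cyc_eq_sup (s : ℕ) : X.cyc x s = LinearMap.range (X.lc x s) ⊔ X.cyc x (s + 1) := by
  classical
  refine le_antisymm (cyc_le fun a i ha => ?_) (sup_le ?_ (cyc_anti s.le_succ))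
  · rcases ha.eq_or_lt with rfl | h
    · exact Submodule.mem_sup_left ⟨Pi.single i 1, by simp [lc]⟩
    · exact Submodule.mem_sup_right (pow_mem_cyc h i)
  · rintro _ ⟨c, rfl⟩
    rw [lc_apply, map_sum]
    exact Submodule.sum_mem _ fun i _ => by
      rw [map_smul]; exact Submodule.smul_mem _ _ (pow_mem_cyc le_rfl i)

theorem exists_of_mem_cyc {s : ℕ} {v : X.V} (hv : v ∈ X.cyc x s) :
    ∃ c : κ → F, ∃ w ∈ X.cyc x (s + 1), v = (X.N ^ s) (∑ i, c i • x i) + w := by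
  rw [cyc_eq_sup] at hv
  obtain ⟨_, ⟨c, rfl⟩, w, hw, rfl⟩ := Submodule.mem_sup.1 hv
  exact ⟨c, w, hw, by rw [lc_apply]⟩

/-- The top form is non-degenerate on the family `x`. -/
def Top (X : Obj F) (r : ℕ) (x : κ → X.V) : Prop :=
  ∀ c : κ → F, (∀ l, X.γ r (∑ i, c i • x i) (x l) = 0) → c = 0

variable {r : ℕ}

theorem Top.eq_zero (hx : X.Top r x) (hN : X.N ^ (r + 1) = 0) {s a : ℕ} (h : s + a = r)
    {c : κ → F} {w : X.V} (hw : w ∈ X.cyc x (s + 1))
    (h0 : ∀ l, polar X.Q ((X.N ^ s) (∑ i, c i • x i) + w) ((X.N ^ a) (x l)) = 0) : c = 0 :=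
  hx c fun l => by
    obtain ⟨w, rfl⟩ := exists_pow_of_mem_cyc hw
    have := h0 l
    rw [polar_add_left, pol_zero hN (a := s + 1) (by omega), add_zero, pol_top hN h] at this
    exact (mul_eq_zero.1 this).resolve_left (pow_ne_zero _ (by simp))

theorem Top.mem_cyc (hx : X.Top r x) (hN : X.N ^ (r + 1) = 0) {s t : ℕ} (h : s + t ≤ r + 1)
    {v : X.V} (hv : v ∈ X.cyc x 0) (h0 : v ∈ perp X.Q (X.cyc x t)) : v ∈ X.cyc x s := by
  induction s with
  | zero => exact hv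
  | succ s ih =>
    obtain ⟨c, w, hw, rfl⟩ := exists_of_mem_cyc (ih (by omega))
    obtain rfl := hx.eq_zero hN (show s + (r - s) = r by omega) hw fun l => by
      rw [polar_comm]; exact mem_perp.1 h0 _ (pow_mem_cyc (by omega) l)
    simpa using hw

theorem Top.nondeg (hx : X.Top r x) (hN : X.N ^ (r + 1) = 0) :
    ∀ u ∈ X.cyc x 0, (∀ w ∈ X.cyc x 0, polar X.Q u w = 0) → u = 0 := fun u hu h =>
  eq_zero_of_mem_cyc hN (hx.mem_cyc hN (t := 0) le_rfl hu
    (mem_perp.2 fun w hw => by rw [polar_comm]; exact h w hw))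

theorem Top.finrank_cyc (hx : X.Top r x) (hN : X.N ^ (r + 1) = 0) {s k : ℕ} (h : s + k = r + 1) :
    finrank F (X.cyc x s) = k * Fintype.card κ := by
  induction k generalizing s with
  | zero =>
    obtain rfl : s = r + 1 := h
    rw [(Submodule.eq_bot_iff _).2 fun v hv => eq_zero_of_mem_cyc hN hv]
    simp
  | succ k ih =>
    have h1 := Submodule.finrank_sup_add_finrank_inf_eq (LinearMap.range (X.lc x s))
      (X.cyc x (s + 1))
    have h2 : ∀ c, X.lc x s c ∈ X.cyc x (s + 1) → c = 0 := fun c hc =>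
      hx.eq_zero hN (show s + k = r by omega) (Submodule.neg_mem _ hc) fun l => by
        simp [lc_apply]
    have h3 : LinearMap.range (X.lc x s) ⊓ X.cyc x (s + 1) = ⊥ := by
      rw [Submodule.eq_bot_iff]
      rintro _ ⟨⟨c, rfl⟩, hc⟩
      rw [h2 c hc, map_zero]
    have h4 : Function.Injective (X.lc x s) :=
      (injective_iff_map_eq_zero _).2 fun c hc => h2 c (hc ▸ Submodule.zero_mem _)
    rw [← cyc_eq_sup, h3, finrank_bot, LinearMap.finrank_range_of_inj h4,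
      ih (s := s + 1) (by omega)] at h1
    simp only [finrank_fintype_fun_eq_card] at h1
    rw [add_zero] at h1
    rw [h1]; ring

end Cyc

end Obj

theorem Emb.map_q (i : Emb A X) (j : ℕ) (v : A.V) : X.q j (i.f v) = A.q j v := by
  rw [Obj.q, ← i.map_N_pow, i.map_Q]; rfl

theorem Emb.map_γ (i : Emb A X) (r : ℕ) (u v : A.V) : X.γ r (i.f u) (i.f v) = A.γ r u v := by
  rw [Obj.γ, ← i.map_N_pow, i.map_polar]; rfl

/-- Blocks with `n` generators of Jordan size `r + 1` with prescribed data. -/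
def Blk (r n : ℕ) (d : Fin n → ℕ → F) : Set (Obj F) :=
  {X | X.N ^ (r + 1) = 0 ∧ ∃ x : Fin n → X.V, X.cyc x 0 = ⊤ ∧ X.Top r x ∧
    (∀ i a, X.q a (x i) = d i a) ∧
      ∀ i l, i < l → ∀ a, X.γ a (x i) (x l) = if a = r then 1 else 0}

theorem Blk.dim_eq {r n : ℕ} {d : Fin n → ℕ → F} (h : X ∈ Blk r n d) : X.dim = (r + 1) * n := by
  obtain ⟨hN, x, h1, h2, -⟩ := h
  have := h2.finrank_cyc hN (zero_add _)
  rwa [h1, finrank_top, Fintype.card_fin] at this

theorem gram_cyc {x : X.V} {y : Y.V} (h0 : 2 * Y.q 0 y = 2 * X.q 0 x)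
    (h1 : ∀ a, Y.q (a + 1) y = X.q (a + 1) x) (a c : ℕ) :
    polar Y.Q ((Y.N ^ a) y) ((Y.N ^ c) y) = polar X.Q ((X.N ^ a) x) ((X.N ^ c) x) := by
  have key : ∀ k a, polar Y.Q ((Y.N ^ a) y) ((Y.N ^ (a + k)) y) =
      polar X.Q ((X.N ^ a) x) ((X.N ^ (a + k)) x) := by
    intro k
    induction k using Nat.twoStepInduction with
    | zero =>
      intro a
      rw [add_zero, polar_self', polar_self']
      cases a with
      | zero => exact h0
      | succ a => exact congrArg _ (h1 a)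
    | one =>
      intro a
      have := h1 a
      rw [Obj.q_succ, Obj.q_succ] at this
      exact neg_injective this
    | more k ih1 ih2 =>
      intro a
      have e1 := Obj.rel ((Y.N ^ a) y) ((Y.N ^ (a + 1 + k)) y)
      have e2 := Obj.rel ((X.N ^ a) x) ((X.N ^ (a + 1 + k)) x)
      simp only [Obj.pow_N_apply] at e1 e2
      have e3 := ih1 (a + 1)
      have e4 := ih2 (a + 1)
      rw [show a + (k + 2) = a + 1 + k + 1 by ring]
      rw [← add_assoc] at e4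
      linear_combination e1 - e2 - e3 - e4
  rcases le_total a c with h | h
  · obtain ⟨k, rfl⟩ := Nat.exists_eq_add_of_le h
    exact key k a
  · obtain ⟨k, rfl⟩ := Nat.exists_eq_add_of_le h
    rw [polar_comm, key, polar_comm]

theorem gram_pair {m : ℕ} (hX : X.N ^ m = 0) (hY : Y.N ^ m = 0) {x x' : X.V} {y y' : Y.V}
    (h : ∀ a, Y.γ a y y' = X.γ a x x') (a c : ℕ) :
    polar Y.Q ((Y.N ^ a) y) ((Y.N ^ c) y') = polar X.Q ((X.N ^ a) x) ((X.N ^ c) x') := by
  induction c generalizing a with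
  | zero => exact h a
  | succ c ih =>
    suffices H : ∀ k a, m ≤ a + k → polar Y.Q ((Y.N ^ a) y) ((Y.N ^ (c + 1)) y') =
        polar X.Q ((X.N ^ a) x) ((X.N ^ (c + 1)) x') from H m a (by omega)
    intro k
    induction k with
    | zero => intro a ha; rw [Obj.pol_zero hX (by omega), Obj.pol_zero hY (by omega)]
    | succ k ih' =>
      intro a ha
      have e1 := Obj.rel ((Y.N ^ a) y) ((Y.N ^ c) y')
      have e2 := Obj.rel ((X.N ^ a) x) ((X.N ^ c) x')
      simp only [Obj.pow_N_apply] at e1 e2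
      linear_combination e1 - e2 - ih (a + 1) - ih' (a + 1) (by omega)

theorem iso_blk {b : Prop} {r n : ℕ} {d d' : Fin n → ℕ → F} (hX : X ∈ Blk r n d)
    (hY : Y ∈ Blk r n d') (h0 : ∀ i, 2 * d' i 0 = 2 * d i 0)
    (h1 : ∀ i a, d' i (a + 1) = d i (a + 1)) (hb : b → ∀ i, d' i 0 = d i 0) : Iso b X Y := by
  obtain ⟨hN, x, hx1, -, hx2, hx3⟩ := hX
  obtain ⟨hN', y, hy1, -, hy2, hy3⟩ := hY
  refine iso_of_gram _ _ hx1 hy1 ?_ ?_ (fun p => (p.1 + 1, p.2))
    (fun p => by rw [Obj.pow_N_apply, add_assoc]) fun p => by rw [Obj.pow_N_apply, add_assoc]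
  · rintro ⟨a, i⟩ ⟨c, l⟩
    rcases lt_trichotomy i l with h | rfl | h
    · exact gram_pair hN hN' (fun a => (hy3 i l h a).trans (hx3 i l h a).symm) _ _
    · exact gram_cyc (by rw [hx2, hy2, h0]) (fun a => by rw [hx2, hy2, h1]) _ _
    · rw [polar_comm, polar_comm X.Q]
      exact gram_pair hN hN' (fun a => (hy3 l i h a).trans (hx3 l i h a).symm) _ _
  · rintro hb' ⟨a, i⟩
    refine (hy2 i _).trans (Eq.trans ?_ (hx2 i _).symm)
    cases a with
    | zero => exact hb hb' i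
    | succ a => rw [zero_add]; exact h1 i a

theorem single_blk (r n : ℕ) (d : Fin n → ℕ → F) : Single True (Blk r n d) ((r + 1) * n) :=
  ⟨fun _ hA _ hB => iso_blk hA hB (fun _ => rfl) (fun _ _ => rfl) fun _ _ => rfl,
    fun _ hA => Blk.dim_eq hA⟩

/-- A decomposition `X = A ⊥ B` in which `A` is generated by `x` modulo the image of `N`. -/
structure Peel (X : Obj F) (r : ℕ) {n : ℕ} (x : Fin n → X.V) (d : Fin n → ℕ → F) (B : Obj F) where
  A : Obj F
  mem : A ∈ Blk r n d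
  s : Split X A B
  orth : ∀ i c, X.γ r (x i) (s.j.f c) = 0
  span : ∀ v, ∃ (c : Fin n → F) (z : X.V) (w : B.V), v = ∑ i, c i • x i + X.N z + s.j.f w

theorem exists_peel {r n : ℕ} (hN : X.N ^ (r + 1) = 0) {x x' : Fin n → X.V}
    (hx : ∀ i, ∃ z, x' i = x i + X.N z) (ht : X.Top r x') {d : Fin n → ℕ → F}
    (hd : ∀ i a, X.q a (x' i) = d i a)
    (he : ∀ i l, i < l → ∀ a, X.γ a (x' i) (x' l) = if a = r then 1 else 0) :
    ∃ B, Nonempty (Peel X r x d B) := by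
  obtain ⟨A, B, s, h1, h2⟩ := X.exists_split (X.cyc x' 0) (fun _ => Obj.g_mem_cyc) (ht.nondeg hN)
  have h3 : ∀ i, ∃ y, s.i.f y = x' i := fun i =>
    (h1.symm ▸ Obj.pow_mem_cyc (x := x') (le_refl 0) i : x' i ∈ LinearMap.range s.i.f)
  choose y hy using h3
  choose z hz using hx
  refine ⟨B, ⟨⟨A, ⟨s.i.pow_eq_zero hN, y, ?_, fun c hc => ht c fun l => ?_, fun i a => ?_,
    fun i l h a => ?_⟩, s, fun i c => ?_, fun v => ?_⟩⟩⟩
  · apply Submodule.map_injective_of_injective s.i.injective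
    rw [Submodule.map_top, h1, Obj.cyc, Obj.cyc, Submodule.map_span, ← Set.range_comp]
    congr 2
    funext p
    simp [s.i.map_N_pow, hy]
  · rw [← hc l, ← s.i.map_γ, map_sum]
    simp only [map_smul, hy]
  · rw [← s.i.map_q, hy, hd]
  · rw [← s.i.map_γ, hy, hy, he i l h]
  · have : X.γ r (x' i) (s.j.f c) = 0 := by
      rw [← hy, Obj.γ, ← s.i.map_N_pow, s.orth]
    rwa [hz, Obj.γ_add_left, Obj.γ_N_left hN, add_zero] at this
  · obtain ⟨a, w, rfl⟩ := s.span v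
    obtain ⟨c, u, hu, h⟩ := Obj.exists_of_mem_cyc
      (h1 ▸ LinearMap.mem_range_self _ a : s.i.f a ∈ X.cyc x' 0)
    obtain ⟨u, rfl⟩ := Obj.exists_pow_of_mem_cyc hu
    refine ⟨c, ∑ i, c i • z i + u, w, ?_⟩
    rw [h]
    simp [hz, Finset.sum_add_distrib, add_assoc]

theorem exists_peel_one {r : ℕ} (hN : X.N ^ (r + 1) = 0) {x : X.V} (hγ : X.γ r x x ≠ 0) (i₀ : ℕ)
    (h1 : 2 * i₀ ≤ r) {d : ℕ → F} (hd0 : ∀ a < i₀, d a = 0) (hd1 : ∀ a, i₀ ≤ a → d a = X.q a x) :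
    ∃ B, Nonempty (Peel X r ![x] ![d] B) := by
  obtain ⟨z, -, h2, h3⟩ := Obj.adjust hN (U := ⊤) (fun _ _ => trivial) trivial i₀ (by omega)
    (fun l hl => Obj.q_eq_zero hN (by omega) x) hγ
  refine exists_peel hN (x' := ![x + X.N z]) (by simp) (fun c hc => ?_) (fun i a => ?_)
    fun i l h => absurd h (by omega)
  · have := hc 0
    simp only [Fin.sum_univ_one, Matrix.cons_val_zero, Obj.γ_smul_left, Obj.γ_add_left,
      Obj.γ_add_right, Obj.γ_N_left hN, Obj.γ_N_right hN, add_zero] at this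
    funext i
    rw [Subsingleton.elim i 0]
    exact (mul_eq_zero.1 this).resolve_right hγ
  · rw [Subsingleton.elim i 0]
    rcases lt_or_ge a i₀ with h | h
    · exact (h2 a h).trans (hd0 a h).symm
    · exact (h3 a h).trans (hd1 a h).symm

theorem exists_peel_two {r : ℕ} (hN : X.N ^ (r + 1) = 0) {x y : X.V} (hxy : X.γ r x y = 1)
    (hxx : X.γ r x x = 0) (hyy : X.γ r y y = 0) :
    ∃ B, Nonempty (Peel X r ![x, y] ![Pi.single ((r + 1) / 2) (X.q ((r + 1) / 2) x),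
      Pi.single ((r + 1) / 2) (X.q ((r + 1) / 2) y)] B) := by
  set i₀ := (r + 1) / 2 with hi₀
  have hq : ∀ v, X.γ r v v = 0 → ∀ z l, r + 1 ≤ l + i₀ → X.q l (v + X.N z) = 0 := by
    intro v hv z l hl
    by_cases h : r + 2 ≤ 2 * l
    · exact Obj.q_eq_zero hN h _
    · obtain ⟨k, rfl⟩ : ∃ k, r = 2 * k + 1 := ⟨r / 2, by omega⟩
      obtain rfl : l = k + 1 := by omega
      rw [Obj.q_add_N hN (by omega)]
      rw [Obj.γ_self_odd hN] at hv
      exact (mul_eq_zero.1 hv).resolve_left (pow_ne_zero _ (by simp))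
  have hyx : X.γ r y x ≠ 0 := by rw [Obj.γ_comm hN, hxy]; simp
  obtain ⟨z₁, -, h1, h2⟩ := Obj.adjust hN (U := ⊤) (fun _ _ => trivial) trivial i₀ (by omega)
    (fun l hl => by simpa using hq y hyy 0 l hl) (x := x) (by rw [hxy]; exact one_ne_zero)
  set x' := x + X.N z₁ with hx'
  have hx'y : X.γ r x' y = 1 := by rw [hx', Obj.γ_add_left, Obj.γ_N_left hN, add_zero, hxy]
  obtain ⟨z₂, h3⟩ := Obj.fixpair hN (hx'y.trans_ne one_ne_zero) y
  obtain ⟨z₃, h4⟩ := Obj.fixpair hN (hx'y.trans_ne one_ne_zero) x'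
  have hγ : ∀ a w z, r ≤ a → X.γ a x' (w + X.N z) = if a = r then X.γ r x' w else 0 := by
    intro a w z ha
    split_ifs with h
    · rw [h, Obj.γ_add_right, Obj.γ_N_right hN, add_zero]
    · rw [Obj.γ, Obj.pow_apply_eq_zero hN (by omega)]; simp
  have hx'x' : X.γ r x' x' = 0 := by
    simp only [hx', Obj.γ_add_left, Obj.γ_add_right, Obj.γ_N_left hN, Obj.γ_N_right hN, hxx,
      add_zero]
  have h5 : x' + X.N z₃ ∈ perp X.Q (X.cyc ![x'] 0) := Obj.mem_perp_cyc fun a i _ => by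
    rw [Subsingleton.elim i 0]
    rcases lt_or_ge a r with h | h
    · exact h4 a h
    · exact (hγ a x' z₃ h).trans (by rw [hx'x', ite_self])
  have hU : ∀ u ∈ perp X.Q (X.cyc ![x'] 0), X.N u ∈ perp X.Q (X.cyc ![x'] 0) := fun u hu =>
    Submodule.sub_mem _ (X.g_mem_perp (fun _ => Obj.g_mem_cyc) u hu) hu
  obtain ⟨z₄, hz₄, h6, h7⟩ := Obj.adjust hN hU h5 i₀ (by omega)
    (fun l hl => by rw [hx', add_assoc, ← map_add]; exact hq x hxx _ l hl) (x := y + X.N z₂) (by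
      simpa only [hx', Obj.γ_add_left, Obj.γ_add_right, Obj.γ_N_left hN, Obj.γ_N_right hN,
        add_zero] using hyx)
  have hd : ∀ v z, (∀ i < i₀, X.q i (v + X.N z) = 0) → ∀ a,
      X.q a (v + X.N z) = (Pi.single i₀ (X.q i₀ v) : ℕ → F) a := by
    intro v z h a
    rcases lt_trichotomy a i₀ with h' | rfl | h'
    · rw [h a h', Pi.single_eq_of_ne h'.ne]
    · rw [Obj.q_add_N hN (by omega), Pi.single_eq_same]
    · rw [Obj.q_eq_zero hN (by omega), Pi.single_eq_of_ne h'.ne']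
  refine exists_peel hN (x' := ![x', y + X.N (z₂ + z₄)]) 
    (Fin.forall_fin_two.2 ⟨⟨_, rfl⟩, ⟨_, rfl⟩⟩) (fun c hc => ?_) (fun i a => ?_) fun i l h a => ?_
  · have e0 := hc 0
    have e1 := hc 1
    simp only [Fin.sum_univ_two, Matrix.cons_val_zero, Matrix.cons_val_one, hx', Obj.γ_smul_left,
      Obj.γ_add_left, Obj.γ_add_right, Obj.γ_N_left hN, Obj.γ_N_right hN, add_zero, hxx, hyy,
      hxy, mul_zero, zero_add, mul_one] at e0 e1
    funext i
    fin_cases i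
    · exact e1
    · exact (mul_eq_zero.1 e0).resolve_right hyx
  · fin_cases i
    · exact hd x z₁ h1 a
    · exact hd y (z₂ + z₄) (fun i hi => by rw [map_add, ← add_assoc]; exact h6 i hi) a
  · obtain ⟨rfl, rfl⟩ : i = 0 ∧ l = 1 := by revert h; revert i l; decide
    change X.γ a x' (y + X.N (z₂ + z₄)) = _
    rcases lt_or_ge a r with h' | h'
    · rw [if_neg h'.ne, map_add, ← add_assoc, Obj.γ_add_right, Obj.γ, h3 a h', zero_add]
      exact mem_perp.1 (hU _ hz₄) _ (Obj.pow_mem_cyc (x := ![x']) a.zero_le 0)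
    · rw [hγ a y _ h', hx'y]

end Cfsg.Agent.Lib.Wall
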