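import Mathlib
import Cfsg.Agent.Lib.Wall.Nil

/-!
Fitting decomposition; unipotent classes of orthogonal groups in odd characteristic.
-/

set_option autoImplicit false

open Module QuadraticMap PowerSeries

namespace Cfsg.Agent.Lib.Wall

open Cfsg.Agent.Lib.Forms

universe u

variable {F : Type u} [Field F] {A B Y : Obj F} {S T W : Set (Obj F)}

/-- Objects with `N^m = 0`. -/
def E (F : Type u) [Field F] (m : ℕ) : Set (Obj F) := {Y | Y.N ^ m = 0}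

theorem Obj.range_pow_eq_perp (Y : Obj F) (L : ℕ) :
    LinearMap.range (Y.N ^ L) = perp Y.Q (LinearMap.ker (Y.N ^ L)) := by
  apply Submodule.eq_of_le_of_finrank_eq
  · rintro _ ⟨w, rfl⟩
    exact mem_perp.2 fun u hu => by
      rw [polar_comm]; exact Y.inv.pow_left_eq_zero w hu
  · have h1 := Y.hQ.finrank_perp (LinearMap.ker (Y.N ^ L))
    have h2 := LinearMap.finrank_range_add_finrank_ker (Y.N ^ L)
    omega

theorem exists_fitting (Y : Obj F) {L : ℕ} (hL : Y.dim ≤ L) :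
    ∃ (A B : Obj F) (_ : Split Y A B), A ∈ E F L ∧ ∀ v, B.g v = v → v = 0 := by
  have hk : ∀ m, L ≤ m → ∀ v, (Y.N ^ m) v = 0 → (Y.N ^ L) v = 0 := fun m hm v hv => by
    have h1 := Module.End.ker_pow_eq_ker_pow_finrank_of_le (f := Y.N) (hL.trans hm)
    have h2 := Module.End.ker_pow_eq_ker_pow_finrank_of_le (f := Y.N) hL
    exact (h1.trans h2.symm).le hv
  have hp := Y.range_pow_eq_perp L
  have hd : ∀ u ∈ LinearMap.ker (Y.N ^ L), u ∈ perp Y.Q (LinearMap.ker (Y.N ^ L)) → u = 0 := by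
    intro u hu h
    obtain ⟨w, rfl⟩ := hp.ge h
    exact hk (L + L) (by omega) w (by rw [← Obj.pow_pow_apply]; exact hu)
  obtain ⟨A, B, s, h1, h2⟩ := Y.exists_split (LinearMap.ker (Y.N ^ L)) (fun u hu => by
      rw [show Y.g u = u + Y.N u by simp [Obj.N_apply], LinearMap.mem_ker, map_add, hu,
        Obj.pow_apply_N, ← Obj.pow_N_apply, hu]
      simp)
    fun u hu h => hd u hu (mem_perp.2 fun w hw => by rw [polar_comm]; exact h w hw)
  refine ⟨A, B, s, LinearMap.ext fun v => s.i.injective ?_, fun v hv => s.j.injective ?_⟩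
  · rw [s.i.map_N_pow, LinearMap.zero_apply, map_zero]
    exact h1.le (LinearMap.mem_range_self _ v)
  · rw [map_zero]
    refine hd _ (hk (L + 1) L.le_succ _ ?_) (h2.le (LinearMap.mem_range_self _ v))
    rw [← Obj.pow_apply_N, ← s.j.map_N, Obj.N_apply, hv]
    simp

theorem single_E_zero : Single True (E F 0) 0 := by
  have h : ∀ Y ∈ E F 0, Subsingleton Y.V := fun Y hY =>
    ⟨fun u v => by
      have h1 := LinearMap.congr_fun hY u
      have h2 := LinearMap.congr_fun hY v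
      simp only [pow_zero, Module.End.one_apply, LinearMap.zero_apply] at h1 h2
      rw [h1, h2]⟩
  refine ⟨fun A hA B hB => ?_, fun A hA => ?_⟩
  · have := h A hA
    have := h B hB
    exact iso_of_isom _ (LinearEquiv.ofSubsingleton _ _) (fun _ => Subsingleton.elim _ _)
      fun v => by rw [Subsingleton.elim v 0]; simp
  · have := h A hA
    exact finrank_zero_of_subsingleton

theorem gf_E_zero {b : Prop} : gf b (E F 0) ≤ 1 := by
  simpa using (single_E_zero.weaken b).gf_le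

/-- Iterated sums of members of `W` with a member of `T`. -/
inductive Star (W T : Set (Obj F)) : Obj F → Prop
  | base {Y : Obj F} : Y ∈ T → Star W T Y
  | step {Y A B : Obj F} : A ∈ W → Star W T B → Nonempty (Split Y A B) → Star W T Y

theorem star_subset : {Y | Star W T Y} ⊆ T ∪ Sum W {Y | Star W T Y} := by
  rintro Y (h | ⟨h1, h2, h3⟩)
  · exact Or.inl h
  · exact Or.inr ⟨_, h1, _, h2, h3⟩

theorem subset_star {T₀ T₁ : Set (Obj F)} (hW : ∀ A ∈ W, 0 < A.dim) (h : S ⊆ T ∪ Sum W S)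
    (hT : T ⊆ T₀ ∪ T₁) : S ⊆ {Y | Star W T₀ Y} ∪ {Y | Star W T₁ Y} := by
  intro Y hY
  induction hd : Y.dim using Nat.strong_induction_on generalizing Y with
  | _ d ih =>
    rcases h hY with h1 | ⟨A, hA, B, hB, ⟨s⟩⟩
    · exact (hT h1).imp Star.base Star.base
    · have := s.dim_eq
      have := hW A hA
      exact (ih B.dim (by omega) hB rfl).imp (fun h => Star.step hA h ⟨s⟩)
        fun h => Star.step hA h ⟨s⟩

variable [Finite F]

/-- `S` is covered by a set with generating function at most `z` and a set with type bound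
`h`. -/
def HB (τ : Ty F) (S : Set (Obj F)) (z h : ℝ⟦X⟧) : Prop :=
  ∃ S₀ S₁, S ⊆ S₀ ∪ S₁ ∧ gf True S₀ ≤ z ∧ TB τ S₁ h

variable {τ : Ty F} {z h : ℝ⟦X⟧}

theorem TB.gf_le (hS : TB τ S h) : gf True S ≤ 2 * h := by
  rw [two_mul]
  refine (gf_le_add (T := τ.sel S 1) (U := τ.sel S (-1)) fun Y hY => ?_).trans
    (add_le_add (hS 1) (hS (-1)))
  exact (Int.units_eq_one_or (τ.τ Y)).imp (fun h => ⟨hY, h⟩) fun h => ⟨hY, h⟩

theorem HB.gf_le (hS : HB τ S z h) : gf True S ≤ z + 2 * h := by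
  obtain ⟨S₀, S₁, h1, h2, h3⟩ := hS
  exact (gf_le_add h1).trans (add_le_add h2 h3.gf_le)

omit [Finite F] in
theorem HB.nonneg (hS : HB τ S z h) : 0 ≤ z ∧ 0 ≤ h := by
  obtain ⟨S₀, S₁, -, h2, h3⟩ := hS
  exact ⟨gf_nonneg.trans h2, h3.nonneg⟩

theorem HB.star {w : ℕ} (hw : 0 < w) (hW : Single True W w) (hS : S ⊆ T ∪ Sum W S)
    (hT : HB τ T z h) : HB τ S (geom 1 w * z) (geom 1 w * h) := by
  obtain ⟨T₀, T₁, h1, h2, h3⟩ := hT
  exact ⟨_, _, subset_star (fun A hA => (hW.2 A hA).symm ▸ hw) hS h1,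
    (gf_star hw hW star_subset).trans (mul_le_mul_of_nonneg_left h2 (geom_nonneg zero_le_one w)),
    h3.star hw hW star_subset⟩

theorem HB.negS (hS : HB τ S z h) : HB τ (negS S) z h := by
  obtain ⟨S₀, S₁, h1, h2, h3⟩ := hS
  exact ⟨Wall.negS S₀, Wall.negS S₁, fun _ hY => h1 hY, gf_negS.trans h2, h3.negS⟩

theorem HB.sum {z' h' : ℝ⟦X⟧} (hS : HB τ S z h) (hT : HB τ T z' h') :
    HB τ (Sum S T) (z * z') (h * (z' + 2 * h') + z * h') := by
  have hT' := hT.gf_le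
  obtain ⟨S₀, S₁, h1, h2, h3⟩ := hS
  obtain ⟨T₀, T₁, h4, h5, h6⟩ := hT
  refine ⟨Sum S₀ T₀, Sum S₁ T ∪ Sum S₀ T₁, ?_, gf_sum_le_of h2 h5,
    (h3.sum_left hT').union (h6.sum_right h2)⟩
  rintro Y ⟨A, hA, B, hB, s⟩
  rcases h1 hA with hA | hA
  · rcases h4 hB with hB | hB
    · exact Or.inl ⟨A, hA, B, hB, s⟩
    · exact Or.inr (Or.inr ⟨A, hA, B, hB, s⟩)
  · exact Or.inr (Or.inl ⟨A, hA, B, hB, s⟩)

theorem HB.sum_gf {a : ℝ⟦X⟧} (hS : HB τ S z h) (hT : gf True T ≤ a) :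
    HB τ (Sum S T) (z * a) (h * a) := by
  obtain ⟨S₀, S₁, h1, h2, h3⟩ := hS
  refine ⟨Sum S₀ T, Sum S₁ T, ?_, gf_sum_le_of h2 hT, h3.sum_left hT⟩
  rintro Y ⟨A, hA, B, hB, s⟩
  exact (h1 hA).imp (fun hA => ⟨A, hA, B, hB, s⟩) fun hA => ⟨A, hA, B, hB, s⟩

theorem HB.tb (hS : HB τ S z h) : TB τ S (z + h) := by
  obtain ⟨S₀, S₁, h1, h2, h3⟩ := hS
  exact ((TB.of_gf h2).union h3).mono h1 le_rfl

theorem disc_prod {V V' : Type*} [AddCommGroup V] [Module F V] [FiniteDimensional F V]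
    [AddCommGroup V'] [Module F V'] [FiniteDimensional F V'] {Q : QuadraticForm F V}
    {Q' : QuadraticForm F V'} (hQ : Nondeg Q) (hQ' : Nondeg Q') :
    disc (Q.prod Q') = disc Q * disc Q' := by
  rw [(GL.OrthConj.nondeg_prod hQ hQ').disc_eq ((finBasis F V).prod (finBasis F V')), disc, disc,
    ← sqc_mul (hQ.gram_det_ne_zero _) (hQ'.gram_det_ne_zero _), ← Matrix.det_fromBlocks_zero₁₂ _ 0]
  congr 2
  ext (i | i) (j | j) <;> simp [gram, Basis.prod_apply]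

/-- The discriminant as a type. -/
noncomputable def discTy (F : Type u) [Field F] [Finite F] : Ty F where
  τ Y := disc Y.Q
  iso _ Y := fun ⟨e, _, _, h⟩ => (disc_of_isom Y.hQ e (h trivial)).symm
  prod A B := disc_prod A.hQ B.hQ
  neg _ := rfl

/-- All odd-dimensional invariant summands have discriminant `δ`. -/
def Pure (δ : ℤˣ) : Set (Obj F) := {Y | ∀ A, Nonempty (Emb A Y) → Odd A.dim → disc A.Q = δ}

omit [Finite F] in
theorem Pure.of_emb {δ : ℤˣ} (h : Y ∈ Pure δ) (i : Emb A Y) : A ∈ Pure δ :=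
  fun B ⟨j⟩ => h B ⟨i.comp j⟩

omit [Finite F] in
theorem Pure.neg {δ : ℤˣ} (h : Y ∈ Pure δ) : Y.neg ∈ Pure δ :=
  fun B ⟨j⟩ => h B.neg ⟨j.ofNeg⟩

/-- The block with one generator of Jordan size `2k+1`. -/
def J (k : ℕ) (a : F) : Set (Obj F) := Blk (2 * k) 1 ![Pi.single k a]

/-- The block with two generators of Jordan size `r+1` and totally singular data. -/
def Wb (F : Type u) [Field F] (r : ℕ) : Set (Obj F) := Blk r 2 ![0, 0]

omit [Finite F] in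
theorem single_J (k : ℕ) (a : F) : Single True (J k a) (2 * k + 1) := by
  simpa [J] using single_blk (2 * k) 1 ![Pi.single k a]

omit [Finite F] in
theorem single_Wb (r : ℕ) : Single True (Wb F r) (2 * (r + 1)) := by
  rw [mul_comm]; exact single_blk r 2 ![0, 0]

/-- Scaling the form. -/
@[reducible] def Obj.scale (Y : Obj F) {c : F} (hc : c ≠ 0) : Obj F where
  V := Y.V
  Q := c • Y.Q
  hQ := nondeg_of fun x hx => Y.hQ.eq_zero fun v => by
    simpa [polar_smul, hc] using hx v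
  g := Y.g
  hg v := by simp [Y.hg]

theorem disc_J_ne {k : ℕ} {ν : F} (hν : ¬ IsSquare ν) (hA : A ∈ J k 1) (hB : B ∈ J k ν) :
    disc A.Q ≠ disc B.Q := by
  have hν0 : ν ≠ 0 := fun h => hν (h ▸ IsSquare.zero)
  have h1 : A.scale hν0 ∈ J k ν := by
    obtain ⟨hN, x, h1, h2, h3, -⟩ := hA
    refine ⟨hN, x, h1, fun c hc => h2 c fun l => ?_, fun i a => ?_, fun i l h => by omega⟩
    · exact (mul_eq_zero.1 ((QuadraticMap.polar_smul A.Q ν _ _).symm.trans (hc l))).resolve_left hν0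
    · refine (congrArg (ν * ·) (h3 i a)).trans ?_
      rw [Subsingleton.elim i 0]
      by_cases h : a = k <;> simp [h]
  rw [← show disc (A.scale hν0).Q = disc B.Q from
      (discTy F).iso _ _ ((single_J k ν).1 _ h1 _ hB),
    disc_of_simil (A.scale hν0).hQ (LinearEquiv.refl F A.V) hν0 (Q := A.Q) fun _ => rfl,
    sqc_eq_neg_one_iff.2 hν, show finrank F A.V = 2 * k + 1 from (single_J k 1).2 A hA, pow_succ,
    pow_mul]
  rcases Int.units_eq_one_or (disc A.Q) with h | h <;> simp [h]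

theorem tb_J (k : ℕ) {ν : F} (hν : ¬ IsSquare ν) :
    TB (discTy F) (J k 1 ∪ J k ν) (X ^ (2 * k + 1)) :=
  TB.pair (single_J k 1) (single_J k ν) fun _ hA _ hB => disc_J_ne hν hA hB

omit [Finite F] in
theorem exists_split_Wb {r : ℕ} (hN : Y.N ^ (r + 1) = 0) {x y : Y.V} (hxy : Y.γ r x y = 1)
    (hxx : Y.γ r x x = 0) (hyy : Y.γ r y y = 0) (hx : Y.q ((r + 1) / 2) x = 0)
    (hy : Y.q ((r + 1) / 2) y = 0) : ∃ B, Nonempty (Peel Y r ![x, y] ![0, 0] B) := by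
  simpa [hx, hy] using exists_peel_two hN hxy hxx hyy

omit [Finite F] in
theorem odd_even_step (h2 : (2 : F) ≠ 0) {k : ℕ} (hY : Y ∈ E F (2 * k + 1 + 1))
    (hY' : Y ∉ E F (2 * k + 1)) : ∃ A ∈ Wb F (2 * k + 1), ∃ B, Nonempty (Split Y A B) := by
  have h0 : ∀ v, Y.γ (2 * k + 1) v v = 0 := fun v => by
    have := Obj.γ_comm hY v v
    rw [pow_succ, pow_mul] at this
    exact (mul_eq_zero.1 (by linear_combination this)).resolve_left h2
  have hq : ∀ v, Y.q ((2 * k + 1 + 1) / 2) v = 0 := fun v => by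
    have := h0 v
    rw [Obj.γ_self_odd hY] at this
    rw [show (2 * k + 1 + 1) / 2 = k + 1 by omega]
    exact (mul_eq_zero.1 this).resolve_left (pow_ne_zero _ (by simp))
  obtain ⟨x, y, hxy⟩ := Obj.exists_γ_ne_zero hY'
  obtain ⟨B, ⟨p⟩⟩ := exists_split_Wb hY (x := x) (y := (Y.γ (2 * k + 1) x y)⁻¹ • y)
    (by rw [Obj.γ_smul_right, inv_mul_cancel₀ hxy]) (h0 _) (h0 _) (hq _) (hq _)
  exact ⟨p.A, p.mem, B, ⟨p.s⟩⟩

omit [Finite F] in
theorem exists_q_ne_zero {k : ℕ} (hY : Y ∈ E F (2 * k + 1)) (hY' : Y ∉ E F (2 * k)) :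
    ∃ x, Y.q k x ≠ 0 := by
  by_contra! H
  obtain ⟨x, y, hxy⟩ := Obj.exists_γ_ne_zero hY'
  have := Obj.q_add k x y
  rw [H, H, H, Obj.pol_top hY (show k + k = 2 * k by ring)] at this
  exact hxy ((mul_eq_zero.1 (by linear_combination -this)).resolve_left
    (pow_ne_zero k (neg_ne_zero.2 one_ne_zero)))

theorem exists_sq_comb (h2 : (2 : F) ≠ 0) {a b : F} (ha : a ≠ 0) (hb : b ≠ 0) (c : F) :
    ∃ s t : F, s * s * a + t * t * b = c := by
  have := Fintype.ofFinite F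
  have hc : ringChar F ≠ 2 := fun h => h2 (by simpa [h] using (ringChar.spec F 2).2)
  obtain ⟨s, t, h⟩ := FiniteField.exists_root_sum_quadratic
    (f := Polynomial.C a * Polynomial.X ^ 2) (g := Polynomial.C b * Polynomial.X ^ 2 - Polynomial.C c)
    (Polynomial.degree_C_mul_X_pow 2 ha)
    (by rw [Polynomial.degree_sub_C (by rw [Polynomial.degree_C_mul_X_pow 2 hb]; decide),
      Polynomial.degree_C_mul_X_pow 2 hb]; rfl)
    (FiniteField.odd_card_of_char_ne_two hc)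
  refine ⟨s, t, ?_⟩
  simp at h
  linear_combination h

theorem odd_odd_peel (h2 : (2 : F) ≠ 0) {k : ℕ} (hY : Y ∈ E F (2 * k + 1)) {x : Y.V} {a : F}
    (ha : a ≠ 0) (hx : Y.q k x = a) : ∃ A ∈ J k a, ∃ B, Nonempty (Split Y A B) ∧
      (B ∈ E F (2 * k) ∨ ∀ c, ∃ y, Y.q k y = c) := by
  obtain ⟨B, ⟨p⟩⟩ := exists_peel_one hY (x := x) (by
    rw [Obj.γ_self_even hY, hx]; simp [h2, ha]) k le_rfl (d := Pi.single k a)
    (fun i hi => Pi.single_eq_of_ne hi.ne _) fun i hi => by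
      rcases hi.eq_or_lt with rfl | h
      · rw [Pi.single_eq_same, hx]
      · rw [Pi.single_eq_of_ne h.ne', Obj.q_eq_zero hY (by omega)]
  refine ⟨p.A, p.mem, B, ⟨p.s⟩, ?_⟩
  by_cases hB : B ∈ E F (2 * k)
  · exact Or.inl hB
  obtain ⟨y, hy⟩ := exists_q_ne_zero (p.s.j.pow_eq_zero hY) hB
  refine Or.inr fun c => ?_
  obtain ⟨s, t, h⟩ := exists_sq_comb h2 ha hy c
  refine ⟨s • x + t • p.s.j.f y, ?_⟩
  rw [Obj.q_add, Obj.q_smul, Obj.q_smul, Obj.pol_top hY (show k + k = 2 * k by ring),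
    Obj.γ_smul_left, Obj.γ_smul_right, p.s.j.map_q, hx, show Y.γ (2 * k) x (p.s.j.f y) = 0 from
      p.orth 0 y]
  linear_combination h

theorem exists_q_eq_or {k : ℕ} {ν : F} (hν : ¬ IsSquare ν) (hY : Y ∈ E F (2 * k + 1))
    (hY' : Y ∉ E F (2 * k)) : (∃ x, Y.q k x = 1) ∨ ∃ x, Y.q k x = ν := by
  have hν0 : ν ≠ 0 := fun h => hν (h ▸ IsSquare.zero)
  obtain ⟨x, hx⟩ := exists_q_ne_zero hY hY'
  by_cases h : IsSquare (Y.q k x)
  · obtain ⟨t, ht⟩ := h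
    have : t ≠ 0 := by rintro rfl; exact hx (by simpa using ht)
    exact Or.inl ⟨t⁻¹ • x, by rw [Obj.q_smul, ht]; field_simp⟩
  · obtain ⟨t, ht⟩ := (isSquare_mul_iff_sqc hx hν0).2
      ((sqc_eq_neg_one_iff.2 h).trans (sqc_eq_neg_one_iff.2 hν).symm)
    refine Or.inr ⟨(t * (Y.q k x)⁻¹) • x, ?_⟩
    rw [Obj.q_smul]
    field_simp
    linear_combination -ht

theorem odd_odd_step (h2 : (2 : F) ≠ 0) {k : ℕ} {ν : F} (hν : ¬ IsSquare ν) :
    E F (2 * k + 1) \ E F (2 * k) ⊆ Sum (J k 1 ∪ J k ν) (E F (2 * k)) ∪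
      Sum (J k 1) (E F (2 * k + 1) \ E F (2 * k)) := by
  have hν0 : ν ≠ 0 := fun h => hν (h ▸ IsSquare.zero)
  rintro Y ⟨hY, hY'⟩
  by_cases h : ∃ x, Y.q k x = 1
  · obtain ⟨x, hx⟩ := h
    obtain ⟨A, hA, B, ⟨s⟩, -⟩ := odd_odd_peel h2 hY one_ne_zero hx
    by_cases hB : B ∈ E F (2 * k)
    · exact Or.inl ⟨A, Or.inl hA, B, hB, ⟨s⟩⟩
    · exact Or.inr ⟨A, hA, B, ⟨s.j.pow_eq_zero hY, hB⟩, ⟨s⟩⟩
  · obtain ⟨x, hx⟩ := (exists_q_eq_or hν hY hY').resolve_left h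
    obtain ⟨A, hA, B, s, hB⟩ := odd_odd_peel h2 hY hν0 hx
    exact Or.inl ⟨A, Or.inr hA, B, hB.resolve_right fun H => h (H 1), s⟩

theorem odd_odd_step_pure (h2 : (2 : F) ≠ 0) {k : ℕ} {ν : F} (hν : ¬ IsSquare ν) (δ : ℤˣ) :
    E F (2 * k + 1) ∩ Pure δ ⊆ E F (2 * k) ∩ Pure δ ∪
      Sum ((discTy F).sel (J k 1 ∪ J k ν) δ) (E F (2 * k) ∩ Pure δ) := by
  have hν0 : ν ≠ 0 := fun h => hν (h ▸ IsSquare.zero)
  rintro Y ⟨hY, hP⟩
  by_cases hY' : Y ∈ E F (2 * k)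
  · exact Or.inl ⟨hY', hP⟩
  have key : ∀ a x, a ≠ 0 → Y.q k x = a → ∃ A ∈ J k a, disc A.Q = δ ∧ ∃ B ∈ Pure δ,
      Nonempty (Split Y A B) ∧ (B ∈ E F (2 * k) ∨ ∀ c, ∃ y, Y.q k y = c) := by
    intro a x ha hx
    obtain ⟨A, hA, B, ⟨s⟩, hB⟩ := odd_odd_peel h2 hY ha hx
    exact ⟨A, hA, hP A ⟨s.i⟩ ⟨k, (single_J k a).2 A hA⟩, B, Pure.of_emb hP s.j, ⟨s⟩, hB⟩
  have hn : ¬ ∀ c, ∃ y, Y.q k y = c := fun H => by
    obtain ⟨x, hx⟩ := H 1
    obtain ⟨y, hy⟩ := H ν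
    obtain ⟨A, hA, h1, -⟩ := key 1 x one_ne_zero hx
    obtain ⟨B, hB, h2, -⟩ := key ν y hν0 hy
    exact disc_J_ne hν hA hB (h1.trans h2.symm)
  rcases exists_q_eq_or hν hY hY' with ⟨x, hx⟩ | ⟨x, hx⟩
  · obtain ⟨A, hA, h1, B, hB, s, h3⟩ := key 1 x one_ne_zero hx
    exact Or.inr ⟨A, ⟨Or.inl hA, h1⟩, B, ⟨h3.resolve_right hn, hB⟩, s⟩
  · obtain ⟨A, hA, h1, B, hB, s, h3⟩ := key ν x hν0 hx
    exact Or.inr ⟨A, ⟨Or.inr hA, h1⟩, B, ⟨h3.resolve_right hn, hB⟩, s⟩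

/-- `∏_{i ≤ m} 1 / (1 - X^{2i})`. -/
noncomputable def Pser (m : ℕ) : ℝ⟦X⟧ := ∏ i ∈ Finset.range m, geom 1 (2 * (i + 1))

/-- `∏_{i ≤ k} 1 / (1 - X^{4i})`. -/
noncomputable def Pev (k : ℕ) : ℝ⟦X⟧ := ∏ i ∈ Finset.range k, geom 1 (2 * (2 * i + 1 + 1))

/-- `∏_{i < k} (1 + X^{2i+1})`. -/
noncomputable def Hser (k : ℕ) : ℝ⟦X⟧ := ∏ i ∈ Finset.range k, (1 + X ^ (2 * i + 1))

theorem Pser_nonneg (m : ℕ) : 0 ≤ Pser m :=
  Finset.prod_nonneg fun _ _ => geom_nonneg zero_le_one _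

theorem Pev_nonneg (m : ℕ) : 0 ≤ Pev m :=
  Finset.prod_nonneg fun _ _ => geom_nonneg zero_le_one _

theorem Hser_nonneg (m : ℕ) : 0 ≤ Hser m :=
  Finset.prod_nonneg fun _ _ => add_nonneg zero_le_one (X_pow_nonneg _)

theorem exists_nonsquare (h2 : (2 : F) ≠ 0) : ∃ ν : F, ¬ IsSquare ν :=
  FiniteField.exists_nonsquare fun h => h2 (by simpa [h] using (ringChar.spec F 2).2)

theorem hb_E_odd (h2 : (2 : F) ≠ 0) (k : ℕ) : ∃ z h, HB (discTy F) (E F (2 * k)) z h ∧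
    z ≤ Pser (2 * k) ∧ z + 2 * h ≤ Pser (2 * k) * Hser k ^ 2 := by
  obtain ⟨ν, hν⟩ := exists_nonsquare h2
  induction k with
  | zero =>
    refine ⟨1, 0, ⟨E F 0, ∅, by simp, gf_E_zero, TB.of_gf ?_⟩, by simp [Pser], by simp [Pser, Hser]⟩
    simp [gf, gfs, fib, ps_le_def]
  | succ k ih =>
    obtain ⟨z, h, h1, h3, h4⟩ := ih
    have h5 := ((tb_J k hν).sum_left h1.gf_le).star (by omega) (single_J k 1)
      (odd_odd_step h2 hν)
    have h6 : HB (discTy F) (E F (2 * k + 1)) z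
        (h + geom 1 (2 * k + 1) * (X ^ (2 * k + 1) * (z + 2 * h))) := by
      obtain ⟨S₀, S₁, e1, e2, e3⟩ := h1
      refine ⟨S₀, _, fun Y hY => ?_, e2, e3.union h5⟩
      by_cases hY' : Y ∈ E F (2 * k)
      · exact (e1 hY').imp_right Or.inl
      · exact Or.inr (Or.inr ⟨hY, hY'⟩)
    have hg := geom_nonneg zero_le_one (2 * (2 * k + 1 + 1))
    refine ⟨_, _, h6.star (w := 2 * (2 * k + 1 + 1)) (by omega) (single_Wb (2 * k + 1))
      fun Y hY => ?_, ?_, ?_⟩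
    · by_cases hY' : Y ∈ E F (2 * k + 1)
      · exact Or.inl hY'
      · obtain ⟨A, hA, B, ⟨s⟩⟩ := odd_even_step h2 hY hY'
        exact Or.inr ⟨A, hA, B, s.j.pow_eq_zero hY, ⟨s⟩⟩
    · rw [show 2 * (k + 1) = 2 * k + 1 + 1 by ring, Pser, Finset.prod_range_succ,
        Finset.prod_range_succ, mul_comm]
      gcongr
      exact h3.trans (le_mul_of_one_le_right (Pser_nonneg _) (one_le_geom zero_le_one (by omega)))
    · have e1 := geom_one_two_mul (w := 2 * k + 1) (by omega)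
      have e2 := geom_one_mul (w := 2 * k + 1) (by omega)
      calc _ = geom 1 (2 * (2 * k + 1 + 1)) * (geom 1 (2 * (2 * k + 1)) *
            (1 + X ^ (2 * k + 1)) ^ 2) * (z + 2 * h) := by
            linear_combination (geom 1 (2 * (2 * k + 1 + 1)) * (z + 2 * h)) *
              ((1 + X ^ (2 * k + 1)) * e1 - e2)
        _ ≤ geom 1 (2 * (2 * k + 1 + 1)) * (geom 1 (2 * (2 * k + 1)) *
            (1 + X ^ (2 * k + 1)) ^ 2) * (Pser (2 * k) * Hser k ^ 2) :=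
            mul_le_mul_of_nonneg_left h4 (mul_nonneg hg (mul_nonneg (geom_nonneg zero_le_one _)
              (pow_nonneg (add_nonneg zero_le_one (X_pow_nonneg _)) _)))
        _ = _ := by
            rw [show 2 * (k + 1) = 2 * k + 1 + 1 by ring]
            simp only [Pser, Hser, Finset.prod_range_succ]
            ring

theorem gf_E_pure (h2 : (2 : F) ≠ 0) (δ : ℤˣ) (k : ℕ) :
    gf True (E F (2 * k) ∩ Pure δ) ≤ Pev k * Hser k := by
  obtain ⟨ν, hν⟩ := exists_nonsquare h2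
  induction k with
  | zero => simpa [Pev, Hser] using (gf_mono Set.inter_subset_left).trans gf_E_zero
  | succ k ih =>
    have h1 := (gf_le_add (odd_odd_step_pure h2 hν δ)).trans
      (add_le_add ih (gf_sum_le_of (tb_J k hν δ) ih))
    have h3 : gf True (E F (2 * (k + 1)) ∩ Pure δ) ≤ _ :=
      gf_star (w := 2 * (2 * k + 1 + 1)) (T := E F (2 * k + 1) ∩ Pure δ) (by omega)
        (single_Wb (2 * k + 1)) fun Y hY => by
        by_cases hY' : Y ∈ E F (2 * k + 1)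
        · exact Or.inl ⟨hY', hY.2⟩
        · obtain ⟨A, hA, B, ⟨s⟩⟩ := odd_even_step h2 hY.1 hY'
          exact Or.inr ⟨A, hA, B, ⟨s.j.pow_eq_zero hY.1, Pure.of_emb hY.2 s.j⟩, ⟨s⟩⟩
    refine h3.trans ((mul_le_mul_of_nonneg_left h1 (geom_nonneg zero_le_one _)).trans_eq ?_)
    simp only [Pev, Hser, Finset.prod_range_succ]
    ring

end Cfsg.Agent.Lib.Wall
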