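import Mathlib
import Cfsg.Agent.Lib.Wall.OddNil
import Cfsg.Agent.Lib.GL.Invol4

/-!
Unipotent classes of orthogonal and symplectic groups in characteristic two.
-/

set_option autoImplicit false

open Module QuadraticMap PowerSeries

namespace Cfsg.Agent.Lib.Wall

open Cfsg.Agent.Lib.Forms Cfsg.Agent.Lib.GL.OrthConj

universe u

section Lag

variable {F V : Type*} [Field F] [AddCommGroup V] [Module F V] [FiniteDimensional F V]
  {Q : QuadraticForm F V}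

theorem tp_pos_iff [Finite F] (hQ : Nondeg Q) (hev : Even (finrank F V)) :
    0 < tp Q ↔ ∃ U, IsLag Q U := by
  have := Fintype.ofFinite F
  obtain ⟨m, hm⟩ := hev
  rw [← two_mul] at hm
  have hq : (0 : ℤ) < (Fintype.card F : ℤ) ^ m := pow_pos (by exact_mod_cast Fintype.card_pos) m
  have hm' : finrank F V = finrank F (Fin m ⊕ Fin m → F) := by simp [hm, two_mul]
  constructor
  · intro h
    obtain ⟨φ, hφ⟩ := isom_of_tp hQ (nondeg_qPlus m) ⟨m, by omega⟩ hm'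
      (((tp_eq_or hQ hm).resolve_right (by omega)).trans (tp_qPlus m).symm)
    have h1 := isLag_ker_funLeft_inr (F := F) m
    refine ⟨Submodule.map φ.symm.toLinearMap _, ?_, by
      rw [LinearEquiv.finrank_map_eq, h1.dim, hm']⟩
    rintro _ ⟨v, hv, rfl⟩
    rw [← hφ]
    simpa using h1.ts v hv
  · rintro ⟨U, hU⟩
    have key : (∃ φ : V ≃ₗ[F] (Fin m ⊕ Fin m → F), ∀ v, qPlus m F (φ v) = Q v) → 0 < tp Q :=
      fun ⟨φ, hφ⟩ => by rw [tp_congr φ.toEquiv hφ, tp_qPlus]; exact hq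
    rcases Nat.eq_zero_or_pos m with rfl | h0
    · have : Subsingleton V := finrank_zero_iff.1 hm
      exact key ⟨LinearEquiv.ofSubsingleton _ _, fun v => by rw [Subsingleton.elim v 0]; simp⟩
    · obtain ⟨a, b, hab⟩ := exists_anisotropic F
      rcases hQ.classify_even' h0 hm hab with h | ⟨φ, hφ⟩
      · exact key h
      · have := finrank_ts_le_qMinus (m - 1) hab (U := U.map φ.toLinearMap) (by
          rintro _ ⟨v, hv, rfl⟩
          exact (hφ v).trans (hU.ts v hv))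
        rw [LinearEquiv.finrank_map_eq] at this
        have := hU.dim
        omega

theorem exists_isLag {E : Submodule F V} (hE : ∀ v ∈ E, Q v = 0) {u v : V} (hu : Q u = 0)
    (hu' : u ∈ perp Q E) (hv : v ∈ perp Q E) (huv : polar Q u v ≠ 0)
    (hd : finrank F V = 2 * (finrank F E + 1)) : ∃ U, IsLag Q U := by
  have hn : u ∉ E := fun h => huv (mem_perp.1 hv u h)
  refine ⟨E ⊔ Submodule.span F {u}, fun w hw => ?_, by
    rw [Submodule.finrank_sup_span_singleton hn, hd]⟩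
  obtain ⟨e, he, w', hw', rfl⟩ := Submodule.mem_sup.1 hw
  obtain ⟨c, rfl⟩ := Submodule.mem_span_singleton.1 hw'
  rw [Q_add, Q_smul, polar_smul_right, hE e he, hu, mem_perp.1 hu' e he]
  simp

theorem not_exists_isLag (hQ : Nondeg Q) {E : Submodule F V} (hE : ∀ v ∈ E, Q v = 0)
    (h : ∀ v ∈ perp Q E, Q v = 0 → v ∈ E) (hd : finrank F V = 2 * (finrank F E + 1)) :
    ¬ ∃ U, IsLag Q U := fun ⟨U, hU⟩ => by
  have := hQ.finrank_le_of_max_ts hE h hU.ts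
  have := hU.dim
  omega

omit [FiniteDimensional F V] in
theorem Q_eq_of_add {E : Submodule F V} (hE : ∀ v ∈ E, Q v = 0) {u w : V} (hw : w ∈ E)
    (h : u + w ∈ perp Q E) : Q (u + w) = Q u := by
  have h1 := Q_sub Q (u + w) w
  rw [add_sub_cancel_right, hE w hw, polar_comm, mem_perp.1 h w hw] at h1
  rw [h1]; ring

end Lag

variable {F : Type u} [Field F] {A B Y : Obj F}

theorem Obj.Q_cyc {κ : Type} {x : κ → Y.V} {m t : ℕ} (hN : Y.N ^ m = 0) (h : m + 1 ≤ 2 * t) :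
    ∀ v ∈ Y.cyc x t, Y.Q v = 0 := fun v hv => by
  obtain ⟨w, rfl⟩ := Obj.exists_pow_of_mem_cyc hv
  exact Obj.q_eq_zero hN h w

theorem Obj.pow_mem_perp_cyc {κ : Type} {x : κ → Y.V} {m t a : ℕ} (hN : Y.N ^ m = 0)
    (h : m ≤ t + a) (y : Y.V) : (Y.N ^ a) y ∈ perp Y.Q (Y.cyc x t) :=
  Obj.mem_perp_cyc fun _ _ _ => Obj.pol_zero hN (by omega) _ _

/-- The block with one generator of Jordan size `2k+2`. -/
def Vb (k : ℕ) (a : F) : Set (Obj F) := Blk (2 * k + 1) 1 ![Pi.single k a + Pi.single (k + 1) 1]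

/-- The twisted block with two generators of Jordan size `2k+1`. -/
def Wt (k : ℕ) (a : F) : Set (Obj F) := Blk (2 * k) 2 ![Pi.single k 1, Pi.single k a]

theorem single_Vb (k : ℕ) (a : F) : Single True (Vb k a) (2 * (k + 1)) := by
  simpa [Vb, mul_add] using single_blk (2 * k + 1) 1 ![(Pi.single k a + Pi.single (k + 1) 1 : ℕ → F)]

theorem single_Wt (k : ℕ) (a : F) : Single True (Wt k a) (2 * (2 * k + 1)) := by
  rw [mul_comm]; exact single_blk (2 * k) 2 _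

theorem isLag_Vb {k : ℕ} (h : Y ∈ Vb k (0 : F)) : ∃ U, IsLag Y.Q U := by
  have hd := (single_Vb k 0).2 Y h
  obtain ⟨hN, x, -, h2, h3, -⟩ := h
  refine exists_isLag (Obj.Q_cyc (x := x) hN (t := k + 2) (by omega)) (u := (Y.N ^ k) (x 0))
    (v := (Y.N ^ (k + 1)) (x 0)) (by simpa [Obj.q] using h3 0 k) (Obj.pow_mem_perp_cyc hN (by omega) _)
    (Obj.pow_mem_perp_cyc hN (by omega) _) ?_ ?_
  · rw [← neg_ne_zero, ← Obj.q_succ, h3]; simp
  · rw [h2.finrank_cyc hN (k := k) (by omega)]; simpa [Obj.dim] using hd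

theorem isLag_Wb {k : ℕ} (h : Y ∈ Wb F (2 * k)) : ∃ U, IsLag Y.Q U := by
  have hd := (single_Wb (2 * k)).2 Y h
  obtain ⟨hN, x, -, h2, h3, h4⟩ := h
  refine exists_isLag (Obj.Q_cyc (x := x) hN (t := k + 1) (by omega)) (u := (Y.N ^ k) (x 0))
    (v := (Y.N ^ k) (x 1)) (by simpa [Obj.q] using h3 0 k) (Obj.pow_mem_perp_cyc hN (by omega) _)
    (Obj.pow_mem_perp_cyc hN (by omega) _) ?_ ?_
  · rw [Obj.pol_top hN (show k + k = 2 * k by ring), h4 0 1 (by decide)]; simp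
  · rw [h2.finrank_cyc hN (k := k) (by omega), Fintype.card_fin, mul_comm k]; exact hd

variable [CharP F 2]

theorem not_isLag_Vb {k : ℕ} {a : F} (ha : ∀ t : F, t ^ 2 + t + a ≠ 0) (h : Y ∈ Vb k a) :
    ¬ ∃ U, IsLag Y.Q U := by
  have hd := (single_Vb k a).2 Y h
  obtain ⟨hN, x, h1, h2, h3, -⟩ := h
  have hE := Obj.Q_cyc (x := x) hN (t := k + 2) (by omega)
  refine not_exists_isLag Y.hQ hE (fun v hv h0 => ?_)
    (by rw [h2.finrank_cyc hN (k := k) (by omega)]; simpa [Obj.dim] using hd)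
  obtain ⟨c, w, hw, rfl⟩ := Obj.exists_of_mem_cyc
    (h2.mem_cyc hN (s := k) (by omega) (h1 ▸ Submodule.mem_top) hv)
  obtain ⟨c', w, hw', rfl⟩ := Obj.exists_of_mem_cyc hw
  rw [← add_assoc] at hv h0
  rw [Q_eq_of_add hE hw' hv] at h0
  have e1 : Y.Q ((Y.N ^ k) (x 0)) = a := by simpa [Obj.q] using h3 0 k
  have e2 : Y.Q ((Y.N ^ (k + 1)) (x 0)) = 1 := by simpa [Obj.q] using h3 0 (k + 1)
  have e3 := Obj.q_succ k (x 0)
  rw [CharTwo.neg_eq, Obj.q, e2] at e3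
  simp only [Fin.sum_univ_one, map_smul] at h0 ⊢
  rw [Q_two, e1, e2, ← e3] at h0
  obtain ⟨e4, e5⟩ := anisotropic_of_no_root ha (c' 0) (c 0) (by linear_combination h0)
  simpa [e4, e5] using hw'

theorem not_isLag_Wt {k : ℕ} {a : F} (ha : ∀ t : F, t ^ 2 + t + a ≠ 0) (h : Y ∈ Wt k a) :
    ¬ ∃ U, IsLag Y.Q U := by
  have hd := (single_Wt k a).2 Y h
  obtain ⟨hN, x, h1, h2, h3, h4⟩ := h
  have hE := Obj.Q_cyc (x := x) hN (t := k + 1) (by omega)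
  refine not_exists_isLag Y.hQ hE (fun v hv h0 => ?_)
    (by rw [h2.finrank_cyc hN (k := k) (by omega), Fintype.card_fin, mul_comm k]; exact hd)
  obtain ⟨c, w, hw, rfl⟩ := Obj.exists_of_mem_cyc
    (h2.mem_cyc hN (s := k) (by omega) (h1 ▸ Submodule.mem_top) hv)
  rw [Q_eq_of_add hE hw hv] at h0
  have e1 : Y.Q ((Y.N ^ k) (x 0)) = 1 := by simpa [Obj.q] using h3 0 k
  have e2 : Y.Q ((Y.N ^ k) (x 1)) = a := by simpa [Obj.q] using h3 1 k
  have e3 := Obj.pol_top hN (show k + k = 2 * k by ring) (x 0) (x 1)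
  rw [h4 0 1 (by decide), CharTwo.neg_eq, one_pow, if_pos rfl] at e3
  simp only [Fin.sum_univ_two, map_smul, map_add] at h0 ⊢
  rw [Q_two, e1, e2, e3] at h0
  obtain ⟨e4, e5⟩ := anisotropic_of_no_root ha (c 0) (c 1) (by linear_combination h0)
  simpa [e4, e5] using hw

theorem Obj.even_dim (Y : Obj F) : Even (finrank F Y.V) := by
  obtain ⟨m, hm⟩ := GL.Alt.even_finrank (GL.SymTwo.isAlt_polarBilin Y.Q) Y.hQ
  exact ⟨m, by omega⟩

omit [CharP F 2] in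
theorem tp_ne_zero [Finite F] {V : Type*} [AddCommGroup V] [Module F V] [FiniteDimensional F V]
    {Q : QuadraticForm F V} (hQ : Nondeg Q) (h : Even (finrank F V)) : tp Q ≠ 0 := by
  have := Fintype.ofFinite F
  obtain ⟨m, hm⟩ := h
  have hq : (0 : ℤ) < (Fintype.card F : ℤ) ^ m := pow_pos (by exact_mod_cast Fintype.card_pos) m
  rcases tp_eq_or hQ (hm.trans (two_mul m).symm) with h | h <;> omega

/-- The Witt type in characteristic two. -/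
noncomputable def tpTy (F : Type u) [Field F] [Finite F] [CharP F 2] : Ty F where
  τ Y := if 0 < tp Y.Q then 1 else -1
  iso _ _ := fun ⟨e, _, _, h⟩ => by rw [tp_congr e.toEquiv (h trivial)]
  prod A B := by
    have := Fintype.ofFinite F
    have h1 := tp_ne_zero A.hQ A.even_dim
    have h2 := tp_ne_zero B.hQ B.even_dim
    rw [tp_prod A.hQ A.even_dim B.hQ B.even_dim]
    simp only [mul_pos_iff]
    rcases h1.lt_or_gt with h1 | h1 <;> rcases h2.lt_or_gt with h2 | h2 <;>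
      simp [h1, h2, h1.not_gt, h2.not_gt]
  neg _ := rfl

theorem tpTy_ne [Finite F] (hA : ∃ U, IsLag A.Q U) (hB : ¬ ∃ U, IsLag B.Q U) :
    (tpTy F).τ A ≠ (tpTy F).τ B := by
  rw [← tp_pos_iff A.hQ A.even_dim] at hA
  rw [← tp_pos_iff B.hQ B.even_dim] at hB
  simp [tpTy, hA, hB]

/-- Objects on which `q_j` vanishes. -/
def Cs (F : Type u) [Field F] (j : ℕ) : Set (Obj F) := {Y | ∀ x, Y.q j x = 0}

/-- Objects with `N^{2j} = 0` on which `q_j` does not vanish. -/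
def Ds (F : Type u) [Field F] (j : ℕ) : Set (Obj F) := {Y | Y.N ^ (2 * j) = 0 ∧ ∃ x, Y.q j x ≠ 0}

/-- Objects with `N^{2j+1} = 0` on which `q_j` does not vanish. -/
def Es (F : Type u) [Field F] (j : ℕ) : Set (Obj F) :=
  {Y | Y.N ^ (2 * j + 1) = 0 ∧ ∃ x, Y.q j x ≠ 0}

/-- Members of `Ds (k+1)` whose top form vanishes on the kernel of `q_{k+1}`. -/
def D2 (F : Type u) [Field F] (k : ℕ) : Set (Obj F) :=
  {Y | Y.N ^ (2 * k + 1 + 1) = 0 ∧ (∃ x, Y.q (k + 1) x ≠ 0) ∧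
    ∀ x y, Y.q (k + 1) x = 0 → Y.q (k + 1) y = 0 → Y.γ (2 * k + 1) x y = 0}

/-- Members of `Ds (k+1)` whose top form has the kernel of `q_{k+1}` as radical. -/
def D1 (F : Type u) [Field F] (k : ℕ) : Set (Obj F) :=
  {Y | Y.N ^ (2 * k + 1 + 1) = 0 ∧ (∃ x, Y.q (k + 1) x ≠ 0) ∧
    ∀ x y, Y.q (k + 1) x = 0 → Y.γ (2 * k + 1) x y = 0}

omit [CharP F 2] in
theorem Cs.pow_eq_zero {j : ℕ} (h : Y ∈ Cs F j) : Y.N ^ (2 * j) = 0 := LinearMap.ext fun x => by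
  have h1 : (Y.N ^ j) x ∈ perp Y.Q (LinearMap.range (Y.N ^ j)) := mem_perp.2 (by
    rintro _ ⟨y, rfl⟩
    have := Obj.q_add j y x
    rw [h, h, h] at this
    linear_combination -this)
  rw [Y.range_pow_eq_perp, Y.hQ.perp_perp, LinearMap.mem_ker, Obj.pow_pow_apply] at h1
  rw [two_mul, h1]; rfl

omit [CharP F 2] in
theorem mem_Cs_or {j : ℕ} (h : Y.N ^ (2 * j + 1) = 0) : Y ∈ Cs F j ∪ Es F j := by
  by_cases h1 : ∃ x, Y.q j x ≠ 0
  · exact Or.inr ⟨h, h1⟩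
  · exact Or.inl (by simpa [Cs] using h1)

theorem γ_self_two {k : ℕ} (hN : Y.N ^ (2 * k + 1 + 1) = 0) (x : Y.V) :
    Y.γ (2 * k + 1) x x = Y.q (k + 1) x := by
  rw [Obj.γ_self_odd hN, CharTwo.neg_eq, one_pow, one_mul]

theorem γ_comm_two {r : ℕ} (hN : Y.N ^ (r + 1) = 0) (x y : Y.V) : Y.γ r x y = Y.γ r y x := by
  rw [Obj.γ_comm hN, CharTwo.neg_eq, one_pow, one_mul]

theorem γ_self_zero {k : ℕ} (hN : Y.N ^ (2 * k + 1) = 0) (x : Y.V) : Y.γ (2 * k) x x = 0 := by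
  rw [Obj.γ_self_even hN, CharTwo.two_eq_zero, zero_mul, mul_zero]

theorem q_add_two {k : ℕ} (hN : Y.N ^ (2 * k + 1) = 0) (x y : Y.V) :
    Y.q k (x + y) = Y.q k x + Y.q k y + Y.γ (2 * k) x y := by
  rw [Obj.q_add, Obj.pol_top hN (show k + k = 2 * k by ring), CharTwo.neg_eq, one_pow, one_mul]

omit [CharP F 2] in
theorem q_add_top {k : ℕ} (hN : Y.N ^ (2 * k + 1 + 1) = 0) (x y : Y.V) :
    Y.q (k + 1) (x + y) = Y.q (k + 1) x + Y.q (k + 1) y := by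
  rw [Obj.q_add, Obj.pol_zero hN (by omega), add_zero]

theorem q_add_N_sub {k : ℕ} (hN : Y.N ^ (2 * k + 1 + 1) = 0) (x y : Y.V) :
    Y.q k (x + Y.N y) = Y.q k x + Y.q (k + 1) y + Y.γ (2 * k + 1) x y := by
  rw [Obj.q_add, Obj.q_N, Obj.pow_apply_N, Obj.pol_top hN (show k + (k + 1) = 2 * k + 1 by ring),
    CharTwo.neg_eq, one_pow, one_mul]

theorem exists_peel_Wb_odd {k : ℕ} (hN : Y.N ^ (2 * k + 1 + 1) = 0) {x y : Y.V}
    (hxy : Y.γ (2 * k + 1) x y ≠ 0) (hx : Y.q (k + 1) x = 0) (hy : Y.q (k + 1) y = 0) :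
    ∃ y' B, Y.q (k + 1) y' = 0 ∧ Nonempty (Peel Y (2 * k + 1) ![x, y'] ![0, 0] B) := by
  have hy' : Y.q (k + 1) ((Y.γ (2 * k + 1) x y)⁻¹ • y) = 0 := by rw [Obj.q_smul, hy, mul_zero]
  have e : (2 * k + 1 + 1) / 2 = k + 1 := by omega
  obtain ⟨B, hB⟩ := exists_split_Wb hN (x := x) (y := (Y.γ (2 * k + 1) x y)⁻¹ • y)
    (by rw [Obj.γ_smul_right, inv_mul_cancel₀ hxy]) (by rw [γ_self_two hN, hx])
    (by rw [γ_self_two hN, hy']) (e ▸ hx) (e ▸ hy')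
  exact ⟨_, B, hy', hB⟩

theorem Cs_step (j : ℕ) :
    Cs F (j + 1) ⊆ (Cs F j ∪ Es F j) ∪ Sum (Wb F (2 * j + 1)) (Cs F (j + 1)) := fun Y hY => by
  by_cases h : Y.N ^ (2 * j + 1) = 0
  · exact Or.inl (mem_Cs_or h)
  obtain ⟨x, y, hxy⟩ := Obj.exists_γ_ne_zero h
  obtain ⟨_, B, -, ⟨p⟩⟩ := exists_peel_Wb_odd (Cs.pow_eq_zero hY) hxy (hY x) (hY y)
  exact Or.inr ⟨p.A, p.mem, B, fun v => by rw [← p.s.j.map_q, hY], ⟨p.s⟩⟩

theorem Ds_step (k : ℕ) :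
    Ds F (k + 1) ⊆ D2 F k ∪ Sum (Wb F (2 * k + 1)) (Ds F (k + 1)) := fun Y ⟨hN, hY⟩ => by
  by_cases h : ∀ x y, Y.q (k + 1) x = 0 → Y.q (k + 1) y = 0 → Y.γ (2 * k + 1) x y = 0
  · exact Or.inl ⟨hN, hY, h⟩
  push Not at h
  obtain ⟨x, y, hx, hy, hxy⟩ := h
  obtain ⟨y, B, hy, ⟨p⟩⟩ := exists_peel_Wb_odd hN hxy hx hy
  refine Or.inr ⟨p.A, p.mem, B, ⟨p.s.j.pow_eq_zero hN, ?_⟩, ⟨p.s⟩⟩
  obtain ⟨v, hv⟩ := hY
  obtain ⟨c, z, w, rfl⟩ := p.span v
  refine ⟨w, ?_⟩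
  simpa [q_add_top hN, Obj.q_smul, hx, hy, Obj.q_N, Obj.q_eq_zero hN (j := k + 1 + 1) (by omega),
    p.s.j.map_q] using hv

variable [Finite F]

theorem exists_mul_self (a : F) : ∃ t, t * t = a := by
  obtain ⟨t, ht⟩ := FiniteField.isSquare_of_char_two (ringChar.eq F 2) a
  exact ⟨t, ht.symm⟩

theorem exists_smul_q_eq_one {j : ℕ} {x : Y.V} (hx : Y.q j x ≠ 0) :
    ∃ c : F, c ≠ 0 ∧ Y.q j (c • x) = 1 := by
  obtain ⟨t, ht⟩ := exists_mul_self (Y.q j x)⁻¹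
  refine ⟨t, ?_, by rw [Obj.q_smul, ht, inv_mul_cancel₀ hx]⟩
  rintro rfl
  exact inv_ne_zero hx (by simpa using ht.symm)

omit [Finite F] in
theorem exists_peel_Vb {k : ℕ} (hN : Y.N ^ (2 * k + 1 + 1) = 0) {x : Y.V} {a : F}
    (h1 : Y.q (k + 1) x = 1) (h2 : Y.q k x = a) :
    ∃ B, Nonempty (Peel Y (2 * k + 1) ![x] ![Pi.single k a + Pi.single (k + 1) 1] B) :=
  exists_peel_one hN (by rw [γ_self_two hN, h1]; exact one_ne_zero) k (by omega)
    (fun i hi => by simp [hi.ne, show i ≠ k + 1 by omega]) fun i hi => by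
      rcases hi.eq_or_lt with rfl | h
      · simp [h2]
      · rcases (Nat.succ_le_of_lt h).eq_or_lt with rfl | h'
        · simp [h1]
        · simp [h.ne', h'.ne', Obj.q_eq_zero hN (j := i) (by omega)]

theorem D2_step (k : ℕ) : D2 F k ⊆ D1 F k ∪ Sum (Vb k 0) (D1 F k) := fun Y ⟨hN, hY, hK⟩ => by
  by_cases h : ∀ x y, Y.q (k + 1) x = 0 → Y.γ (2 * k + 1) x y = 0
  · exact Or.inl ⟨hN, hY, h⟩
  push Not at h
  obtain ⟨u, y, hu, huy⟩ := h
  obtain ⟨c, hc, hy⟩ := exists_smul_q_eq_one (fun h => huy (hK u y hu h))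
  have h1 : Y.γ (2 * k + 1) (c • y) u ≠ 0 := by
    rw [Obj.γ_smul_left, γ_comm_two hN]; exact mul_ne_zero hc huy
  set x := c • y + Y.N ((Y.q k (c • y) * (Y.γ (2 * k + 1) (c • y) u)⁻¹) • u)
  have hx : Y.q (k + 1) x = 1 := by rw [Obj.q_add_N hN (by omega), hy]
  obtain ⟨B, ⟨p⟩⟩ := exists_peel_Vb hN hx (a := 0) (by
    rw [q_add_N_sub hN, Obj.q_smul (k + 1), hu, Obj.γ_smul_right, inv_mul_cancel_right₀ h1,
      mul_zero, add_zero, CharTwo.add_self_eq_zero])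
  have ho : ∀ w, Y.γ (2 * k + 1) x (p.s.j.f w) = 0 := p.orth 0
  refine Or.inr ⟨p.A, p.mem, B, ⟨p.s.j.pow_eq_zero hN, ?_, fun u' y' hu' => ?_⟩, ⟨p.s⟩⟩
  · by_contra! H
    apply huy
    obtain ⟨a, z, w, e⟩ := p.span u
    obtain ⟨a', z', w', e'⟩ := p.span y
    have ha : a 0 = 0 := by
      rw [e] at hu
      simpa [q_add_top hN, Obj.q_smul, hx, Obj.q_N, Obj.q_eq_zero hN (j := k + 1 + 1) (by omega),
        p.s.j.map_q, H] using hu
    rw [e, e']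
    have := hK (p.s.j.f w) (p.s.j.f w') (by rw [p.s.j.map_q, H]) (by rw [p.s.j.map_q, H])
    simp [ha, Obj.γ_add_left, Obj.γ_add_right, Obj.γ_N_left hN, Obj.γ_N_right hN,
      Obj.γ_smul_right, γ_comm_two hN (p.s.j.f w) x, ho, this]
  · obtain ⟨t, ht⟩ := exists_mul_self (B.q (k + 1) y')
    have := hK (p.s.j.f u') (p.s.j.f y' + t • x) (by rw [p.s.j.map_q, hu']) (by
      rw [q_add_top hN, Obj.q_smul, hx, p.s.j.map_q, ht, mul_one, CharTwo.add_self_eq_zero])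
    rwa [Obj.γ_add_right, Obj.γ_smul_right, γ_comm_two hN _ x, ho, mul_zero, add_zero,
      p.s.j.map_γ] at this

theorem D1_step (k : ℕ) {α : F} (hα : ∀ t : F, t ^ 2 + t + α ≠ 0) :
    D1 F k ⊆ Sum (Vb k 0) (Es F k) ∪ Sum (Vb k 0 ∪ Vb k α) (Cs F k) := fun Y ⟨hN, hY, hK⟩ => by
  have key : ∀ x a, Y.q (k + 1) x = 1 → Y.q k x = a → ∃ A ∈ Vb k a, ∃ B ∈ Cs F k ∪ Es F k,
      Nonempty (Split Y A B) ∧ (B ∈ Es F k → ∃ x, Y.q (k + 1) x = 1 ∧ Y.q k x = 0) := by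
    intro x a h1 h2
    obtain ⟨B, ⟨p⟩⟩ := exists_peel_Vb hN h1 h2
    have ho : ∀ w, Y.γ (2 * k + 1) x (p.s.j.f w) = 0 := p.orth 0
    have hq : ∀ w, B.q (k + 1) w = 0 := fun w => by
      obtain ⟨t, ht⟩ := exists_mul_self (B.q (k + 1) w)
      have := hK (p.s.j.f w + t • x) x (by
        rw [q_add_top hN, Obj.q_smul, h1, p.s.j.map_q, ht, mul_one, CharTwo.add_self_eq_zero])
      rw [Obj.γ_add_left, Obj.γ_smul_left, γ_comm_two hN _ x, ho, γ_self_two hN, h1, zero_add,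
        mul_one] at this
      rw [← ht, this, mul_zero]
    have hB : B.N ^ (2 * k + 1) = 0 := LinearMap.ext fun w => B.hQ.eq_zero fun v => by
      have := hK (p.s.j.f w) (p.s.j.f v) (by rw [p.s.j.map_q, hq])
      rwa [p.s.j.map_γ] at this
    refine ⟨p.A, p.mem, B, mem_Cs_or hB, ⟨p.s⟩, fun ⟨_, w, hw⟩ => ?_⟩
    obtain ⟨-, y, -, -, hy, -⟩ := p.mem
    obtain ⟨t, ht⟩ := exists_mul_self (a * (B.q k w)⁻¹)
    refine ⟨p.s.i.f (y 0) + p.s.j.f (t • w), ?_, ?_⟩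
    · rw [q_add_top hN, p.s.i.map_q, p.s.j.map_q, hq, hy]; simp
    · rw [Obj.q_add, p.s.i.map_q, p.s.j.map_q, ← p.s.i.map_N_pow, ← p.s.j.map_N_pow, p.s.orth, hy,
        Obj.q_smul, ht, inv_mul_cancel_right₀ hw]
      simp [CharTwo.add_self_eq_zero]
  obtain ⟨x, hx⟩ := hY
  obtain ⟨c, -, hx⟩ := exists_smul_q_eq_one hx
  by_cases h : ∃ x, Y.q (k + 1) x = 1 ∧ Y.q k x = 0
  · obtain ⟨x, h1, h2⟩ := h
    obtain ⟨A, hA, B, hB | hB, s, -⟩ := key x 0 h1 h2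
    · exact Or.inr ⟨A, Or.inl hA, B, hB, s⟩
    · exact Or.inl ⟨A, hA, B, hB, s⟩
  · have e : ∀ t : F, Y.q k (c • x + Y.N (t • c • x)) = t ^ 2 + t + Y.q k (c • x) := fun t => by
      rw [q_add_N_sub hN, Obj.q_smul (k + 1) t, Obj.γ_smul_right _ t, γ_self_two hN, hx]; ring
    have e' : ∀ t : F, Y.q (k + 1) (c • x + Y.N (t • c • x)) = 1 := fun t => by
      rw [Obj.q_add_N hN (by omega), hx]
    obtain ⟨t, ht⟩ := exists_sq_add_self_of_no_root CharTwo.two_eq_zero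
      (fun t ht => h ⟨_, e' t, (e t).trans ht⟩) hα
    obtain ⟨A, hA, B, hB, s, h3⟩ := key _ α (e' t) ((e t).trans ht)
    exact Or.inr ⟨A, Or.inr hA, B, hB.resolve_right fun hB => h (h3 hB), s⟩

theorem Es_step (j : ℕ) {α : F} (hα : ∀ t : F, t ^ 2 + t + α ≠ 0) :
    Es F j ⊆ (Ds F j ∪ Sum (Wb F (2 * j) ∪ Wt j α) (Cs F j)) ∪ Sum (Wb F (2 * j)) (Es F j) :=
  fun Y ⟨hN, hY⟩ => by
  by_cases h0 : Y.N ^ (2 * j) = 0
  · exact Or.inl (Or.inl ⟨h0, hY⟩)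
  have e : (2 * j + 1) / 2 = j := by omega
  by_cases h : ∃ u y, Y.q j u = 0 ∧ Y.γ (2 * j) u y ≠ 0
  · obtain ⟨u, y, hu, huy⟩ := h
    set y' := (Y.γ (2 * j) u y)⁻¹ • y
    have h1 : Y.γ (2 * j) u y' = 1 := by rw [Obj.γ_smul_right, inv_mul_cancel₀ huy]
    obtain ⟨B, ⟨p⟩⟩ := exists_split_Wb hN (x := u) (y := y' + Y.q j y' • u)
      (by rw [Obj.γ_add_right, h1, Obj.γ_smul_right, γ_self_zero hN]; simp) (γ_self_zero hN _)
      (γ_self_zero hN _) (e.symm ▸ hu) (by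
        rw [e, q_add_two hN, Obj.q_smul j (Y.q j y'), hu, Obj.γ_smul_right, γ_comm_two hN, h1]
        simp [CharTwo.add_self_eq_zero])
    rcases mem_Cs_or (p.s.j.pow_eq_zero hN) with hB | hB
    · exact Or.inl (Or.inr ⟨p.A, Or.inl p.mem, B, hB, ⟨p.s⟩⟩)
    · exact Or.inr ⟨p.A, p.mem, B, hB, ⟨p.s⟩⟩
  · push Not at h
    obtain ⟨x, y, hxy⟩ := Obj.exists_γ_ne_zero h0
    obtain ⟨c, hc, hx⟩ := exists_smul_q_eq_one fun h1 => hxy (h x y h1)
    set x' := c • x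
    have h1 : Y.γ (2 * j) x' y ≠ 0 := by rw [Obj.γ_smul_left]; exact mul_ne_zero hc hxy
    set y' := (Y.γ (2 * j) x' y)⁻¹ • y
    have h2 : ∀ t : F, Y.γ (2 * j) x' (y' + t • x') = 1 := fun t => by
      rw [Obj.γ_add_right, Obj.γ_smul_right, inv_mul_cancel₀ h1, Obj.γ_smul_right,
        γ_self_zero hN]; simp
    have h3 : ∀ t : F, Y.q j (y' + t • x') = t ^ 2 + t + Y.q j y' := fun t => by
      have := h2 0
      rw [zero_smul, add_zero] at this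
      rw [q_add_two hN, Obj.q_smul j t, hx, Obj.γ_smul_right _ t, γ_comm_two hN, this]; ring
    obtain ⟨t, ht⟩ := exists_sq_add_self_of_no_root CharTwo.two_eq_zero (fun t ht => by
      have := h _ x' ((h3 t).trans ht)
      rw [γ_comm_two hN, h2] at this
      exact one_ne_zero this) hα
    have hp := exists_peel_two hN (h2 t) (γ_self_zero hN _) (γ_self_zero hN _)
    rw [e, hx, h3, ht] at hp
    obtain ⟨B, ⟨p⟩⟩ := hp
    refine Or.inl (Or.inr ⟨p.A, Or.inr p.mem, B, fun w => ?_, ⟨p.s⟩⟩)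
    by_contra hw
    obtain ⟨a, -, ha⟩ := exists_smul_q_eq_one hw
    have := h (x' + p.s.j.f (a • w)) (y' + t • x') (by
      rw [q_add_two hN, hx, p.s.j.map_q, ha, show Y.γ (2 * j) x' _ = 0 from p.orth 0 _, add_zero,
        CharTwo.add_self_eq_zero])
    rw [Obj.γ_add_left, h2, γ_comm_two hN, show Y.γ (2 * j) (y' + t • x') _ = 0 from p.orth 1 _,
      add_zero] at this
    exact one_ne_zero this

end Cfsg.Agent.Lib.Wall
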