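import Mathlib
import Cfsg.Agent.Lib.Wall.EvenNil

/-!
Generating function bounds for unipotent classes in characteristic two.
-/

set_option autoImplicit false

open Module QuadraticMap PowerSeries

namespace Cfsg.Agent.Lib.Wall

open Cfsg.Agent.Lib.Forms

universe u

section Num

/-- Closure of a relation under the recursion. -/
def StepCl (R : ℕ → ℝ⟦X⟧ → ℝ⟦X⟧ → Prop) : Prop :=
  ∀ j A B, R j A B → R (j + 1) (A * (1 + X ^ (2 * (2 * j + 1))) + B)
    ((1 + X ^ (2 * (j + 1))) * X ^ (2 * (j + 1)) * (2 * A + B))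

/-- The relation holds for series with given evaluation bounds. -/
def RE (R : ℕ → ℝ⟦X⟧ → ℝ⟦X⟧ → Prop) (q : ℝ) (j : ℕ) (α β : ℝ) : Prop :=
  ∃ A B, R j A B ∧ Ev q A α 0 ∧ Ev q B β 0

variable {R : ℕ → ℝ⟦X⟧ → ℝ⟦X⟧ → Prop} {q : ℝ} {j : ℕ} {α β : ℝ}

theorem RE.step (hR : StepCl R) (hq : 2 ≤ q) (h : RE R q j α β) (α' β' : ℝ)
    (h1 : α * (1 + (1 / 2) ^ (2 * j + 1)) + β ≤ α')
    (h2 : (1 + (1 / 2) ^ (j + 1)) * (1 / 2) ^ (j + 1) * (2 * α + β) ≤ β') :
    RE R q (j + 1) α' β' := by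
  obtain ⟨A, B, h, hA, hB⟩ := h
  have hq0 : 0 ≤ q := by linarith
  have hx : 1 ≤ q * (1 / 2) := by linarith
  have e1 : ∀ k, Ev q (1 + X ^ (2 * k)) (1 + (1 / 2) ^ k) 0 := fun k => by
    simpa using ev_one.add (ev_X_pow_even hq0 hx k)
  refine ⟨_, _, hR j A B h, ((hA.mul₀₀ hq0 (e1 _)).add hB).mono' hq0 h1 (by simp), ?_⟩
  have e2 : Ev q (2 * A + B) (2 * α + β) 0 := by simpa [two_mul] using (hA.add hA).add hB
  exact (((e1 _).mul₀₀ hq0 (ev_X_pow_even hq0 hx _)).mul₀₀ hq0 e2).mono' hq0 h2 le_rfl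

theorem RE.tail (hR : StepCl R) (hq : 2 ≤ q) {J : ℕ} (h : RE R q J α β) {c : ℝ}
    (hc : α + β ≤ c * (1 - 2 * (1 / 2) ^ J)) (hc0 : 0 ≤ c) (hj : J ≤ j) :
    ∃ A B, R j A B ∧ Ev q A c 0 := by
  suffices H : ∃ α β, RE R q j α β ∧ α + β ≤ c * (1 - 2 * (1 / 2) ^ j) by
    obtain ⟨α, β, ⟨A, B, h1, h2, h3⟩, h4⟩ := H
    refine ⟨A, B, h1, h2.mono' (by linarith) ?_ le_rfl⟩
    have := h3.2.1
    have : 0 ≤ c * (2 * (1 / 2) ^ j) := by positivity
    linarith
  induction j, hj using Nat.le_induction with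
  | base => exact ⟨α, β, h, hc⟩
  | succ j _ ih =>
    obtain ⟨α, β, h1, h2⟩ := ih
    refine ⟨_, _, h1.step hR hq _ _ le_rfl le_rfl, ?_⟩
    obtain ⟨_, _, -, hA, hB⟩ := h1
    have hα := hA.2.1
    have hβ := hB.2.1
    rw [pow_succ, pow_mul', pow_succ (1 / 2 : ℝ) j]
    have hs : (0 : ℝ) ≤ (1 / 2) ^ j := by positivity
    generalize (1 / 2 : ℝ) ^ j = s at *
    have h3 : (α + β) * (1 + s + s ^ 2) ≤ c * (1 - 2 * s) * (1 + s + s ^ 2) := by gcongr
    have h4 : 0 ≤ β * s := by positivity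
    have h5 : 0 ≤ β * s ^ 2 := by positivity
    have h6 : 0 ≤ c * s ^ 2 := by positivity
    have h7 : 0 ≤ c * s ^ 3 := by positivity
    nlinarith

end Num

variable {F : Type u} [Field F] [Finite F] [CharP F 2] {b : Prop}

theorem gf_step {α : F} (hα : ∀ t : F, t ^ 2 + t + α ≠ 0) {j : ℕ} {c d wp vp : ℝ⟦X⟧}
    (hc : gf b (Cs F j) ≤ c) (hd : gf b (Ds F j) ≤ d) (hw : gf b (Wb F (2 * j) ∪ Wt j α) ≤ wp)
    (hv : gf b (Vb j 0 ∪ Vb j α) ≤ vp) :
    gf b (Cs F (j + 1)) ≤ geom 1 (2 * (2 * j + 1 + 1)) *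
      (c + geom 1 (2 * (2 * j + 1)) * (d + wp * c)) ∧
    gf b (Ds F (j + 1)) ≤ geom 1 (2 * (2 * j + 1 + 1)) * ((1 + X ^ (2 * (j + 1))) *
      (X ^ (2 * (j + 1)) * (geom 1 (2 * (2 * j + 1)) * (d + wp * c)) + vp * c)) := by
  have hg := geom_nonneg zero_le_one
  have he : gf b (Es F j) ≤ geom 1 (2 * (2 * j + 1)) * (d + wp * c) :=
    (gf_star (by omega) ((single_Wb _).weaken b) (Es_step j hα)).trans
      (mul_le_mul_of_nonneg_left (gf_union_le.trans (add_le_add hd (gf_sum_le_of hw hc))) (hg _))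
  refine ⟨(gf_star (by omega) ((single_Wb _).weaken b) (Cs_step j)).trans
    (mul_le_mul_of_nonneg_left (gf_union_le.trans (add_le_add hc he)) (hg _)),
    (gf_star (by omega) ((single_Wb _).weaken b) (Ds_step j)).trans
      (mul_le_mul_of_nonneg_left ?_ (hg _))⟩
  have h1 := (gf_le_add (D1_step j hα)).trans (add_le_add
    (gf_sum_le_of ((single_Vb j 0).weaken b).gf_le he) (gf_sum_le_of hv hc))
  rw [add_mul, one_mul]
  exact (gf_le_add (D2_step j)).trans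
    (add_le_add h1 (gf_sum_le_of ((single_Vb j 0).weaken b).gf_le h1))

theorem tb_step {α : F} (hα : ∀ t : F, t ^ 2 + t + α ≠ 0) {j : ℕ} {c c' d' : ℝ⟦X⟧}
    (hc : gf True (Cs F j) ≤ c) (hc' : TB (tpTy F) (Cs F j) c') (hd : TB (tpTy F) (Ds F j) d') :
    TB (tpTy F) (Cs F (j + 1)) (geom 1 (2 * (2 * j + 1 + 1)) *
      (c' + geom 1 (2 * (2 * j + 1)) * (d' + X ^ (2 * (2 * j + 1)) * c))) ∧
    TB (tpTy F) (Ds F (j + 1)) (geom 1 (2 * (2 * j + 1 + 1)) * ((1 + X ^ (2 * (j + 1))) *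
      (X ^ (2 * (j + 1)) * (geom 1 (2 * (2 * j + 1)) * (d' + X ^ (2 * (2 * j + 1)) * c)) +
        X ^ (2 * (j + 1)) * c))) := by
  have hw := TB.pair (τ := tpTy F) (single_Wb (2 * j)) (single_Wt j α)
    fun A hA B hB => tpTy_ne (isLag_Wb hA) (not_isLag_Wt hα hB)
  have hv := TB.pair (τ := tpTy F) (single_Vb j 0) (single_Vb j α)
    fun A hA B hB => tpTy_ne (isLag_Vb hA) (not_isLag_Vb hα hB)
  have he := (hd.union (hw.sum_left hc)).star (by omega) (single_Wb _) (Es_step j hα)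
  refine ⟨(hc'.union he).star (by omega) (single_Wb _) (Cs_step j),
    TB.star (by omega) (single_Wb _) (Ds_step j) ?_⟩
  have h1 := ((he.sum_right (single_Vb j 0).gf_le).union (hv.sum_left hc)).mono
    (D1_step j hα) le_rfl
  rw [add_mul, one_mul]
  exact (h1.union (h1.sum_right (single_Vb j 0).gf_le)).mono (D2_step j) le_rfl

theorem exists_no_root (F : Type u) [Field F] [Finite F] [CharP F 2] :
    ∃ α : F, ∀ t : F, t ^ 2 + t + α ≠ 0 := by
  by_contra! H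
  have h1 : Function.Surjective fun t : F => t ^ 2 + t := fun a => by
    obtain ⟨t, ht⟩ := H a
    exact ⟨t, by rw [← CharTwo.neg_eq a]; linear_combination ht⟩
  have h2 := Finite.injective_iff_surjective.2 h1 (a₁ := 0) (a₂ := 1)
    (by simp [CharTwo.add_self_eq_zero])
  exact zero_ne_one h2

/-- The bounds for all classes. -/
def RecG (F : Type u) [Field F] (b : Prop) (j : ℕ) (A B : ℝ⟦X⟧) : Prop :=
  gf b (Cs F j) ≤ Pser (2 * j) * A ∧ gf b (Ds F j) ≤ Pser (2 * j) * B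

omit [Finite F] [CharP F 2] in
theorem Pser_succ (j : ℕ) : Pser (2 * (j + 1)) =
    geom 1 (2 * (2 * j + 1 + 1)) * geom 1 (2 * (2 * j + 1)) * Pser (2 * j) := by
  rw [show 2 * (j + 1) = 2 * j + 1 + 1 by ring]
  simp only [Pser, Finset.prod_range_succ]
  ring

theorem stepCl_RecG : StepCl (RecG F b) := fun j A B h => by
  obtain ⟨α, hα⟩ := exists_no_root F
  obtain ⟨h1, h2⟩ := gf_step hα h.1 h.2
    (gf_union_le.trans (add_le_add ((single_Wb _).weaken b).gf_le ((single_Wt j α).weaken b).gf_le))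
    (gf_union_le.trans (add_le_add ((single_Vb j 0).weaken b).gf_le
      ((single_Vb j α).weaken b).gf_le))
  have e := geom_one_mul (w := 2 * (2 * j + 1)) (by omega)
  refine ⟨h1.trans_eq ?_, h2.trans_eq ?_⟩ <;> rw [Pser_succ]
  · linear_combination (-geom 1 (2 * (2 * j + 1 + 1)) * Pser (2 * j) * A) * e
  · linear_combination (-2 * geom 1 (2 * (2 * j + 1 + 1)) * Pser (2 * j) * A *
      (1 + X ^ (2 * (j + 1))) * X ^ (2 * (j + 1))) * e

omit [CharP F 2] in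
theorem gf_Cs_zero : gf b (Cs F 0) ≤ 1 :=
  (gf_mono (T := E F 0) fun _ h => Cs.pow_eq_zero (j := 0) h).trans gf_E_zero

omit [Finite F] [CharP F 2] in
theorem gf_Ds_zero : gf b (Ds F 0) ≤ 0 := by
  have : Ds F 0 = ∅ := Set.eq_empty_of_forall_notMem fun Y ⟨h, x, hx⟩ => hx (by
    rw [Obj.q, Obj.pow_apply_eq_zero h le_rfl, map_zero])
  simp [this, gf, gfs, fib, ps_le_def]

theorem recG_sp : RecG F False 1 1 ((1 + X ^ 2) * X ^ 2) := by
  obtain ⟨α, hα⟩ := exists_no_root F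
  have h2 : (2 : F) = 0 := CharTwo.two_eq_zero
  have hw : Single False (Wb F (2 * 0) ∪ Wt 0 α) 2 := by
    refine ⟨?_, fun A hA => hA.elim ((single_Wb _).2 A) ((single_Wt _ _).2 A)⟩
    rintro A (hA | hA) B (hB | hB) <;>
      exact iso_blk hA hB (by simp [h2]) (by simp [Fin.forall_fin_two]) False.elim
  have hv : Single False (Vb 0 0 ∪ Vb 0 α) 2 := by
    refine ⟨?_, fun A hA => hA.elim ((single_Vb _ _).2 A) ((single_Vb _ _).2 A)⟩
    rintro A (hA | hA) B (hB | hB) <;>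
      exact iso_blk hA hB (by simp [h2]) (by simp) False.elim
  obtain ⟨h1, h2⟩ := gf_step hα gf_Cs_zero gf_Ds_zero hw.gf_le hv.gf_le
  have e := geom_one_mul (w := 2) (by omega)
  refine ⟨h1.trans_eq ?_, h2.trans_eq ?_⟩ <;> simp only [Pser, Finset.prod_range_succ] <;> simp
  · linear_combination (-geom 1 4) * e
  · linear_combination (-geom 1 4 * (1 + X ^ 2) * X ^ 2) * e

/-- The bounds for all classes and for the classes of each type. -/
def RecT (F : Type u) [Field F] [Finite F] [CharP F 2] (j : ℕ) (A B : ℝ⟦X⟧) : Prop :=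
  RecG F True j A B ∧ ∃ c d, TB (tpTy F) (Cs F j) c ∧ TB (tpTy F) (Ds F j) d ∧
    2 * c ≤ Pser (2 * j) * (A + 1) ∧ 2 * d ≤ Pser (2 * j) * B

theorem stepCl_RecT : StepCl (RecT F) := fun j A B ⟨h, c, d, h1, h2, h3, h4⟩ => by
  obtain ⟨α, hα⟩ := exists_no_root F
  obtain ⟨h5, h6⟩ := tb_step hα h.1 h1 h2
  have e := geom_one_mul (w := 2 * (2 * j + 1)) (by omega)
  have hg := geom_nonneg zero_le_one
  have hP := Pser_nonneg (2 * j)
  have hX := X_pow_nonneg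
  refine ⟨stepCl_RecG j A B h, _, _, h5, h6, ?_, ?_⟩ <;> rw [Pser_succ]
  · calc _ = geom 1 (2 * (2 * j + 1 + 1)) * (2 * c + geom 1 (2 * (2 * j + 1)) *
          (2 * d + 2 * X ^ (2 * (2 * j + 1)) * (Pser (2 * j) * A))) := by ring
      _ ≤ geom 1 (2 * (2 * j + 1 + 1)) * (Pser (2 * j) * (A + 1) + geom 1 (2 * (2 * j + 1)) *
          (Pser (2 * j) * B + 2 * X ^ (2 * (2 * j + 1)) * (Pser (2 * j) * A))) +
          geom 1 (2 * (2 * j + 1 + 1)) * geom 1 (2 * (2 * j + 1)) * Pser (2 * j) *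
            X ^ (2 * (2 * j + 1)) :=
        le_add_of_le_of_nonneg (mul_le_mul_of_nonneg_left (add_le_add h3
          (mul_le_mul_of_nonneg_left (add_le_add h4 le_rfl) (hg _))) (hg _))
          (mul_nonneg (mul_nonneg (mul_nonneg (hg _) (hg _)) hP) (hX _))
      _ = _ := by
        linear_combination (-geom 1 (2 * (2 * j + 1 + 1)) * Pser (2 * j) * (A + 1)) * e
  · calc _ = geom 1 (2 * (2 * j + 1 + 1)) * ((1 + X ^ (2 * (j + 1))) * X ^ (2 * (j + 1))) *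
          (geom 1 (2 * (2 * j + 1)) * (2 * d + 2 * X ^ (2 * (2 * j + 1)) * (Pser (2 * j) * A)) +
            2 * (Pser (2 * j) * A)) := by ring
      _ ≤ geom 1 (2 * (2 * j + 1 + 1)) * ((1 + X ^ (2 * (j + 1))) * X ^ (2 * (j + 1))) *
          (geom 1 (2 * (2 * j + 1)) * (Pser (2 * j) * B +
            2 * X ^ (2 * (2 * j + 1)) * (Pser (2 * j) * A)) + 2 * (Pser (2 * j) * A)) :=
        mul_le_mul_of_nonneg_left (add_le_add (mul_le_mul_of_nonneg_left (add_le_add h4 le_rfl)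
          (hg _)) le_rfl) (mul_nonneg (hg _) (mul_nonneg (add_nonneg zero_le_one (hX _)) (hX _)))
      _ = _ := by
        linear_combination (-2 * geom 1 (2 * (2 * j + 1 + 1)) * Pser (2 * j) * A *
          (1 + X ^ (2 * (j + 1))) * X ^ (2 * (j + 1))) * e

theorem recT_zero : RecT F 0 1 0 :=
  ⟨⟨by simpa [Pser] using gf_Cs_zero, by simpa [Pser] using gf_Ds_zero⟩, 1, 0,
    TB.of_gf gf_Cs_zero, TB.of_gf gf_Ds_zero, by simp [Pser, one_add_one_eq_two], by simp⟩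

theorem gf_Cs_sp {q : ℝ} (hq : 2 ≤ q) {j : ℕ} (hj : 6 ≤ j) :
    ∃ A, gf False (Cs F j) ≤ Pser (2 * j) * A ∧ Ev q A 4.3864 0 := by
  have hq0 : 0 ≤ q := by linarith
  have hx : 1 ≤ q * (1 / 2) := by linarith
  have h1 : RE (RecG F False) q 1 1 0.75 := ⟨_, _, recG_sp, ev_one, by
    have := ((ev_one.add (ev_X_pow_even hq0 hx 1)).mul₀ hq0 (ev_X_pow_even hq0 hx 1))
    exact this.mono' hq0 (by norm_num) (by norm_num)⟩
  have h6 := ((((h1.step stepCl_RecG hq 1.875 0.85938 (by norm_num) (by norm_num)).step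
    stepCl_RecG hq 2.79298 0.6482 (by norm_num) (by norm_num)).step
    stepCl_RecG hq 3.46301 0.41399 (by norm_num) (by norm_num)).step
    stepCl_RecG hq 3.88377 0.23655 (by norm_num) (by norm_num)).step
    stepCl_RecG hq 4.12222 0.12702 (by norm_num) (by norm_num)
  obtain ⟨A, B, h, hA⟩ := h6.tail stepCl_RecG hq (c := 4.3864) (by norm_num) (by norm_num) hj
  exact ⟨A, h.1, hA⟩

theorem tb_Cs {q : ℝ} (hq : 2 ≤ q) {j : ℕ} (hj : 6 ≤ j) :
    ∃ A c, TB (tpTy F) (Cs F j) c ∧ 2 * c ≤ Pser (2 * j) * (A + 1) ∧ Ev q A 7.3769 0 := by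
  have h0 : RE (RecT F) q 0 1 0 := ⟨_, _, recT_zero, ev_one, ev_zero⟩
  have h6 := (((((h0.step stepCl_RecT hq 1.5 1.5 (by norm_num) (by norm_num)).step
    stepCl_RecT hq 3.1875 1.40625 (by norm_num) (by norm_num)).step
    stepCl_RecT hq 4.69336 1.09424 (by norm_num) (by norm_num)).step
    stepCl_RecT hq 5.82427 0.69601 (by norm_num) (by norm_num)).step
    stepCl_RecT hq 6.53166 0.39783 (by norm_num) (by norm_num)).step
    stepCl_RecT hq 6.93268 0.21362 (by norm_num) (by norm_num)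
  obtain ⟨A, B, ⟨-, c, d, h1, -, h2, -⟩, hA⟩ :=
    h6.tail stepCl_RecT hq (c := 7.3769) (by norm_num) (by norm_num) hj
  exact ⟨A, c, h1, h2, hA⟩

end Cfsg.Agent.Lib.Wall
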