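import Mathlib
import Cfsg.Agent.Lib.Wall.Obj
import Cfsg.Agent.Lib.GL.Jordan3
import Cfsg.Agent.Lib.GL.Mult

/-!
Isometries without eigenvalue `±1` are classified by sequences of monic polynomials.
-/

set_option autoImplicit false

open Module QuadraticMap Polynomial Matrix

namespace Cfsg.Agent.Lib.Wall

open Cfsg.Agent.Lib.Forms Cfsg.Agent.Lib.GL.Sim Cfsg.Agent.Lib.GL.Jordan Cfsg.Agent.Lib.GL.Mult

universe u

section JD

variable {K : Type*} [Field K] [DecidableEq K] {ι : Type*} [Fintype ι] [DecidableEq ι]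

/-- The block sizes attached to the eigenvalue `t`. -/
def jd (D : Multiset (K × ℕ)) (t : K) : Multiset ℕ := (D.filter (·.1 = t)).map Prod.snd

omit [Field K] in
theorem count_jd (D : Multiset (K × ℕ)) (t : K) (i : ℕ) : (jd D t).count i = D.count (t, i) := by
  induction D using Multiset.induction_on with
  | empty => simp [jd]
  | cons a D ih =>
    obtain ⟨s, j⟩ := a
    rw [jd] at ih
    rw [jd, Multiset.filter_cons, Multiset.map_add, Multiset.count_add, ih, Multiset.count_cons,
      add_comm]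
    by_cases h : s = t
    · simp [h, Multiset.count_singleton]
    · simp [h, Ne.symm h]

/-- `D` is the multiset of Jordan blocks of `A`. -/
structure IsJD (A : Matrix ι ι K) (D : Multiset (K × ℕ)) : Prop where
  pos : ∀ p ∈ D, 0 < p.2
  sum : (D.map Prod.snd).sum = Fintype.card ι
  kd : ∀ t j, kdM A ((X - C t) ^ j) = minSum (jd D t) j

theorem natDegree_gcd_pow {m : K[X]} (hm : m ≠ 0) (t : K) (j : ℕ) :
    (EuclideanDomain.gcd ((X - C t) ^ j) m).natDegree = min j (m.rootMultiplicity t) := by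
  obtain ⟨i, hi, h⟩ := (dvd_prime_pow (prime_X_sub_C t) j).1
    (EuclideanDomain.gcd_dvd_left ((X - C t) ^ j) m)
  have h1 : i ≤ m.rootMultiplicity t := (le_rootMultiplicity_iff hm).2
    (h.symm.dvd.trans (EuclideanDomain.gcd_dvd_right _ _))
  have h2 : (X - C t) ^ min j (m.rootMultiplicity t) ∣ (X - C t) ^ i :=
    (EuclideanDomain.dvd_gcd (pow_dvd_pow _ (min_le_left _ _))
      ((le_rootMultiplicity_iff hm).1 (min_le_right _ _))).trans h.dvd
  have h3 := natDegree_le_of_dvd h2 (pow_ne_zero _ (X_sub_C_ne_zero t))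
  rw [natDegree_eq_of_degree_eq (degree_eq_degree_of_associated h)]
  simp only [natDegree_pow, natDegree_X_sub_C, mul_one] at h3 ⊢
  omega

theorem exists_isJD [IsAlgClosed K] (A : Matrix ι ι K) : ∃ D, IsJD A D := by
  obtain ⟨L, h1, h2⟩ := exists_list_kdE (toLin' A)
  have key : ∀ L : List K[X], (∀ m ∈ L, m ≠ 0) → ∃ D : Multiset (K × ℕ), (∀ p ∈ D, 0 < p.2) ∧
      (D.map Prod.snd).sum = (L.map natDegree).sum ∧
      ∀ t j, (L.map fun m => min j (m.rootMultiplicity t)).sum = minSum (jd D t) j := by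
    intro L hL
    induction L with
    | nil => exact ⟨0, by simp, by simp, by simp [jd, minSum]⟩
    | cons m L ih =>
      obtain ⟨D, e1, e2, e3⟩ := ih fun m hm => hL m (List.mem_cons_of_mem _ hm)
      have hm := hL m List.mem_cons_self
      refine ⟨m.roots.toFinset.val.map (fun t => (t, m.rootMultiplicity t)) + D, fun p hp => ?_,
        ?_, fun t j => ?_⟩
      · rcases Multiset.mem_add.1 hp with hp | hp
        · obtain ⟨t, ht, rfl⟩ := Multiset.mem_map.1 hp
          exact (rootMultiplicity_pos hm).2 (by simpa [hm] using ht)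
        · exact e1 p hp
      · rw [Multiset.map_add, Multiset.sum_add, e2, List.map_cons, List.sum_cons, Multiset.map_map,
          ← IsAlgClosed.card_roots_eq_natDegree, ← Multiset.toFinset_sum_count_eq]
        simp only [count_roots]
        rfl
      · rw [List.map_cons, List.sum_cons, e3]
        simp only [jd, minSum, Multiset.filter_add, Multiset.map_add, Multiset.sum_add,
          Multiset.filter_map, Multiset.map_map, Function.comp_def, Nat.add_right_cancel_iff]
        rw [← Finset.filter_val, Finset.filter_eq']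
        split_ifs with h
        · simp
        · rw [rootMultiplicity_eq_zero (by simpa [hm] using h)]; simp
  obtain ⟨D, e1, e2, e3⟩ := key L fun m hm => (h1 m hm).1.ne_zero
  refine ⟨D, e1, ?_, fun t j => ?_⟩
  · rw [e2, ← kdM_zero A, kdM, h2]
    simp
  · rw [← e3, kdM, h2]
    congr 1
    exact List.map_congr_left fun m hm => by
      convert natDegree_gcd_pow (h1 m hm).1.ne_zero t j

variable {κ : Type*} [Fintype κ] [DecidableEq κ] {A : Matrix ι ι K} {B : Matrix κ κ K}
  {D D' : Multiset (K × ℕ)}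

theorem IsJD.count_eq (h : IsJD A D) (h' : IsJD B D') {s t : K}
    (e : ∀ j, kdM A ((X - C s) ^ j) = kdM B ((X - C t) ^ j)) (i : ℕ) :
    D.count (s, i + 1) = D'.count (t, i + 1) := by
  have h1 := minSum_second_diff (jd D s) i
  have h2 := minSum_second_diff (jd D' t) i
  simp only [← h.kd, ← h'.kd, e, count_jd] at h1 h2
  omega

theorem IsJD.count_eq_zero (h : IsJD A D) {s : K} (e : ∀ j, kdM A ((X - C s) ^ j) = 0) (i : ℕ) :
    D.count (s, i + 1) = 0 := by
  have h1 := minSum_second_diff (jd D s) i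
  simp only [← h.kd, e, count_jd] at h1
  omega

theorem IsJD.kdM_eq [IsAlgClosed K] (h : IsJD A D) (h' : IsJD B D')
    (e : ∀ t i, D.count (t, i + 1) = D'.count (t, i + 1)) (f : K[X]) : kdM A f = kdM B f := by
  obtain rfl : D = D' := Multiset.ext.2 fun ⟨t, i⟩ => by
    cases i with
    | zero =>
      rw [Multiset.count_eq_zero.2 fun H => (h.pos _ H).ne rfl,
        Multiset.count_eq_zero.2 fun H => (h'.pos _ H).ne rfl]
    | succ i => exact e t i
  refine kdE_eq_of_primePow (P := A.charpoly * B.charpoly)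
    (A.charpoly_monic.mul B.charpoly_monic).ne_zero ?_ ?_ (fun p j hp hp' _ => ?_) f
  · rw [aeval_toLin'_eq_zero, map_mul, aeval_self_charpoly, zero_mul]
  · rw [aeval_toLin'_eq_zero, map_mul, aeval_self_charpoly, mul_zero]
  · rw [hp.eq_X_add_C (natDegree_eq_of_degree_eq_some
      (IsAlgClosed.degree_eq_one_of_irreducible K hp')), ← sub_neg_eq_add, ← map_neg]
    exact (h.kd _ j).trans (h'.kd _ j).symm

omit [DecidableEq K] in
theorem kdM_inv_pow {A B : Matrix ι ι K} (h : A * B = 1) {z : K} (hz : z ≠ 0) (j : ℕ) :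
    kdM B ((X - C z⁻¹) ^ j) = kdM A ((X - C z) ^ j) := by
  have h1 := kdM_add_rank B ((X - C z⁻¹) ^ j)
  have h2 := kdM_add_rank A ((X - C z) ^ j)
  have h0 : B * A = 1 := mul_eq_one_comm.1 h
  have h3 : B - z⁻¹ • 1 = (-z⁻¹ • B) * (A - z • 1) := by
    rw [smul_mul_assoc, mul_sub, h0, mul_smul_comm, mul_one, smul_sub, smul_smul]
    simp [hz, sub_eq_add_neg, add_comm]
  have h4 : Commute (-z⁻¹ • B) (A - z • 1) :=
    (Commute.sub_right (h0.trans h.symm) ((Commute.one_right B).smul_right z)).smul_left _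
  rw [map_pow, aeval_X_sub_C'] at h1 h2
  rw [h3, h4.mul_pow, rank_mul_eq_right_of_det_ne_zero _ _ (by
    have := congrArg det h0
    rw [det_mul, det_one] at this
    rw [det_pow, det_smul]
    simp [hz, left_ne_zero_of_mul_eq_one this])] at h1
  omega

omit [Field K] in
theorem sum_card_filter (D : Multiset (K × ℕ)) {L : ℕ} (h : ∀ p ∈ D, 0 < p.2 ∧ p.2 ≤ L) :
    ∑ i ∈ Finset.range L, (i + 1) * (D.filter (·.2 = i + 1)).card = (D.map Prod.snd).sum := by
  induction D using Multiset.induction_on with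
  | empty => simp
  | cons a D ih =>
    obtain ⟨s, j⟩ := a
    obtain ⟨h1, h2⟩ := h _ (Multiset.mem_cons_self _ _)
    obtain ⟨j, rfl⟩ : ∃ k, j = k + 1 := ⟨j - 1, by simp only at h1; omega⟩
    rw [Multiset.map_cons, Multiset.sum_cons, ← ih fun p hp => h p (Multiset.mem_cons_of_mem hp)]
    simp only [Multiset.filter_cons, Multiset.card_add, mul_add, Finset.sum_add_distrib,
      Nat.add_right_cancel_iff]
    rw [Finset.sum_eq_single j (fun i _ hi => by simp [hi.symm])
      fun hj => absurd (Finset.mem_range.2 h2) hj]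
    simp

omit [Field K] in
theorem count_map_filter (D : Multiset (K × ℕ)) (t : K) (i : ℕ) :
    ((D.filter (·.2 = i)).map Prod.fst).count t = D.count (t, i) := by
  induction D using Multiset.induction_on with
  | empty => simp
  | cons a D ih =>
    obtain ⟨s, j⟩ := a
    rw [Multiset.filter_cons, Multiset.map_add, Multiset.count_add, ih, Multiset.count_cons,
      add_comm]
    by_cases h : j = i
    · simp [h, Multiset.count_singleton]
    · simp [h, Ne.symm h]

omit [DecidableEq K] in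
theorem add_inv_eq_iff {s t : K} (hs : s ≠ 0) (ht : t ≠ 0) :
    s + s⁻¹ = t + t⁻¹ ↔ s = t ∨ s = t⁻¹ := by
  constructor
  · intro h
    have : (s - t) * (s - t⁻¹) = 0 := by
      field_simp at h ⊢
      linear_combination h
    simpa [sub_eq_zero] using this
  · rintro (rfl | rfl)
    · rfl
    · rw [inv_inv, add_comm]

theorem exists_half (u : Multiset K) (h0 : ∀ t ∈ u, t ≠ 0 ∧ t⁻¹ ≠ t)
    (hi : ∀ t, u.count t⁻¹ = u.count t) : ∃ w : Multiset K, u.card = 2 * w.card ∧
      ∀ t, t ≠ 0 → w.count (t + t⁻¹) = u.count t := by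
  induction hn : u.card using Nat.strong_induction_on generalizing u with
  | _ n ih =>
    rcases u.empty_or_exists_mem with rfl | ⟨t, ht⟩
    · exact ⟨0, by simpa using hn.symm, by simp⟩
    obtain ⟨ht0, ht1⟩ := h0 t ht
    obtain ⟨u, rfl⟩ := Multiset.exists_cons_of_mem ht
    have ht' : t⁻¹ ∈ u := by
      have := Multiset.count_pos.2 ht
      rw [← hi, Multiset.count_cons_of_ne ht1] at this
      exact Multiset.count_pos.1 this
    obtain ⟨u, rfl⟩ := Multiset.exists_cons_of_mem ht'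
    simp only [Multiset.card_cons] at hn
    obtain ⟨w, h1, h2⟩ := ih u.card (by omega) u
      (fun s hs => h0 s (Multiset.mem_cons_of_mem (Multiset.mem_cons_of_mem hs))) (fun s => by
        have := hi s
        simp only [Multiset.count_cons, inv_eq_iff_eq_inv (a := s), inv_inv] at this
        omega) rfl
    refine ⟨(t + t⁻¹) ::ₘ w, by rw [Multiset.card_cons]; omega, fun s hs => ?_⟩
    simp only [Multiset.count_cons, h2 s hs, add_inv_eq_iff hs ht0]
    by_cases e1 : s = t
    · simp [e1, ht1.symm]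
    · by_cases e2 : s = t⁻¹ <;> simp [e1, e2, ht1]

omit [DecidableEq K] in
theorem exists_add_inv [IsAlgClosed K] (z : K) : ∃ t, t ≠ 0 ∧ t + t⁻¹ = z := by
  obtain ⟨t, ht⟩ := IsAlgClosed.exists_root (X ^ 2 - C z * X + 1 : K[X]) (by
    rw [show (X ^ 2 - C z * X + 1 : K[X]).degree = 2 by compute_degree!]; decide)
  simp only [IsRoot.def, eval_add, eval_sub, eval_pow, eval_X, eval_mul, eval_C, eval_one] at ht
  have h0 : t ≠ 0 := by rintro rfl; simp at ht
  exact ⟨t, h0, by field_simp; linear_combination ht⟩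

theorem exists_poly [IsAlgClosed K] {F : Type*} [Field F] [Fintype F] (φ : F →+* K)
    (u : Multiset K) (h0 : 0 ∉ u) (h1 : 1 ∉ u) (h2 : -1 ∉ u) (hi : ∀ t, u.count t⁻¹ = u.count t)
    (hq : ∀ t, u.count (t ^ Fintype.card F) = u.count t) :
    ∃ f ∈ Good ({2, -2} : Set F), u.card = 2 * f.natDegree ∧
      ∀ t, t ≠ 0 → (f.map φ).rootMultiplicity (t + t⁻¹) = u.count t := by
  obtain ⟨w, e1, e2⟩ := exists_half u (fun t ht => by
    have h3 : t ≠ 0 := fun h => h0 (h ▸ ht)
    refine ⟨h3, fun h => ?_⟩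
    rcases mul_self_eq_one_iff.1 (show t * t = 1 by nth_rw 1 [← h]; exact inv_mul_cancel₀ h3) with
      h | h
    exacts [h1 (h ▸ ht), h2 (h ▸ ht)]) hi
  obtain ⟨τ, hτ⟩ := exists_frob φ
  have hw : w.map τ = w := Multiset.ext.2 fun z => by
    obtain ⟨z, rfl⟩ := IsAlgClosed.exists_pow_nat_eq z (Fintype.card_pos (α := F))
    obtain ⟨t, ht, rfl⟩ := exists_add_inv z
    rw [← hτ, Multiset.count_map_eq_count' _ _ τ.injective, map_add, map_inv₀,
      e2 _ ((map_ne_zero τ).2 ht), e2 t ht, hτ, hq]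
  have hp : ((w.map fun a => X - C a).prod).map τ = (w.map fun a => X - C a).prod := by
    conv_rhs => rw [← hw]
    simp [Polynomial.map_multiset_prod]
  obtain ⟨f, e3, e4, e5⟩ := lifts_and_natDegree_eq_and_monic (f := φ)
    ((lifts_iff_coeff_lifts _).2 fun n => (mem_range_iff_pow φ _).2 (by
      rw [← hτ, ← coeff_map, hp])) (monic_multisetProd_X_sub_C w)
  have e6 : ∀ t, t ≠ 0 → (f.map φ).rootMultiplicity (t + t⁻¹) = u.count t := fun t ht => by
    rw [e3, ← count_roots, roots_multiset_prod_X_sub_C, e2 t ht]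
  have e7 : ∀ c : F, ∀ t ∉ u, t ≠ 0 → t + t⁻¹ = φ c → f.eval c ≠ 0 := fun c t ht ht0 h hc => by
    have := e6 t ht0
    rw [Multiset.count_eq_zero.2 ht, h, rootMultiplicity_eq_zero_iff] at this
    exact (e5.map φ).ne_zero (this (by rw [IsRoot.def, eval_map, eval₂_hom, hc, map_zero]))
  refine ⟨f, ⟨e5, ?_⟩, by rw [e1, e4, natDegree_multiset_prod_X_sub_C_eq_card], e6⟩
  rintro c (rfl | rfl)
  · exact e7 _ 1 h1 one_ne_zero (by rw [map_ofNat]; norm_num)
  · exact e7 _ (-1) h2 (neg_ne_zero.2 one_ne_zero) (by rw [map_neg, map_ofNat]; norm_num)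

end JD

variable {F : Type u} [Field F] {Y Z : Obj F}

/-- Isometries without eigenvalue `±1`. -/
def Reg (F : Type u) [Field F] : Set (Obj F) :=
  {Y | (∀ v, Y.g v = v → v = 0) ∧ ∀ v, Y.g v = -v → v = 0}

/-- The matrix of the isometry. -/
noncomputable def Obj.mat (Y : Obj F) : Matrix (Fin (finrank F Y.V)) (Fin (finrank F Y.V)) F :=
  LinearMap.toMatrix (finBasis F Y.V) (finBasis F Y.V) Y.g

theorem iso_of_kdE [Finite F] (hY : Y ∈ Reg F) (h : ∀ f, kdE Y.g f = kdE Z.g f) : Iso True Y Z := by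
  obtain ⟨e, he⟩ := exists_equiv_of_kdE_eq _ _ h
  obtain ⟨T, h1, h2⟩ := GL.OrthConj.exists_comm_quad hY.1 hY.2 Y.hQ
    (Q' := Z.Q.comp e.toLinearMap) (nondeg_of_isom Z.hQ e fun _ => rfl) Y.hg
    fun v => by simp [he, Z.hg]
  let i : Emb Z Y := ⟨T ∘ₗ e.symm.toLinearMap, fun v => by simp [h2], fun v => by
    obtain ⟨v, rfl⟩ := e.surjective v
    simp [← he, h1]⟩
  exact (iso_of_isom True (LinearEquiv.ofBijective i.f ⟨i.injective,
    (LinearMap.injective_iff_surjective_of_finrank_eq_finrank e.finrank_eq.symm).1 i.injective⟩)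
    i.map_g i.map_Q).symm

section Map

variable {K : Type*} [Field K] (φ : F →+* K)

theorem kdM_mat_eq_zero {c : F} (h : ∀ v, Y.g v = c • v → v = 0) (j : ℕ) :
    kdM (Y.mat.map φ) ((X - C (φ c)) ^ j) = 0 := by
  have : ((X - C c) ^ j).map φ = (X - C (φ c)) ^ j := by simp
  rw [← this, kdM_map, Obj.mat, kdM_toMatrix, kdE, Submodule.finrank_eq_zero, LinearMap.ker_eq_bot, map_pow,
    Module.End.coe_pow]
  refine Function.Injective.iterate ((injective_iff_map_eq_zero _).2 fun v hv => h v ?_) j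
  simpa [sub_eq_zero] using hv

theorem kdM_mat_inv {t : K} (ht : t ≠ 0) (j : ℕ) :
    kdM (Y.mat.map φ) ((X - C t⁻¹) ^ j) = kdM (Y.mat.map φ) ((X - C t) ^ j) := by
  have h1 := Y.hQ.gram_det_ne_zero (finBasis F Y.V)
  have h : Y.matᵀ * gram Y.Q (finBasis F Y.V) * Y.mat = gram Y.Q (finBasis F Y.V) := by
    rw [gram_eq_toMatrix, Obj.mat,
      ← LinearMap.BilinForm.toMatrix_comp (finBasis F Y.V) (finBasis F Y.V)]
    congr 1
    exact LinearMap.ext₂ Y.polar_g
  generalize gram Y.Q (finBasis F Y.V) = G at h h1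
  have h2 : (G.map φ).det ≠ 0 := by
    rw [← RingHom.mapMatrix_apply, ← RingHom.map_det]; exact (map_ne_zero φ).2 h1
  obtain ⟨P, hP⟩ := (isUnit_iff_isUnit_det _).2 h2.isUnit
  have h3 : (Y.mat.map φ)ᵀ * P * Y.mat.map φ = P := by
    rw [hP, ← transpose_map, ← Matrix.map_mul, ← Matrix.map_mul, h]
  have h4 : Y.mat.map φ * ((P⁻¹ : GL _ K) * (Y.mat.map φ)ᵀ * P) = 1 := by
    rw [mul_eq_one_comm, mul_assoc, mul_assoc, ← mul_assoc (Y.mat.map φ)ᵀ, h3]; simp
  rw [← kdM_inv_pow h4 ht, ← kdM_transpose (Y.mat.map φ)]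
  exact kdM_eq_of_mul_eq P⁻¹ (by simp) _

end Map

theorem gf_reg [Finite F] (L : ℕ) :
    gf True {Y | Y ∈ Reg F ∧ Y.dim ≤ L} ≤
      ∏ i ∈ Finset.range L, aS ({2, -2} : Set F) (2 * (i + 1)) := by
  classical
  have := Fintype.ofFinite F
  let φ := algebraMap F (AlgebraicClosure F)
  refine (gf_le_gfs (seq_bound _ L).1 (fun Y f => ∃ D, IsJD (Y.mat.map φ) D ∧
    ∀ i t, t ≠ 0 → ((f i).map φ).rootMultiplicity (t + t⁻¹) = D.count (t, i + 1)) ?_ ?_).trans
    (seq_bound _ L).2
  · rintro Y ⟨hY, hL⟩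
    obtain ⟨D, hD⟩ := exists_isJD (Y.mat.map φ)
    obtain ⟨τ, hτ⟩ := exists_frob φ
    have hz : ∀ (c : F) i, (∀ v, Y.g v = c • v → v = 0) →
        φ c ∉ (D.filter (·.2 = i + 1)).map Prod.fst := fun c i h => by
      rw [← Multiset.count_eq_zero, count_map_filter, hD.count_eq_zero (kdM_mat_eq_zero φ h)]
    have key := fun i => exists_poly φ ((D.filter (·.2 = i + 1)).map Prod.fst)
      (by simpa using hz 0 i fun v hv => Y.g_injective (by simpa using hv))
      (by simpa using hz 1 i (by simpa using hY.1)) (by simpa using hz (-1) i (by simpa using hY.2))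
      (fun t => by
        rcases eq_or_ne t 0 with rfl | ht
        · rw [_root_.inv_zero]
        · rw [count_map_filter, count_map_filter, hD.count_eq hD (kdM_mat_inv φ ht)])
      (fun t => by
        rw [count_map_filter, count_map_filter]
        refine hD.count_eq hD (fun j => ?_) i
        have h1 := kdM_map τ (Y.mat.map φ) ((X - C t) ^ j)
        have h2 : (Y.mat.map φ).map τ = Y.mat.map φ := by
          ext a b
          simp only [map_apply, hτ]
          exact (mem_range_iff_pow φ _).1 ⟨_, rfl⟩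
        simpa [h2, hτ] using h1)
    choose f h1 h2 h3 using key
    have hD' : ∀ p ∈ D, 0 < p.2 ∧ p.2 ≤ L := fun p hp => ⟨hD.pos p hp,
      ((Multiset.single_le_sum (fun _ _ => Nat.zero_le _) _ (Multiset.mem_map_of_mem _ hp)).trans
        (hD.sum.trans (Fintype.card_fin _)).le).trans hL⟩
    refine ⟨f, ⟨h1, fun i hi => (h1 i).1.natDegree_eq_zero.1 ?_⟩,
      ⟨D, hD, fun i t ht => (h3 i t ht).trans (count_map_filter _ _ _)⟩, ?_⟩
    · have := h2 i
      rw [Multiset.filter_eq_nil.2 fun p hp => by have := (hD' p hp).2; omega] at this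
      simp only [Multiset.map_zero, Multiset.card_zero] at this
      omega
    · rw [Obj.dim, ← Fintype.card_fin (finrank F Y.V), ← hD.sum, ← sum_card_filter D hD']
      refine Finset.sum_congr rfl fun i _ => ?_
      rw [← Multiset.card_map Prod.fst, h2]; ring
  · rintro Y ⟨hY, -⟩ Z - f ⟨D, hD, h1⟩ ⟨D', hD', h2⟩
    refine iso_of_kdE hY fun p => ?_
    rw [← kdM_toMatrix (finBasis F Y.V), ← kdM_toMatrix (finBasis F Z.V), ← kdM_map φ,
      ← kdM_map φ (LinearMap.toMatrix _ _ Z.g)]
    refine hD.kdM_eq hD' (fun t i => ?_) _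
    rcases eq_or_ne t 0 with rfl | ht
    · have e : ∀ W : Obj F, ∀ j, kdM (W.mat.map φ) ((X - C 0) ^ j) = 0 := fun W j => by
        simpa using kdM_mat_eq_zero φ (Y := W) (c := 0)
          (fun v hv => W.g_injective (by simpa using hv)) j
      rw [hD.count_eq_zero (e Y), hD'.count_eq_zero (e Z)]
    · rw [← h1 i t ht, h2 i t ht]

end Cfsg.Agent.Lib.Wall
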