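import Mathlib
import Cfsg.Agent.Lib.Wall.EvenRec
import Cfsg.Agent.Lib.Wall.Reg

/-!
Upper bounds for the number of classes; conjugacy classes as coefficients.
-/

set_option autoImplicit false

open Module QuadraticMap PowerSeries

namespace Cfsg.Agent.Lib.Wall

open Cfsg.Agent.Lib.Forms Cfsg.Agent.Lib.GL.SymTwo

universe u

section Num

theorem prod_tail {f g : ℕ → ℝ} {J : ℕ} (hf : ∀ i, 0 ≤ f i) (h : ∀ i, g i * f i ≤ g (i + 1))
    (h0 : ∏ i ∈ Finset.range J, f i ≤ g J) {L : ℕ} (hL : J ≤ L) :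
    ∏ i ∈ Finset.range L, f i ≤ g L := by
  induction L, hL using Nat.le_induction with
  | base => exact h0
  | succ L _ ih =>
    rw [Finset.prod_range_succ]
    exact (mul_le_mul_of_nonneg_right ih (hf L)).trans (h L)

theorem pi_le {x κ c : ℝ} {a J : ℕ} (hx : 0 ≤ x) (hx1 : x < 1) (hκ : κ * x + x ≤ κ) (hc : 0 ≤ c)
    (h0 : ∏ i ∈ Finset.range J, (1 - x ^ (i + a + 1))⁻¹ ≤ c * (1 - κ * x ^ (J + a))) {L : ℕ}
    (hL : J ≤ L) : ∏ i ∈ Finset.range L, (1 - x ^ (i + a + 1))⁻¹ ≤ c := by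
  have hκ0 : 0 ≤ κ := by nlinarith
  have h1 : ∀ i, 0 < 1 - x ^ (i + a + 1) := fun i => sub_pos.2 (pow_lt_one₀ hx hx1 (by omega))
  refine (prod_tail (g := fun i => c * (1 - κ * x ^ (i + a))) (fun i => (inv_pos.2 (h1 i)).le)
    (fun i => ?_) h0 hL).trans ?_
  · rw [← div_eq_mul_inv, div_le_iff₀ (h1 i), mul_assoc, show i + 1 + a = i + a + 1 by ring,
      pow_succ]
    refine mul_le_mul_of_nonneg_left ?_ hc
    have hs : 0 ≤ x ^ (i + a) := by positivity
    generalize x ^ (i + a) = s at *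
    have := mul_le_mul_of_nonneg_right hκ hs
    have : 0 ≤ κ * (s * x) ^ 2 := by positivity
    nlinarith
  · have : 0 ≤ c * (κ * x ^ (L + a)) := by positivity
    linarith

theorem ev_prod {q : ℝ} (hq : 0 ≤ q) {f : ℕ → ℝ⟦X⟧} {e : ℕ → ℝ} (h : ∀ i, Ev q (f i) (e i) 0)
    (L : ℕ) : Ev q (∏ i ∈ Finset.range L, f i) (∏ i ∈ Finset.range L, e i) 0 := by
  induction L with
  | zero => simpa using ev_one
  | succ L ih => rw [Finset.prod_range_succ, Finset.prod_range_succ]; exact ih.mul₀₀ hq (h L)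

/-- `∏_{i < L} 1 / (1 - q X^{2(i+a+2)})`. -/
noncomputable def Pi' (q : ℝ) (a L : ℕ) : ℝ⟦X⟧ :=
  ∏ i ∈ Finset.range L, geom q (2 * (i + a + 1 + 1))

theorem ev_Pi' {q x c : ℝ} (hq : 0 < q) (hx : 1 ≤ q * x) (hx0 : 0 ≤ x) (hx1 : x < 1) {a L : ℕ}
    (h : ∏ i ∈ Finset.range L, (1 - x ^ (i + a + 1))⁻¹ ≤ c) : Ev q (Pi' q a L) c 0 :=
  (ev_prod hq.le (fun _ => ev_geom_q hq hx (pow_lt_one₀ hx0 hx1 (by omega))) L).mono' hq.le h le_rfl

theorem ev_Pi_two {q : ℝ} (hq : 2 ≤ q) {L : ℕ} (hL : 6 ≤ L) : Ev q (Pi' q 0 L) 3.4631 0 :=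
  ev_Pi' (x := 1 / 2) (by linarith) (by linarith) (by norm_num) (by norm_num)
    (pi_le (x := 1 / 2) (κ := 1) (a := 0) (c := 3.4631) (by norm_num) (by norm_num) (by norm_num) (by norm_num)
      (by norm_num [Finset.prod_range_succ]) hL)

theorem ev_Pi_three {q : ℝ} (hq : 3 ≤ q) {L : ℕ} (hL : 4 ≤ L) : Ev q (Pi' q 0 L) 1.7854 0 :=
  ev_Pi' (x := 1 / 3) (by linarith) (by linarith) (by norm_num) (by norm_num)
    (pi_le (x := 1 / 3) (κ := 1 / 2) (a := 0) (c := 1.7854) (by norm_num) (by norm_num) (by norm_num) (by norm_num)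
      (by norm_num [Finset.prod_range_succ]) hL)

theorem ev_H {q : ℝ} (hq : 3 ≤ q) {k : ℕ} (hk : 4 ≤ k) : Ev q (Hser k) 1.188 1.522 := by
  have hq0 : 0 ≤ q := by linarith
  have hx : 1 ≤ q * (1 / 3) := by linarith
  have step : ∀ k e o, Ev q (Hser k) e o →
      Ev q (Hser (k + 1)) (e + (1 / 3) * (o * (1 / 3) ^ k)) (e * (1 / 3) ^ k + o) := by
    intro k e o h
    rw [Hser, Finset.prod_range_succ]
    simpa [Hser] using h.mul hq0 hx (ev_one.add (ev_X_pow_odd hq0 hx k))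
  suffices H : Ev q (Hser k) (1.188 - 0.761 * (1 / 3) ^ k) (1.522 - 1.782 * (1 / 3) ^ k) by
    have : (0 : ℝ) ≤ (1 / 3) ^ k := by positivity
    exact H.mono' hq0 (by linarith) (by linarith)
  induction k, hk using Nat.le_induction with
  | base =>
    have h0 : Ev q (Hser 0) 1 0 := by simpa [Hser] using ev_one
    exact (step _ _ _ (step _ _ _ (step _ _ _ (step _ _ _ h0)))).mono' hq0 (by norm_num)
      (by norm_num)
  | succ k _ ih =>
    have hs : (0 : ℝ) ≤ (1 / 3) ^ k := by positivity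
    refine (step _ _ _ ih).mono' hq0 ?_ ?_ <;> rw [pow_succ] <;> nlinarith [mul_nonneg hs hs]

end Num

variable {F : Type u} [Field F] {b : Prop}

theorem exists_decomp (Y : Obj F) {L : ℕ} (hL : Y.dim ≤ L) :
    ∃ (A B A' B' : Obj F) (_ : Split Y A B) (_ : Split B A' B'),
      A ∈ E F L ∧ A'.neg ∈ E F L ∧ B' ∈ Reg F ∧ B'.dim ≤ L := by
  obtain ⟨A, B, s, h1, h2⟩ := exists_fitting Y hL
  have hB : B.dim ≤ L := s.j.dim_le.trans hL
  obtain ⟨A', B', s', h3, h4⟩ := exists_fitting B.neg hB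
  refine ⟨A, B, A'.neg, B'.neg, s, s'.ofNeg, h1, ?_, ⟨fun v hv => s'.j.injective ?_,
    fun v hv => h4 v (neg_injective hv)⟩, s'.j.dim_le.trans hB⟩
  · simpa [E, Obj.N] using h3
  · rw [map_zero]
    exact h2 _ ((s'.j.ofNeg.map_g v).symm.trans (congrArg _ hv))

variable [Fintype F]

theorem aS_mul_two [CharP F 2] {w : ℕ} (hw : 0 < w) :
    aS ({2, -2} : Set F) w * geom 1 w = geom (Fintype.card F) w := by
  rw [← aS_empty hw, ← aS_insert (Set.notMem_empty (2 : F)) hw, CharTwo.neg_eq]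
  simp

theorem aS_mul_odd (h2 : (2 : F) ≠ 0) {w : ℕ} (hw : 0 < w) :
    aS ({2, -2} : Set F) w * geom 1 w ^ 2 = geom (Fintype.card F) w := by
  have h : (2 : F) ∉ (insert (-2) ∅ : Set F) := by
    simp only [insert_empty_eq, Set.mem_singleton_iff]
    intro h
    exact mul_ne_zero h2 h2 (by linear_combination h)
  rw [← aS_empty hw, ← aS_insert (Set.notMem_empty (-2 : F)) hw, ← aS_insert h hw, pow_two,
    mul_assoc]
  simp

omit [Fintype F] in
theorem prod_geom_eq (q : ℝ) (L : ℕ) :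
    ∏ i ∈ Finset.range (L + 1), geom q (2 * (i + 1)) = Pi' q 0 L * geom q 2 := by
  rw [Finset.prod_range_succ']; rfl

theorem two_le_card : (2 : ℝ) ≤ Fintype.card F := by exact_mod_cast Fintype.one_lt_card

theorem three_le_card (h2 : (2 : F) ≠ 0) : (3 : ℝ) ≤ Fintype.card F := by
  have hc : ringChar F ≠ 2 := fun h => h2 (by simpa [h] using (ringChar.spec F 2).2)
  have h1 := FiniteField.odd_card_of_char_ne_two hc
  have h3 := Fintype.one_lt_card (α := F)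
  exact_mod_cast (show 3 ≤ Fintype.card F by omega)

section Two

variable [CharP F 2]

omit [Fintype F] in
theorem subset_sum_Cs (j : ℕ) : {Y : Obj F | Y.dim + 1 ≤ 2 * j} ⊆
    Sum (Cs F j) {Y | Y ∈ Reg F ∧ Y.dim ≤ 2 * j} := fun Y hY => by
  obtain ⟨A, B, s, h1, h2⟩ := exists_fitting Y le_rfl
  have := s.j.dim_le
  refine ⟨A, Obj.q_eq_zero h1 hY, B, ⟨⟨h2, fun v hv => h2 v (hv.trans ?_)⟩,
    by simp only [Set.mem_ofPred_eq] at hY; omega⟩, ⟨s⟩⟩
  rw [neg_eq_iff_add_eq_zero, ← two_smul F, CharTwo.two_eq_zero, zero_smul]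

theorem Pser_mul_two (j : ℕ) :
    Pser (2 * (j + 1)) * ∏ i ∈ Finset.range (2 * (j + 1)), aS ({2, -2} : Set F) (2 * (i + 1)) =
      Pi' (Fintype.card F) 0 (2 * j + 1) * geom (Fintype.card F) 2 := by
  rw [← prod_geom_eq, Pser, ← Finset.prod_mul_distrib]
  exact Finset.prod_congr rfl fun i _ => by rw [mul_comm, aS_mul_two (by omega)]

theorem upper_sp (n : ℕ) : coeff (2 * n) (gf False {Y : Obj F | Y.dim + 1 ≤ 2 * (n + 5 + 1)}) ≤
    15.2 * (Fintype.card F : ℝ) ^ n := by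
  have hq := two_le_card (F := F)
  have hq0 : (0 : ℝ) ≤ Fintype.card F := by positivity
  obtain ⟨A, h1, h2⟩ := gf_Cs_sp (F := F) hq (j := n + 5 + 1) (by omega)
  have h3 := (gf_mono (subset_sum_Cs _)).trans
    (gf_sum_le_of h1 ((gf_weaken False).trans (gf_reg _)))
  rw [mul_right_comm, Pser_mul_two, mul_right_comm] at h3
  refine (h3 _).trans ((((ev_Pi_two hq (by omega)).mul₀₀ hq0 h2).coeff_even n).trans ?_)
  gcongr
  norm_num

theorem upper_even (n : ℕ) (ε : ℤˣ) :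
    coeff (2 * n) (gf True ((tpTy F).sel {Y : Obj F | Y.dim + 1 ≤ 2 * (n + 5 + 1)} ε)) ≤
      15 * (Fintype.card F : ℝ) ^ n := by
  have hq := two_le_card (F := F)
  have hq0 : (0 : ℝ) ≤ Fintype.card F := by positivity
  obtain ⟨A, c, h1, h2, h3⟩ := tb_Cs (F := F) hq (j := n + 5 + 1) (by omega)
  have h4 := mul_le_mul_of_nonneg_left
    (((h1.sum_left (gf_reg _)).mono (subset_sum_Cs _) le_rfl) ε) zero_le_two
  rw [← mul_assoc] at h4
  have h5 := h4.trans (mul_le_mul_of_nonneg_right h2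
    (Finset.prod_nonneg fun _ _ => aS_nonneg _ _))
  rw [mul_right_comm, Pser_mul_two, mul_right_comm] at h5
  have h6 := (h5 _).trans
    (((ev_Pi_two hq (by omega)).mul₀₀ hq0 (by simpa using h3.add ev_one)).coeff_even n)
  rw [two_mul (gf _ _), map_add] at h6
  have : (0 : ℝ) ≤ (Fintype.card F : ℝ) ^ n := by positivity
  nlinarith

end Two

theorem upper_odd_aux (h2 : (2 : F) ≠ 0) (k : ℕ) (ε : ℤˣ) :
    2 * gf True ((discTy F).sel {Y : Obj F | Y.dim ≤ 2 * (k + 1)} ε) ≤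
      (Hser (k + 1) ^ 4 + 1) * Pi' (Fintype.card F) 0 (2 * k + 1) * geom (Fintype.card F) 2 := by
  obtain ⟨z, h, h1, h3, h4⟩ := hb_E_odd h2 (k + 1)
  have h5 := (h1.sum (h1.negS.sum_gf (gf_reg (2 * (k + 1))))).tb.mono
    (S := {Y : Obj F | Y.dim ≤ 2 * (k + 1)}) (fun Y hY => by
      obtain ⟨A, B, A', B', s, s', e1, e2, e3⟩ := exists_decomp Y hY
      exact ⟨A, e1, B, ⟨A', e2, B', e3, ⟨s'⟩⟩, ⟨s⟩⟩) le_rfl ε
  have h6 : Pser (2 * (k + 1)) ^ 2 *
      ∏ i ∈ Finset.range (2 * (k + 1)), aS ({2, -2} : Set F) (2 * (i + 1)) =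
      Pi' (Fintype.card F) 0 (2 * k + 1) * geom (Fintype.card F) 2 := by
    rw [← prod_geom_eq, Pser, ← Finset.prod_pow, ← Finset.prod_mul_distrib]
    exact Finset.prod_congr rfl fun i _ => by rw [mul_comm, aS_mul_odd h2 (by omega)]
  have ha : 0 ≤ ∏ i ∈ Finset.range (2 * (k + 1)), aS ({2, -2} : Set F) (2 * (i + 1)) :=
    Finset.prod_nonneg fun _ _ => aS_nonneg _ _
  rw [mul_assoc, ← h6]
  generalize ∏ i ∈ Finset.range (2 * (k + 1)), aS ({2, -2} : Set F) (2 * (i + 1)) = a at *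
  have hz := h1.nonneg.1
  have hu : 0 ≤ z + 2 * h := add_nonneg hz (mul_nonneg zero_le_two h1.nonneg.2)
  calc _ ≤ 2 * (z * (z * a) + (h * (z * a + 2 * (h * a)) + z * (h * a))) :=
        mul_le_mul_of_nonneg_left h5 zero_le_two
    _ = ((z + 2 * h) ^ 2 + z ^ 2) * a := by ring
    _ ≤ ((Pser (2 * (k + 1)) * Hser (k + 1) ^ 2) ^ 2 + Pser (2 * (k + 1)) ^ 2) * a :=
        mul_le_mul_of_nonneg_right (add_le_add (pow_le_pow_left₀ hu h4 2)
          (pow_le_pow_left₀ hz h3 2)) ha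
    _ = _ := by ring

omit [Fintype F] in
theorem ev_H_sq {q : ℝ} (hq : 3 ≤ q) {k : ℕ} (hk : 4 ≤ k) : Ev q (Hser k ^ 2) 2.1836 3.6163 := by
  rw [pow_two]
  exact ((ev_H hq hk).mul (x := 1 / 3) (by linarith) (by linarith) (ev_H hq hk)).mono'
    (by linarith) (by norm_num) (by norm_num)

omit [Fintype F] in
theorem ev_H_four {q : ℝ} (hq : 3 ≤ q) {k : ℕ} (hk : 4 ≤ k) :
    Ev q ((Hser k ^ 4 + 1) * Pi' q 0 (2 * k - 1)) 18.1 28.2 := by
  rw [show 4 = 2 + 2 from rfl, pow_add]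
  exact ((((ev_H_sq hq hk).mul (x := 1 / 3) (by linarith) (by linarith) (ev_H_sq hq hk)).add
    ev_one).mul₀ (by linarith) (ev_Pi_three hq (by omega))).mono'
      (by linarith) (by norm_num) (by norm_num)

theorem upper_odd (h2 : (2 : F) ≠ 0) (n : ℕ) (ε : ℤˣ) :
    2 * coeff (2 * n) (gf True ((discTy F).sel {Y : Obj F | Y.dim ≤ 2 * (n + 3 + 1)} ε)) ≤
      18.1 * (Fintype.card F : ℝ) ^ n ∧
    2 * coeff (2 * n + 1) (gf True ((discTy F).sel {Y : Obj F | Y.dim ≤ 2 * (n + 3 + 1)} ε)) ≤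
      28.2 * (Fintype.card F : ℝ) ^ n := by
  have h1 := upper_odd_aux h2 (n + 3) ε
  have h3 := ev_H_four (three_le_card h2) (k := n + 3 + 1) (by omega)
  rw [two_mul] at h1
  refine ⟨?_, ?_⟩
  · rw [two_mul, ← map_add]; exact (h1 _).trans (h3.coeff_even n)
  · rw [two_mul, ← map_add]; exact (h1 _).trans (h3.coeff_odd n)

section Conj

variable {V : Type u} [AddCommGroup V] [Module F V] [FiniteDimensional F V]
  {Q : QuadraticForm F V} {S : Set (Obj F)}

omit [Fintype F] in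
theorem card_conjClasses_congr {G H : Type*} [Group G] [Group H] (e : G ≃* H) :
    Nat.card (ConjClasses G) = Nat.card (ConjClasses H) :=
  Nat.card_congr (Quotient.congr e.toEquiv fun _ _ =>
    ⟨e.toMonoidHom.map_isConj, fun h => show IsConj _ _ by
      simpa using e.symm.toMonoidHom.map_isConj h⟩)

/-- The automorphism of `V` obtained from an object by transport. -/
noncomputable def Obj.conj (Y : Obj F) (e : Y.V ≃ₗ[F] V) : V ≃ₗ[F] V :=
  e.symm.trans ((LinearEquiv.ofInjectiveEndo Y.g Y.g_injective).trans e)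

omit [Fintype F] [FiniteDimensional F V] in
theorem Obj.conj_apply (Y : Obj F) (e : Y.V ≃ₗ[F] V) (v : Y.V) : Y.conj e (e v) = e (Y.g v) := by
  simp [Obj.conj]

omit [Fintype F] in
theorem isConj_iff_iso (hQ : Nondeg Q) (g h : OG Q) :
    IsConj g h ↔ Iso True (Obj.of hQ g) (Obj.of hQ h) := by
  rw [isConj_iff]
  constructor
  · rintro ⟨c, rfl⟩
    exact iso_of_isom _ c.1 (fun v => by simp [OG.mul_apply]) c.2
  · rintro ⟨e, h1, -, h2⟩
    exact ⟨⟨e, h2 trivial⟩, mul_inv_eq_of_eq_mul (OG.ext' h1)⟩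

omit [Fintype F] in
theorem card_OG (hQ : Nondeg Q) (h1 : ∀ g, Obj.of hQ g ∈ S)
    (h2 : ∀ Y ∈ S, Y.dim = finrank F V → ∃ e : Y.V ≃ₗ[F] V, ∀ v, Q (e v) = Y.Q v) :
    (Nat.card (ConjClasses (OG Q)) : ℝ) = coeff (finrank F V) (gf True S) := by
  refine card_conjClasses_eq (Obj.of hQ) (isConj_iff_iso hQ) (fun g => ⟨h1 g, rfl⟩)
    fun Y hY hd => ?_
  obtain ⟨e, he⟩ := h2 Y hY hd
  refine ⟨⟨Y.conj e, fun v => ?_⟩, iso_of_isom _ e (fun v => (Y.conj_apply e v).symm) he⟩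
  obtain ⟨v, rfl⟩ := e.surjective v
  rw [Y.conj_apply, he, he, Y.hg]

variable [CharP F 2]

theorem exists_addSq_inv (hQ : Nondeg Q) (T : IsoG (polarBilin Q)) :
    ∃ w, ∀ v, addSq Q w (T.1 v) = addSq Q w v := by
  have hT : ∀ u v, polar Q (T.1 u) (T.1 v) = polar Q u v := IsoG.map_B T
  obtain ⟨w₀, h0⟩ := exists_addSq hQ (Q' := Q.comp T.1.toLinearMap) fun u v =>
    (polar_map_of_isom T.1 (fun _ => rfl) u v).symm.trans (hT u v)
  have h1 : ∀ v, Q v + polar Q v w₀ ^ 2 = Q (T.1 v) := fun v => by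
    rw [← addSq_apply, h0]; rfl
  set N : Module.End F V := T.1.toLinearMap - 1
  have hN : ∀ v, N v = T.1 v - v := fun _ => rfl
  have h2 : LinearMap.range N = perp Q (LinearMap.ker N) := by
    apply Submodule.eq_of_le_of_finrank_eq
    · rintro _ ⟨w, rfl⟩
      refine mem_perp.2 fun u hu => ?_
      rw [LinearMap.mem_ker, hN, sub_eq_zero] at hu
      rw [hN, polar_sub_right, ← hT u w, hu, sub_self]
    · have h1 := hQ.finrank_perp (LinearMap.ker N)
      have h2 := LinearMap.finrank_range_add_finrank_ker N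
      omega
  obtain ⟨w, hw⟩ := h2.ge (mem_perp.2 fun u hu => by
    rw [LinearMap.mem_ker, hN, sub_eq_zero] at hu
    have := h1 u
    rw [hu, add_eq_left, pow_eq_zero_iff two_ne_zero] at this
    rw [← this, ← hT u w₀, hu] : T.1 w₀ ∈ _)
  refine ⟨w, fun v => ?_⟩
  have h3 := hT v w₀
  rw [← hw, hN, polar_sub_right, hT] at h3
  rw [addSq_apply, addSq_apply, ← h1, ← h3]
  linear_combination (polar Q (T.1 v) w ^ 2 - polar Q v w * polar Q (T.1 v) w) *
    CharTwo.two_eq_zero (R := F)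

theorem card_IsoG (hQ : Nondeg Q) (h1 : ∀ Y : Obj F, Y.dim = finrank F V → Y ∈ S) :
    (Nat.card (ConjClasses (IsoG (polarBilin Q))) : ℝ) = coeff (finrank F V) (gf False S) := by
  choose w hw using exists_addSq_inv hQ
  have hp : ∀ w u v, polar (addSq Q w) u v = polar Q u v := fun w u v =>
    LinearMap.congr_fun₂ (polarBilin_addSq w) u v
  let φ : IsoG (polarBilin Q) → Obj F := fun T =>
    ⟨V, addSq Q (w T), by rw [Nondeg, polarBilin_addSq]; exact hQ, T.1, hw T⟩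
  refine card_conjClasses_eq φ (fun g h => ?_) (fun g => ⟨h1 _ rfl, rfl⟩) fun Y _ hd => ?_
  · rw [isConj_iff]
    constructor
    · rintro ⟨c, rfl⟩
      exact ⟨c.1, fun v => by simp [φ, IsoG.mul_apply], fun u v =>
        (hp _ _ _).trans ((IsoG.map_B c u v).trans (hp _ _ _).symm), False.elim⟩
    · rintro ⟨e, h1, h2, -⟩
      exact ⟨⟨e, fun u v => (hp _ _ _).symm.trans ((h2 u v).trans (hp _ _ _))⟩,
        mul_inv_eq_of_eq_mul (IsoG.ext' h1)⟩
  · obtain ⟨e, he⟩ := GL.Alt.exists_isometry (isAlt_polarBilin Y.Q) Y.hQ (isAlt_polarBilin Q) hQ hd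
    refine ⟨⟨Y.conj e, fun u v => ?_⟩, e, fun v => (Y.conj_apply e v).symm,
      fun u v => (hp _ _ _).trans (he u v), False.elim⟩
    obtain ⟨u, rfl⟩ := e.surjective u
    obtain ⟨v, rfl⟩ := e.surjective v
    rw [Y.conj_apply, Y.conj_apply, he, he]
    exact Y.polar_g u v

end Conj

end Cfsg.Agent.Lib.Wall
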