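import Mathlib
import Cfsg.Agent.Lib.Wall.Upper

/-!
Lower bounds for the number of classes: models with prescribed characteristic polynomial.
-/

set_option autoImplicit false

open Module QuadraticMap Polynomial

namespace Cfsg.Agent.Lib.Wall

open Cfsg.Agent.Lib.Forms Cfsg.Agent.Lib.GL.SymTwo Cfsg.Agent.Lib.GL.OrthConj

universe u

variable {F : Type u} [Field F] {b : Prop} {Y Z : Obj F} {p p' : F[X]}

/-- `p` is the characteristic polynomial of `g + g⁻¹`. -/
def HC (Y : Obj F) (p : F[X]) : Prop :=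
  ∃ h : End F Y.V, (∀ v, Y.g (h v) = Y.g (Y.g v) + v) ∧ h.charpoly = p

theorem HC.unique (e : Iso b Y Z) (h : HC Y p) (h' : HC Z p') : p = p' := by
  obtain ⟨e, he, -⟩ := e
  obtain ⟨h, h1, rfl⟩ := h
  obtain ⟨h', h2, rfl⟩ := h'
  rw [← e.charpoly_conj h]
  congr 1
  ext v
  obtain ⟨v, rfl⟩ := e.surjective v
  apply Z.g_injective
  simp [h2, ← he, h1]

theorem HC.prod (h : HC Y p) (h' : HC Z p') : HC (Y.prod Z) (p * p') := by
  obtain ⟨h, h1, rfl⟩ := h
  obtain ⟨h', h2, rfl⟩ := h'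
  exact ⟨h.prodMap h', fun v => Prod.ext (h1 _) (h2 _), LinearMap.charpoly_prodMap _ _⟩

theorem HC.dim_eq (h : HC Y p) : Y.dim = p.natDegree := by
  obtain ⟨h, -, rfl⟩ := h
  exact h.charpoly_natDegree.symm

/-- A scalar isometry. -/
@[reducible] def Obj.scal {V : Type u} [AddCommGroup V] [Module F V] [FiniteDimensional F V]
    {Q : QuadraticForm F V} (hQ : Nondeg Q) {ε : F} (hε : ε * ε = 1) : Obj F where
  V := V
  Q := Q
  hQ := hQ
  g := ε • 1
  hg v := by simp [Q_smul, hε]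

theorem hc_scal {V : Type u} [AddCommGroup V] [Module F V] [FiniteDimensional F V]
    {Q : QuadraticForm F V} (hQ : Nondeg Q) {ε : F} (hε : ε * ε = 1) :
    HC (Obj.scal hQ hε) ((X - C (2 * ε)) ^ finrank F V) := by
  refine ⟨(2 * ε) • 1, fun v => ?_, ?_⟩
  · simp only [LinearMap.smul_apply, End.one_apply, smul_smul]
    rw [mul_left_comm, hε, mul_one, one_smul, two_smul]
  · have := LinearMap.charpoly_sub_smul (0 : End F V) (-(2 * ε))
    rw [neg_smul, zero_sub, neg_neg, LinearMap.charpoly_zero] at this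
    rw [this]; simp [sub_eq_add_neg]

theorem ncard_le_coeff [Finite F] {β : Type*} {T : Set β} {S : Set (Obj F)} {d : ℕ}
    (P : β → F[X]) (hP : Set.InjOn P T) (h : ∀ a ∈ T, ∃ Y ∈ S, Y.dim = d ∧ HC Y (P a)) :
    (T.ncard : ℝ) ≤ PowerSeries.coeff d (gf b S) := by
  rw [gf, coeff_gfs]
  have : Nonempty (Obj F) := ⟨Obj.scal (nondeg_qPlus 0) (one_mul 1)⟩
  choose! Φ h1 h2 h3 using h
  exact_mod_cast Set.ncard_le_ncard_of_injOn (t := fib cdim (cl b '' S) d) (fun a => cl b (Φ a))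
    (fun a ha => ⟨⟨_, h1 a ha, rfl⟩, h2 a ha⟩)
    (fun a ha a' ha' e => hP ha ha' (HC.unique (cl_eq.1 e) (h3 a ha) (h3 a' ha'))) (lf_cl _ d)

section Model

variable {A : Type u} [CommRing A] [Algebra F A] (l : A →ₗ[F] F)

/-- The form `l (s u²)`. -/
def QD (s : A) : QuadraticForm F A :=
  LinearMap.BilinMap.toQuadraticMap ((LinearMap.mul F A).compr₂ (l ∘ₗ LinearMap.mulLeft F s))

theorem QD_apply (s u : A) : QD l s u = l (s * (u * u)) := rfl

theorem polar_QD (s u v : A) : polar (QD l s) u v = l (2 * s * v * u) := by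
  simp only [polar, QD_apply, ← map_sub]
  congr 1; ring

/-- The form `l (r a² + s a b + r b²)`. -/
def QM (r s : A) : QuadraticForm F (A × A) :=
  (QD l r).prod (QD l r) + LinearMap.BilinMap.toQuadraticMap
    (((LinearMap.mul F A).compr₂ (l ∘ₗ LinearMap.mulLeft F s)).compl₁₂ (.fst F A A) (.snd F A A))

theorem QM_apply (r s : A) (v : A × A) :
    QM l r s v = l (r * (v.1 * v.1) + s * (v.1 * v.2) + r * (v.2 * v.2)) := by
  simp [QM, QD_apply, add_right_comm]

theorem polar_QM (r s : A) (u v : A × A) : polar (QM l r s) u v =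
    l ((2 * r * u.1 + s * u.2) * v.1 + (s * u.1 + 2 * r * u.2) * v.2) := by
  simp only [polar, QM_apply, ← map_sub, Prod.fst_add, Prod.snd_add]
  congr 1; ring

variable {l} (hl : ∀ a, (∀ x, l (a * x) = 0) → a = 0)
include hl

theorem nondeg_QD {s : A} (hs : ∀ a, 2 * s * a = 0 → a = 0) : Nondeg (QD l s) :=
  nondeg_of fun a ha => hs a (hl _ fun x => by rw [← polar_QD, polar_comm, ha])

theorem nondeg_QM {r s : A} (hs : ∀ a, (s * s - 4 * (r * r)) * a = 0 → a = 0) :
    Nondeg (QM l r s) := nondeg_of fun u hu => by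
  have h1 := hl _ fun x => by simpa [polar_QM] using hu (x, 0)
  have h2 := hl _ fun x => by simpa [polar_QM] using hu (0, x)
  exact Prod.ext (hs _ (by linear_combination s * h2 - 2 * r * h1))
    (hs _ (by linear_combination s * h1 - 2 * r * h2))

variable [FiniteDimensional F A]

/-- The model attached to an element of a Frobenius algebra. -/
@[reducible] def model {c : A} (hc : ∀ a, (c * c - 4 * (1 * 1)) * a = 0 → a = 0) : Obj F where
  V := A × A
  Q := QM l 1 c
  hQ := nondeg_QM hl hc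
  g := (-LinearMap.snd F A A).prod (.fst F A A + LinearMap.mulLeft F c ∘ₗ .snd F A A)
  hg v := by
    simp only [QM_apply, LinearMap.prod_apply, Function.prod, LinearMap.neg_apply, LinearMap.snd_apply,
      LinearMap.add_apply, LinearMap.fst_apply, LinearMap.comp_apply, LinearMap.mulLeft_apply]
    congr 1; ring

theorem hc_model {c : A} (hc : ∀ a, (c * c - 4 * (1 * 1)) * a = 0 → a = 0) :
    HC (model hl hc) ((LinearMap.mulLeft F c).charpoly ^ 2) :=
  ⟨(LinearMap.mulLeft F c).prodMap (LinearMap.mulLeft F c),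
    fun v => by ext <;> simp [mul_add, ← mul_assoc, add_comm], by rw [LinearMap.charpoly_prodMap, pow_two]⟩

variable [Finite F]

theorem disc_QD (h2 : (2 : F) ≠ 0) {s : A} (hs : (LinearMap.mulLeft F s).det ≠ 0) :
    Nondeg (QD l s) ∧ disc (QD l s) = disc (QD l 1) * sqc (LinearMap.mulLeft F s).det := by
  have h3 : ∀ a : A, 2 * a = 0 → a = 0 := fun a ha => by
    rw [two_mul, ← two_smul F] at ha
    exact (smul_eq_zero.1 ha).resolve_left h2
  have h4 : Nondeg (QD l 1) := nondeg_QD hl fun a ha => h3 a (by simpa using ha)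
  refine ⟨nondeg_QD hl fun a ha => ?_, ?_⟩
  · exact (LinearMap.ker_eq_bot.1 ((LinearMap.isUnit_iff_ker_eq_bot _).1
      ((LinearMap.isUnit_iff_isUnit_det _).2 hs.isUnit))).eq_iff.1
        (by simpa using h3 _ (by rwa [← mul_assoc]))
  · rw [disc, disc, ← sqc_mul (h4.gram_det_ne_zero _) hs,
      ← LinearMap.det_toMatrix (finBasis F A), ← Matrix.det_mul, gram_eq_toMatrix,
      gram_eq_toMatrix, ← LinearMap.BilinForm.toMatrix_compRight]
    congr 3
    ext u v
    simp [polar_QD, mul_assoc]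

theorem disc_model (h2 : (2 : F) ≠ 0) {c : A} (h3 : (LinearMap.mulLeft F (2 + c)).det ≠ 0)
    (h4 : (LinearMap.mulLeft F (2 - c)).det ≠ 0) (hc : Nondeg (QM l 1 c)) : disc (QM l 1 c) =
      sqc ((LinearMap.mulLeft F (2 + c)).det * (LinearMap.mulLeft F (2 - c)).det) := by
  obtain ⟨e1, e2⟩ := disc_QD hl h2 h3
  obtain ⟨e3, e4⟩ := disc_QD hl h2 h4
  let φ : A × A →ₗ[F] A × A := 
    (LinearMap.fst F A A + .snd F A A).prod (LinearMap.fst F A A - .snd F A A)
  have hφ : ∀ v, QM l 1 c (φ v) = ((QD l (2 + c)).prod (QD l (2 - c))) v := fun v => by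
    simp only [QM_apply, QD_apply, prod_apply, ← map_add, φ, LinearMap.prod_apply, Function.prod,
      LinearMap.add_apply, LinearMap.sub_apply, LinearMap.fst_apply, LinearMap.snd_apply]
    congr 1; ring
  have hi : Function.Injective φ := (injective_iff_map_eq_zero _).2 fun v hv =>
    (nondeg_prod e1 e3).eq_zero fun w => by rw [← polar_map_of_isom φ hφ, hv]; simp
  rw [disc_of_isom hc (LinearEquiv.ofInjectiveEndo φ hi) hφ, disc_prod e1 e3, e2, e4,
    sqc_mul h3 h4, mul_mul_mul_comm, Int.units_mul_self, one_mul]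

omit hl [FiniteDimensional F A] [Finite F] in
theorem sum_symm [CharP F 2] {ι : Type*} (s : Finset ι) (a : ι → ι → F) (h : ∀ i j, a i j = a j i) :
    ∑ i ∈ s, ∑ j ∈ s, a i j = ∑ i ∈ s, a i i := by
  classical
  induction s using Finset.induction_on with
  | empty => simp
  | insert k s hk ih =>
    simp only [Finset.sum_insert hk, Finset.sum_add_distrib, ih, h k]
    linear_combination (∑ i ∈ s, a i k) * CharTwo.two_eq_zero (R := F)

omit [Finite F] in
theorem trace_eq_of_sq [CharP F 2] {u : A} (hu : ∀ a, l (u * a) ^ 2 = l (a * a)) (s : A) :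
    l (s * (u * u)) = (LinearMap.mulLeft F s).trace F A := by
  let σ : LinearMap.BilinForm F A := (LinearMap.mul F A).compr₂ l
  have hσ : σ.Nondegenerate := ⟨hl, fun a ha => hl a fun x => by rw [mul_comm]; exact ha x⟩
  let e := finBasis F A
  let d := σ.dualBasis hσ e
  have hd : ∀ x, x = ∑ i, l (x * e i) • d i := fun x => by
    conv_lhs => rw [← d.sum_repr x]
    simp only [d, LinearMap.BilinForm.dualBasis_repr_apply]
    rfl
  rw [LinearMap.trace_eq_matrix_trace F d, Matrix.trace]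
  simp only [Matrix.diag, LinearMap.toMatrix_apply, LinearMap.mulLeft_apply]
  calc l (s * (u * u)) = ∑ i, ∑ j, l (u * e i) * l (u * e j) * l (s * d i * d j) := by
        conv_lhs => rw [hd u]
        rw [Finset.sum_mul_sum]
        simp only [smul_mul_smul_comm]
        simp only [Finset.mul_sum, map_sum, mul_smul_comm, map_smul, smul_eq_mul, mul_assoc]
    _ = ∑ i, l (e i * e i) * l (s * d i * d i) := by
        rw [sum_symm _ _ fun i j => by rw [mul_comm (l _) (l _), mul_right_comm s]]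
        simp only [← hu, pow_two]
    _ = ∑ i, ∑ j, l (e i * e j) * l (s * d i * d j) :=
        (sum_symm _ (fun i j => l (e i * e j) * l (s * d i * d j))
          fun i j => by rw [mul_comm (e i), mul_right_comm s]).symm
    _ = _ := Finset.sum_congr rfl fun i _ => by
        rw [LinearMap.BilinForm.dualBasis_repr_apply]
        change _ = l (s * d i * e i)
        conv_rhs => rw [hd (e i)]
        simp only [Finset.mul_sum, map_sum, mul_smul_comm, map_smul, smul_eq_mul]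

end Model

section AddSq

variable [Finite F] [CharP F 2] {V : Type*} [AddCommGroup V] [Module F V] [FiniteDimensional F V]
  {Q : QuadraticForm F V}

omit [Finite F] [FiniteDimensional F V] in
theorem tp_addSq_of_root {w : V} {t : F} (h : t ^ 2 + t + Q w = 0) : tp (addSq Q w) = tp Q := by
  have h2 : (2 : F) = 0 := CharTwo.two_eq_zero
  obtain ⟨s, hs⟩ : ∃ s : F, s + s * s * Q w = 1 := by
    by_cases ht : t = 0
    · exact ⟨1, by rw [ht] at h; linear_combination h⟩
    · exact ⟨t⁻¹, by field_simp; linear_combination h - t ^ 2 * h2⟩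
  have hi : Function.Involutive fun v => v + (s * polar Q v w) • w := fun v => by
    simp only [polar_add_left, polar_smul_left, polar_self', h2, zero_mul, smul_zero, add_zero]
    rw [add_assoc, ← add_smul, CharTwo.add_self_eq_zero, zero_smul, add_zero]
  refine tp_congr hi.toPerm fun v => ?_
  rw [Function.Involutive.coe_toPerm, Q_add, Q_smul, polar_smul_right, addSq_apply, smul_eq_mul]
  linear_combination polar Q v w ^ 2 * hs

omit [Finite F] [FiniteDimensional F V] in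
theorem nondeg_addSq (w : V) (hQ : Nondeg Q) : Nondeg (addSq Q w) := by
  rw [Nondeg, polarBilin_addSq]; exact hQ

theorem tp_addSq_of_no_root (hQ : Nondeg Q) {w : V} (h : ∀ t, t ^ 2 + t + Q w ≠ 0) :
    0 < tp (addSq Q w) ↔ ¬ 0 < tp Q := by
  have := Fintype.ofFinite F
  have h2 : (2 : F) = 0 := CharTwo.two_eq_zero
  have hev : Even (finrank F V) := GL.Alt.even_finrank (isAlt_polarBilin Q) hQ
  have hev' : Even (finrank F (Fin 1 ⊕ Fin 1 → F)) := by simp
  let u : Fin 1 ⊕ Fin 1 → F := Sum.elim (fun _ => Q w) fun _ => 1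
  have h1 := tp_addSq_of_root (Q := Q.prod (qPlus 1 F)) (w := (w, u)) (t := 0)
    (by simp [qPlus_apply, u, CharTwo.add_self_eq_zero])
  have h3 : ⇑(addSq (Q.prod (qPlus 1 F)) (w, u)) = (addSq Q w).prod (addSq (qPlus 1 F) u) := by
    funext v
    simp only [addSq_apply, prod_apply, polar_prod]
    linear_combination (polar Q v.1 w * polar (qPlus 1 F) v.2 u) * h2
  rw [h3, tp_prod (nondeg_addSq w hQ) hev (nondeg_addSq u (nondeg_qPlus 1)) hev', tp_prod hQ hev (nondeg_qPlus 1) hev',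
    tp_qPlus] at h1
  have h4 : ¬ 0 < tp (addSq (qPlus 1 F) u) := by
    rw [tp_pos_iff (nondeg_addSq u (nondeg_qPlus 1)) hev']
    refine not_exists_isLag (nondeg_addSq u (nondeg_qPlus 1)) (E := ⊥) (by simp) (fun v _ hv => ?_) (by simp)
    simp only [addSq_apply, qPlus_apply, polar_qPlus, u, Fin.sum_univ_one, Sum.elim_inl,
      Sum.elim_inr] at hv
    obtain ⟨e1, e2⟩ := anisotropic_of_no_root h (v (.inl 0) + v (.inr 0) * Q w) (v (.inr 0))
      (by linear_combination hv + (Q w * v (.inr 0) ^ 2) * h2)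
    rw [e2, zero_mul, add_zero] at e1
    rw [Submodule.mem_bot]
    funext i
    rcases i with i | i <;> rw [Subsingleton.elim i 0] <;> assumption
  have h5 := tp_ne_zero (nondeg_addSq u (nondeg_qPlus 1)) hev'
  have h6 := tp_ne_zero hQ hev
  have h7 : (0 : ℤ) < Fintype.card F := by exact_mod_cast Fintype.card_pos
  constructor
  · intro e1 e2; nlinarith [mul_pos e2 h7, mul_pos e1 (show 0 < -tp (addSq (qPlus 1 F) u) by omega)]
  · intro e1
    by_contra e2
    nlinarith [mul_pos (show 0 < -tp Q by omega) h7, mul_nonneg (show 0 ≤ -tp (addSq Q w) by omega)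
      (show 0 ≤ -tp (addSq (qPlus 1 F) u) by omega)]

theorem tp_model {A : Type u} [CommRing A] [Algebra F A] [FiniteDimensional F A] {l : A →ₗ[F] F}
    (hl : ∀ a, (∀ x, l (a * x) = 0) → a = 0) {c s : A} (hs : s * c = 1) :
    0 < tp (QM l 1 c) ↔ ∃ t, t ^ 2 + t + (LinearMap.mulLeft F s).trace F A = 0 := by
  have h2 : (2 : A) = 0 := by rw [← map_ofNat (algebraMap F A), CharTwo.two_eq_zero, map_zero]
  have hQ : Nondeg (QM l 0 c) := nondeg_QM hl fun a ha => by
    linear_combination s * s * ha - (c * s + 1) * a * hs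
  have hev : Even (finrank F (A × A)) := by simp
  obtain ⟨w, hw⟩ := exists_addSq hQ (Q' := QM l 1 c) fun u v => by simp [polar_QM, h2]
  have h3 : ∀ v, QM l 0 c v + polar (QM l 0 c) v w ^ 2 = QM l 1 c v := fun v => by
    rw [← addSq_apply, hw]
  have h4 : ∀ a, l (c * w.2 * a) ^ 2 = l (a * a) := fun a => by
    simpa [QM_apply, polar_QM, mul_right_comm] using h3 (a, 0)
  have h5 : ∀ a, l (c * w.1 * a) ^ 2 = l (a * a) := fun a => by
    simpa [QM_apply, polar_QM, mul_right_comm] using h3 (0, a)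
  have h6 : c * w.1 = c * w.2 := sub_eq_zero.1 (hl _ fun a => by
    rw [sub_mul, map_sub, ← pow_eq_zero_iff two_ne_zero, CharTwo.sub_eq_add, CharTwo.add_sq, h4, h5,
      CharTwo.add_self_eq_zero])
  have h7 : QM l 0 c w = (LinearMap.mulLeft F s).trace F A := by
    rw [← trace_eq_of_sq hl h4, QM_apply]
    congr 1
    linear_combination w.2 * h6 - c * w.2 * w.2 * hs
  have h8 : 0 < tp (QM l 0 c) := (tp_pos_iff hQ hev).2 ⟨LinearMap.range (.inl F A A), by
    rintro _ ⟨a, rfl⟩; simp [QM_apply], by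
      rw [LinearMap.finrank_range_of_inj LinearMap.inl_injective, finrank_prod, two_mul]⟩
  rw [← hw, ← h7]
  constructor
  · intro h
    by_contra! H
    exact (tp_addSq_of_no_root hQ H).1 h h8
  · rintro ⟨t, ht⟩
    rwa [tp_addSq_of_root ht]

end AddSq

section Adj

variable {f : F[X]}

theorem exists_frobenius_adjoinRoot (hf : f.Monic) :
    ∃ l : AdjoinRoot f →ₗ[F] F, ∀ a, (∀ x, l (a * x) = 0) → a = 0 := by
  refine ⟨lcoeff F (f.natDegree - 1) ∘ₗ AdjoinRoot.modByMonicHom hf, fun a ha => ?_⟩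
  by_contra h0
  rw [← AdjoinRoot.mk_leftInverse hf a] at ha h0
  obtain ⟨p, rfl⟩ := AdjoinRoot.mk_surjective a
  rw [AdjoinRoot.modByMonicHom_mk] at ha h0
  have h1 := degree_modByMonic_lt p hf
  generalize p %ₘ f = r at *
  have hr : r ≠ 0 := by rintro rfl; simp at h0
  have h2 := natDegree_lt_natDegree hr h1
  have h3 := ha (AdjoinRoot.mk f (X ^ (f.natDegree - 1 - r.natDegree)))
  rw [← map_mul, LinearMap.comp_apply, AdjoinRoot.modByMonicHom_mk, lcoeff_apply,
    (modByMonic_eq_self_iff hf).2 (degree_lt_degree (by rw [natDegree_mul_X_pow _ hr]; omega)),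
    coeff_mul_X_pow', if_pos (by omega), show f.natDegree - 1 - (f.natDegree - 1 - r.natDegree) =
      r.natDegree by omega] at h3
  exact hr (leadingCoeff_eq_zero.1 h3)

theorem exists_model (hf : f ∈ Good ({2, -2} : Set F)) :
    ∃ (A : Type u) (_ : CommRing A) (_ : Algebra F A) (_ : FiniteDimensional F A) (l : A →ₗ[F] F)
      (_ : ∀ a, (∀ x, l (a * x) = 0) → a = 0) (c : A)
      (_ : ∀ a, (c * c - 4 * (1 * 1)) * a = 0 → a = 0), (LinearMap.mulLeft F c).charpoly = f := by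
  obtain ⟨l, hl⟩ := exists_frobenius_adjoinRoot hf.1
  have := (AdjoinRoot.powerBasis hf.1.ne_zero).finite
  have hc : (LinearMap.mulLeft F (AdjoinRoot.root f)).charpoly = f := by
    rw [← LinearMap.charpoly_toMatrix _ (AdjoinRoot.powerBasis hf.1.ne_zero).basis,
      Algebra.toMatrix_lmul_eq]
    exact (charpoly_leftMulMatrix (AdjoinRoot.powerBasis hf.1.ne_zero)).trans
      (AdjoinRoot.minpoly_powerBasis_gen_of_monic hf.1)
  refine ⟨AdjoinRoot f, inferInstance, inferInstance, this, l, hl, AdjoinRoot.root f,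
    fun a ha => ?_, hc⟩
  have key : ∀ r : F, f.eval r ≠ 0 → ∀ a, (algebraMap F _ r - AdjoinRoot.root f) * a = 0 →
      a = 0 := fun r hr a ha => by
    rw [← hc, LinearMap.eval_charpoly] at hr
    exact (LinearMap.ker_eq_bot.1 ((LinearMap.isUnit_iff_ker_eq_bot _).1
      ((LinearMap.isUnit_iff_isUnit_det _).2 hr.isUnit))).eq_iff.1
        (by simpa [sub_mul, Algebra.smul_def] using ha)
  refine key 2 (hf.2 2 (by simp)) _ (key (-2) (hf.2 (-2) (by simp)) _ ?_)
  rw [map_neg, map_ofNat]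
  linear_combination ha

theorem exists_model_odd [Finite F] (h2 : (2 : F) ≠ 0) (hf : f ∈ Good ({2, -2} : Set F)) :
    ∃ Y, HC Y (f ^ 2) ∧
      (discTy F).τ Y = sqc ((-1) ^ f.natDegree * f.eval (-2) * f.eval 2) := by
  obtain ⟨A, _, _, _, l, hl, c, hc, rfl⟩ := exists_model hf
  have e1 : (LinearMap.mulLeft F (2 - c)).det = (LinearMap.mulLeft F c).charpoly.eval 2 := by
    rw [LinearMap.eval_charpoly]
    congr 1; ext a; simp [sub_mul, two_mul, two_smul]
  have e2 : (LinearMap.mulLeft F (2 + c)).det = (-1) ^ (LinearMap.mulLeft F c).charpoly.natDegree *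
      (LinearMap.mulLeft F c).charpoly.eval (-2) := by
    rw [LinearMap.eval_charpoly, LinearMap.charpoly_natDegree, ← LinearMap.det_smul]
    congr 1; ext a; simp [add_mul, two_mul, two_smul]; ring
  refine ⟨model hl hc, hc_model hl hc, ?_⟩
  rw [← e1, ← e2]
  exact disc_model hl h2 (by rw [e2]; simpa using hf.2 (-2) (by simp))
    (by rw [e1]; exact hf.2 2 (by simp)) (model hl hc).hQ

open Classical in
theorem exists_model_even [Finite F] [CharP F 2] (hf : f ∈ Good ({2, -2} : Set F)) :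
    ∃ Y, HC Y (f ^ 2) ∧
      (tpTy F).τ Y = if ∃ t, t ^ 2 + t + f.coeff 1 / f.coeff 0 = 0 then 1 else -1 := by
  obtain ⟨A, _, _, _, l, hl, c, hc, rfl⟩ := exists_model hf
  have h2 : (2 : A) = 0 := by rw [← map_ofNat (algebraMap F A), CharTwo.two_eq_zero, map_zero]
  obtain ⟨s, hs⟩ : ∃ s, c * s = 1 := (LinearMap.injective_iff_surjective.1
    ((injective_iff_map_eq_zero (LinearMap.mulLeft F c)).2 fun a ha => hc a (by
      rw [LinearMap.mulLeft_apply] at ha
      linear_combination c * ha - 2 * a * h2))) 1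
  have h3 : (LinearMap.mulLeft F c).charpoly.coeff 1 / (LinearMap.mulLeft F c).charpoly.coeff 0 =
      (LinearMap.mulLeft F s).trace F A := by
    have h0 : (LinearMap.mulLeft F c).charpoly.coeff 0 ≠ 0 := by
      rw [coeff_zero_eq_eval_zero]; exact hf.2 0 (by simp [CharTwo.two_eq_zero])
    let e := finBasis F A
    have h4 : LinearMap.toMatrix e e (LinearMap.mulLeft F c) *
        LinearMap.toMatrix e e (LinearMap.mulLeft F s) = 1 := by
      rw [← LinearMap.toMatrix_mul, ← LinearMap.toMatrix_one e]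
      congr 1; ext a; simp [← mul_assoc, hs]
    rw [div_eq_iff h0, LinearMap.trace_eq_matrix_trace F e, ← LinearMap.charpoly_toMatrix _ e,
      ← Matrix.inv_eq_left_inv h4, Matrix.charpoly_inv _ (IsUnit.of_mul_eq_one_right _ h4),
      ← C_1, ← C_neg, ← C_pow, ← C_mul, coeff_C_mul, coeff_C_mul,
      Matrix.coeff_charpolyRev_eq_neg_trace, coeff_zero_eq_eval_zero, Matrix.eval_charpolyRev,
      CharTwo.neg_eq (Matrix.trace _), mul_one, mul_comm]
  refine ⟨model hl hc, hc_model hl hc, ?_⟩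
  rw [h3, ← tp_model hl (by rw [mul_comm, hs])]
  by_cases h : 0 < tp (QM l 1 c) <;> simp [tpTy, h]

end Adj

section Count

variable {τ : Ty F}

theorem exists_hc_of_root (hP : ∀ ε : F, ε * ε = 1 → ∀ δ, ∃ P, HC P ((X - C (2 * ε)) ^ 2) ∧
    τ.τ P = δ) {f : F[X]} (hf : f.Monic) (hf' : f ∉ Good ({2, -2} : Set F))
    (ih : ∀ g : F[X], g.Monic → g.natDegree < f.natDegree → ∃ Y : Obj F, HC Y (g ^ 2)) (δ : ℤˣ) :
    ∃ Y, HC Y (f ^ 2) ∧ τ.τ Y = δ := by
  obtain ⟨ε, hε, h⟩ : ∃ ε : F, ε * ε = 1 ∧ f.IsRoot (2 * ε) := by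
    by_contra! H
    refine hf' ⟨hf, ?_⟩
    rintro c (rfl | rfl)
    · simpa using H 1 (one_mul 1)
    · simpa using H (-1) (by simp)
  obtain ⟨g, rfl⟩ := dvd_iff_isRoot.2 h
  have hg := (monic_X_sub_C _).of_mul_monic_left hf
  obtain ⟨Y, hY⟩ := ih g hg (by rw [(monic_X_sub_C _).natDegree_mul hg, natDegree_X_sub_C]; omega)
  obtain ⟨P, h1, h2⟩ := hP ε hε (δ * τ.τ Y)
  exact ⟨P.prod Y, by rw [mul_pow]; exact h1.prod hY, by
    rw [τ.prod, h2, mul_assoc, Int.units_mul_self, mul_one]⟩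

theorem exists_hc (hP : ∀ ε : F, ε * ε = 1 → ∀ δ, ∃ P, HC P ((X - C (2 * ε)) ^ 2) ∧ τ.τ P = δ)
    {f : F[X]} (hf : f.Monic) : ∃ Y : Obj F, HC Y (f ^ 2) := by
  induction hn : f.natDegree using Nat.strong_induction_on generalizing f with
  | _ n ih =>
    by_cases h : f ∈ Good ({2, -2} : Set F)
    · obtain ⟨A, _, _, _, l, hl, c, hc, rfl⟩ := exists_model h
      exact ⟨_, hc_model hl hc⟩
    · exact (exists_hc_of_root hP hf h (fun g hg h' => ih _ (hn ▸ h') hg rfl) 1).imp fun _ h => h.1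

theorem sq_injOn : Set.InjOn (fun f : F[X] => f ^ 2) {f | f.Monic} := fun f hf g hg h => by
  rcases sq_eq_sq_iff_eq_or_eq_neg.1 h with h | h
  · exact h
  · have h1 : (1 : F) = -1 := by
      have := congrArg leadingCoeff h
      rwa [leadingCoeff_neg, hf, hg] at this
    rw [h, ← neg_one_mul, ← C_1, ← C_neg, ← h1, C_1, one_mul]

theorem lower_half [Fintype F]
    (hP : ∀ ε : F, ε * ε = 1 → ∀ δ, ∃ P, HC P ((X - C (2 * ε)) ^ 2) ∧ τ.τ P = δ) {n : ℕ}
    (t : F[X] → ℤˣ) (ht : ∀ f ∈ Good ({2, -2} : Set F), ∃ Y, HC Y (f ^ 2) ∧ τ.τ Y = t f)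
    (σ : F[X] → F[X]) (hσ : ∀ f ∈ Good ({2, -2} : Set F), f.natDegree = n →
      σ f ∈ Good ({2, -2} : Set F) ∧ (σ f).natDegree = n ∧ t (σ f) ≠ t f)
    (hσ' : Set.InjOn σ (Good {2, -2})) {S : Set (Obj F)} (hS : ∀ Y : Obj F, Y.dim = 2 * n → Y ∈ S)
    (δ : ℤˣ) :
    (Fintype.card F : ℝ) ^ n ≤ 2 * PowerSeries.coeff (2 * n) (gf True (τ.sel S δ)) := by
  let T := {f : F[X] | (f.Monic ∧ f.natDegree = n) ∧ ∃ Y, HC Y (f ^ 2) ∧ τ.τ Y = δ}
  let T' := {f : F[X] | (f ∈ Good ({2, -2} : Set F) ∧ f.natDegree = n) ∧ t f ≠ δ}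
  have hT : T.Finite := (finite_monic n).subset fun _ h => h.1
  have h1 := ncard_le_coeff (b := True) (T := T) (S := τ.sel S δ) (d := 2 * n) (· ^ 2)
    (sq_injOn.mono fun _ h => h.1.1) fun f ⟨hf, Y, h1, h2⟩ => by
      have : Y.dim = 2 * n := by rw [h1.dim_eq, natDegree_pow, hf.2]
      exact ⟨Y, ⟨hS Y this, h2⟩, this, h1⟩
  have h2 : T'.ncard ≤ T.ncard := Set.ncard_le_ncard_of_injOn σ (fun f ⟨⟨hf, hn⟩, h⟩ => by
    obtain ⟨e1, e2, e3⟩ := hσ f hf hn
    refine ⟨⟨e1.1, e2⟩, (ht _ e1).imp fun Y hY => ⟨hY.1, hY.2.trans ?_⟩⟩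
    rcases Int.units_eq_one_or δ with rfl | rfl <;> rcases Int.units_eq_one_or (t f) with h | h <;>
      rcases Int.units_eq_one_or (t (σ f)) with h' | h' <;> simp_all)
    (hσ'.mono fun _ h => h.1.1) hT
  have h3 : {f : F[X] | f.Monic ∧ f.natDegree = n} ⊆ T ∪ T' := fun f hf => by
    by_cases h : f ∈ Good ({2, -2} : Set F)
    · by_cases h' : t f = δ
      · exact Or.inl ⟨hf, h' ▸ ht f h⟩
      · exact Or.inr ⟨⟨h, hf.2⟩, h'⟩
    · exact Or.inl ⟨hf, exists_hc_of_root hP hf.1 h (fun g hg _ => exists_hc hP hg) δ⟩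
  have h4 := (Set.ncard_le_ncard h3 (hT.union ((finite_monic n).subset
    fun _ h => ⟨h.1.1.1, h.1.2⟩))).trans (Set.ncard_union_le _ _)
  rw [card_monic] at h4
  have h5 : (Fintype.card F : ℝ) ^ n ≤ 2 * T.ncard := by exact_mod_cast (by omega)
  linarith

theorem exists_plane [Finite F] (h : ∀ (ε : F) (hε : ε * ε = 1) (a b : F)
    (hab : ∀ z₁ z₂ : F, z₁ ^ 2 + a * z₁ * z₂ + b * z₂ ^ 2 = 0 → z₁ = 0 ∧ z₂ = 0),
    τ.τ (Obj.scal (nondeg_qPlus 1) hε) ≠
      τ.τ (Obj.scal (nondeg_qMinus 0 (disc_ne_zero_of_anisotropic hab)) hε)) (ε : F)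
    (hε : ε * ε = 1) (δ : ℤˣ) : ∃ P, HC P ((X - C (2 * ε)) ^ 2) ∧ τ.τ P = δ := by
  obtain ⟨a, b, hab⟩ := exists_anisotropic F
  have h1 := h ε hε a b hab
  by_cases h2 : τ.τ (Obj.scal (nondeg_qPlus 1) hε) = δ
  · exact ⟨_, by simpa using hc_scal (nondeg_qPlus 1) hε, h2⟩
  · refine ⟨_, by simpa using hc_scal (nondeg_qMinus 0 (disc_ne_zero_of_anisotropic hab)) hε, ?_⟩
    revert h1 h2
    generalize τ.τ _ = x
    generalize τ.τ _ = y
    rcases Int.units_eq_one_or δ with rfl | rfl <;> rcases Int.units_eq_one_or x with rfl | rfl <;>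
      rcases Int.units_eq_one_or y with rfl | rfl <;> simp

theorem exists_plane_odd [Finite F] (h2 : (2 : F) ≠ 0) (ε : F) (hε : ε * ε = 1) (δ : ℤˣ) :
    ∃ P, HC P ((X - C (2 * ε)) ^ 2) ∧ (discTy F).τ P = δ :=
  exists_plane (fun _ _ a b hab => by
    change disc (qPlus 1 F) ≠ disc (qMinus 0 F a b)
    rw [disc_qPlus, disc_qMinus_of_anisotropic h2 0 hab]
    rcases Int.units_eq_one_or (sqc (-1 : F)) with h | h <;> simp [h]) ε hε δ

theorem exists_plane_even [Finite F] [CharP F 2] (ε : F) (hε : ε * ε = 1) (δ : ℤˣ) :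
    ∃ P, HC P ((X - C (2 * ε)) ^ 2) ∧ (tpTy F).τ P = δ :=
  exists_plane (fun _ _ a b hab => by
    have := Fintype.ofFinite F
    simp [tpTy, tp_qPlus, tp_qMinus 0 hab, Fintype.card_pos]) ε hε δ

theorem monic_add_of_lt {f g : F[X]} (hf : f.Monic) (h : g.natDegree < f.natDegree) :
    (f + g).Monic ∧ (f + g).natDegree = f.natDegree :=
  ⟨hf.add_of_left (degree_lt_degree h), natDegree_add_eq_left_of_natDegree_lt h⟩

theorem lower_odd [Fintype F] (h2 : (2 : F) ≠ 0) {n : ℕ} (hn : 2 ≤ n) {S : Set (Obj F)}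
    (hS : ∀ Y : Obj F, Y.dim = 2 * n → Y ∈ S) (δ : ℤˣ) :
    (Fintype.card F : ℝ) ^ n ≤ 2 * PowerSeries.coeff (2 * n) (gf True ((discTy F).sel S δ)) := by
  obtain ⟨ν, hν⟩ := exists_nonsquare h2
  have hν0 : ν ≠ 0 := fun h => hν (h ▸ IsSquare.zero)
  have h4 : (4 : F) ≠ 0 := by rw [show (4 : F) = 2 * 2 by norm_num]; exact mul_ne_zero h2 h2
  let σ : F[X] → F[X] := fun f => f + C ((ν - 1) * f.eval 2 / 4) * (X + C 2)
  have e1 : ∀ f, (σ f).eval 2 = ν * f.eval 2 := fun f => by simp [σ]; field_simp; ring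
  have e2 : ∀ f, (σ f).eval (-2) = f.eval (-2) := fun f => by simp [σ]
  refine lower_half (exists_plane_odd h2) _ (fun f => exists_model_odd h2) σ (fun f hf hd => ?_)
    (fun f _ g _ h => ?_) hS δ
  · obtain ⟨h5, h6⟩ := monic_add_of_lt (g := C ((ν - 1) * f.eval 2 / 4) * (X + C 2)) hf.1
      ((natDegree_C_mul_le _ _).trans_lt (by rw [natDegree_X_add_C]; omega))
    have h7 := hf.2 2 (by simp)
    have h8 := hf.2 (-2) (by simp)
    refine ⟨⟨h5, ?_⟩, h6.trans hd, ?_⟩
    · rintro c (rfl | rfl)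
      · rw [e1]; exact mul_ne_zero hν0 h7
      · rwa [e2]
    · rw [e1, e2, h6, mul_left_comm, sqc_mul hν0 (by simp [h7, h8]), sqc_eq_neg_one_iff.2 hν]
      generalize sqc (F := F) _ = x
      rcases Int.units_eq_one_or x with rfl | rfl <;> simp
  · have h5 : f.eval 2 = g.eval 2 := mul_left_cancel₀ hν0 (by rw [← e1, h, e1])
    simpa [σ, h5] using h

theorem lower_even [Fintype F] [CharP F 2] {n : ℕ} (hn : 2 ≤ n) {S : Set (Obj F)}
    (hS : ∀ Y : Obj F, Y.dim = 2 * n → Y ∈ S) (δ : ℤˣ) :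
    (Fintype.card F : ℝ) ^ n ≤ 2 * PowerSeries.coeff (2 * n) (gf True ((tpTy F).sel S δ)) := by
  obtain ⟨α, hα⟩ := exists_no_root F
  have h2 : (2 : F) = 0 := CharTwo.two_eq_zero
  let σ : F[X] → F[X] := fun f => f + C (α * f.coeff 0) * X
  have e1 : ∀ f, (σ f).coeff 0 = f.coeff 0 := fun f => by simp [σ]
  have e2 : ∀ f, (σ f).coeff 1 = f.coeff 1 + α * f.coeff 0 := fun f => by
    simp only [σ, coeff_add, coeff_C_mul, coeff_X_one, mul_one]
  refine lower_half exists_plane_even _ (fun f => exists_model_even) σ (fun f hf hd => ?_)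
    (fun f _ g _ h => ?_) hS δ
  · obtain ⟨h5, h6⟩ := monic_add_of_lt (g := C (α * f.coeff 0) * X) hf.1
      ((natDegree_C_mul_le _ _).trans_lt (by rw [natDegree_X]; omega))
    have h7 : f.coeff 0 ≠ 0 := by rw [coeff_zero_eq_eval_zero]; exact hf.2 0 (by simp [h2])
    refine ⟨⟨h5, fun c hc => ?_⟩, h6.trans hd, ?_⟩
    · obtain rfl : c = 0 := by simpa [h2] using hc
      rwa [← coeff_zero_eq_eval_zero, e1]
    · rw [e1, e2, add_div, mul_div_cancel_right₀ _ h7]
      generalize f.coeff 1 / f.coeff 0 = a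
      by_cases h : ∃ t, t ^ 2 + t + a = 0
      · obtain ⟨t, ht⟩ := h
        rw [if_pos (show ∃ t, t ^ 2 + t + a = 0 from ⟨t, ht⟩), if_neg]
        · decide
        · rintro ⟨s, hs⟩
          exact hα (s + t) (by linear_combination hs + ht + (s * t - a) * h2)
      · rw [if_neg h, if_pos]
        · decide
        · obtain ⟨t, ht⟩ := exists_sq_add_self_of_no_root h2 (not_exists.1 h) hα
          exact ⟨t, by linear_combination ht + α * h2⟩
  · have h5 : f.coeff 0 = g.coeff 0 := by rw [← e1, h, e1]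
    simpa [σ, h5] using h

theorem lower_sp [Fintype F] [CharP F 2] (n : ℕ) {S : Set (Obj F)}
    (hS : ∀ Y : Obj F, Y.dim = 2 * n → Y ∈ S) :
    (Fintype.card F : ℝ) ^ n ≤ PowerSeries.coeff (2 * n) (gf b S) := by
  have := ncard_le_coeff (b := b) (T := {f : F[X] | f.Monic ∧ f.natDegree = n}) (S := S)
    (d := 2 * n) (· ^ 2) (sq_injOn.mono fun _ h => h.1) fun f hf => by
      obtain ⟨Y, hY⟩ := exists_hc exists_plane_even hf.1
      have : Y.dim = 2 * n := by rw [hY.dim_eq, natDegree_pow, hf.2]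
      exact ⟨Y, hS Y this, this, hY⟩
  rw [card_monic] at this
  exact_mod_cast this

end Count

end Cfsg.Agent.Lib.Wall
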