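import Mathlib
import Cfsg.Agent.Lib.Wall.Lower

/-!
Class number bounds for orthogonal groups in even dimension and symplectic groups.
-/

set_option autoImplicit false

open Module QuadraticMap

namespace Cfsg.Agent.Lib.Wall

open Cfsg.Agent.Lib.Forms Cfsg.Agent.Lib.GL.SymTwo Cfsg.Agent.Lib.GL.OrthConj

universe u

variable {F : Type u} [Field F] [Fintype F] {V : Type u} [AddCommGroup V] [Module F V]
  [FiniteDimensional F V] {Q : QuadraticForm F V}

theorem card_OG_odd (h2 : (2 : F) ≠ 0) (hQ : Nondeg Q) {L : ℕ} (hL : finrank F V ≤ L) :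
    (Nat.card (ConjClasses (OG Q)) : ℝ) = PowerSeries.coeff (finrank F V)
      (gf True ((discTy F).sel {Y : Obj F | Y.dim ≤ L} (disc Q))) :=
  card_OG hQ (fun _ => ⟨hL, rfl⟩) fun Y hY hd => Y.hQ.isom_of_disc h2 hQ hd hY.2

theorem bounds_odd (h2 : (2 : F) ≠ 0) (hQ : Nondeg Q) {n : ℕ} (hn : 2 ≤ n)
    (hV : finrank F V = 2 * n) : Fintype.card F ^ n ≤ 2 * Nat.card (ConjClasses (OG Q)) ∧
      2 * Nat.card (ConjClasses (OG Q)) ≤ 19 * Fintype.card F ^ n := by
  have h := card_OG_odd h2 hQ (L := 2 * (n + 3 + 1)) (by omega)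
  rw [hV] at h
  have h3 := lower_odd h2 hn (S := {Y : Obj F | Y.dim ≤ 2 * (n + 3 + 1)})
    (fun Y hY => by simp only [Set.mem_ofPred_eq]; omega) (disc Q)
  have h4 := (upper_odd h2 n (disc Q)).1
  rw [← h] at h3 h4
  have : (0 : ℝ) ≤ (Fintype.card F : ℝ) ^ n := by positivity
  have h5 : 2 * (Nat.card (ConjClasses (OG Q)) : ℝ) ≤ 19 * (Fintype.card F : ℝ) ^ n := by linarith
  exact ⟨by exact_mod_cast h3, by exact_mod_cast h5⟩

theorem charP_of_even (h : Even (Fintype.card F)) : CharP F 2 :=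
  ringChar.of_eq (FiniteField.even_card_iff_char_two.2 (Nat.even_iff.1 h))

variable [CharP F 2]

theorem bounds_even (hQ : Nondeg Q) {n : ℕ} (hn : 2 ≤ n) (hV : finrank F V = 2 * n) :
    Fintype.card F ^ n ≤ 2 * Nat.card (ConjClasses (OG Q)) ∧
      Nat.card (ConjClasses (OG Q)) ≤ 15 * Fintype.card F ^ n := by
  have h := card_OG (S := (tpTy F).sel {Y : Obj F | Y.dim + 1 ≤ 2 * (n + 5 + 1)}
    ((tpTy F).τ (Obj.of hQ 1))) hQ
    (fun _ => ⟨show finrank F V + 1 ≤ _ by omega, rfl⟩) fun Y hY hd => by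
      refine isom_of_tp Y.hQ hQ Y.even_dim hd ?_
      have h1 : (if 0 < tp Y.Q then 1 else -1 : ℤˣ) = if 0 < tp Q then 1 else -1 := hY.2
      have hq : (0 : ℤ) < (Fintype.card F : ℤ) ^ n :=
        pow_pos (by exact_mod_cast Fintype.card_pos) n
      rcases tp_eq_or Y.hQ (hd.trans hV) with h3 | h3 <;> rcases tp_eq_or hQ hV with h4 | h4 <;>
        simp [h3, h4, hq, hq.le] at h1 ⊢
  rw [hV] at h
  have h3 := lower_even hn (S := {Y : Obj F | Y.dim + 1 ≤ 2 * (n + 5 + 1)})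
    (fun Y hY => by simp only [Set.mem_ofPred_eq]; omega) ((tpTy F).τ (Obj.of hQ 1))
  have h4 := upper_even (F := F) n ((tpTy F).τ (Obj.of hQ 1))
  rw [← h] at h3 h4
  exact ⟨by exact_mod_cast h3, by exact_mod_cast h4⟩

theorem bounds_sp (n : ℕ) :
    Fintype.card F ^ n ≤ Nat.card (ConjClasses (Matrix.symplecticGroup (Fin n) F)) ∧
      5 * Nat.card (ConjClasses (Matrix.symplecticGroup (Fin n) F)) ≤ 76 * Fintype.card F ^ n := by
  have e : GL.Alt.sympBilin n F = polarBilin (qPlus n F) := LinearMap.ext₂ fun u v => by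
    rw [GL.Alt.sympBilin_apply, sympForm_apply, polarBilin_apply_apply, polar_qPlus]
    simp [CharTwo.sub_eq_add, add_comm]
  have hV : finrank F (Fin n ⊕ Fin n → F) = 2 * n := by simp [two_mul]
  have h := card_IsoG (S := {Y : Obj F | Y.dim + 1 ≤ 2 * (n + 5 + 1)}) (nondeg_qPlus n)
    fun Y hY => by simp only [Set.mem_ofPred_eq]; omega
  rw [hV, ← e, ← card_conjClasses_congr (toSp n F)] at h
  have h3 := lower_sp (b := False) n (S := {Y : Obj F | Y.dim + 1 ≤ 2 * (n + 5 + 1)})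
    fun Y hY => by simp only [Set.mem_ofPred_eq]; omega
  have h4 := upper_sp (F := F) n
  rw [← h] at h3 h4
  have h5 : 5 * (Nat.card (ConjClasses (Matrix.symplecticGroup (Fin n) F)) : ℝ) ≤
    76 * (Fintype.card F : ℝ) ^ n := by linarith
  exact ⟨by exact_mod_cast h3, by exact_mod_cast h5⟩

end Cfsg.Agent.Lib.Wall
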