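import Mathlib

/-!
The class number of a subgroup of index two.
-/

set_option autoImplicit false

namespace Cfsg.Agent.Lib.Wall

open Finset

variable {G : Type*} [Group G]

open Classical in
theorem sum_card_commute [Fintype G] (T : Set (ConjClasses G)) :
    ∑ g : G with ConjClasses.mk g ∈ T, #{h | Commute g h} = T.ncard * Fintype.card G := by
  have : Fintype (ConjClasses G) := Fintype.ofFinite _
  rw [← sum_fiberwise_of_maps_to (t := T.toFinset) (g := ConjClasses.mk) (by simp),
    Set.ncard_eq_toFinset_card', ← smul_eq_mul, ← sum_const]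
  refine sum_congr rfl fun c hc => ?_
  obtain ⟨g, rfl⟩ := ConjClasses.mk_surjective c
  rw [← card_univ, card_eq_sum_card_fiberwise (f := fun x => x * g * x⁻¹)
    (t := {x ∈ ({x | ConjClasses.mk x ∈ T} : Finset G) | ConjClasses.mk x = ConjClasses.mk g})]
  · refine sum_congr rfl fun y hy => ?_
    obtain ⟨z, rfl⟩ := isConj_iff.1 (ConjClasses.mk_eq_mk_iff_isConj.1 (mem_filter.1 hy).2.symm)
    refine card_nbij' (· * z) (· * z⁻¹) (fun h hh => ?_) (fun x hx => ?_) (fun _ _ => by simp)
      fun _ _ => by simp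
    · have : Commute (z * g * z⁻¹) h := by simpa using hh
      simp only [coe_filter, mem_univ, true_and, Set.mem_ofPred_eq]
      calc h * z * g * (h * z)⁻¹ = h * (z * g * z⁻¹) * h⁻¹ := by group
        _ = _ := by rw [← this.eq, mul_inv_cancel_right]
    · have : x * g * x⁻¹ = z * g * z⁻¹ := by simpa using hx
      simp only [coe_filter, mem_univ, true_and, Set.mem_ofPred_eq]
      calc z * g * z⁻¹ * (x * z⁻¹) = x * g * x⁻¹ * (x * z⁻¹) := by rw [this]
        _ = _ := by group
  · intro x _
    have : ConjClasses.mk (x * g * x⁻¹) = ConjClasses.mk g :=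
      ConjClasses.mk_eq_mk_iff_isConj.2 (isConj_iff.2 ⟨x, rfl⟩).symm
    simpa [this] using hc

/-- The classes whose centralizers lie in the kernel of `χ`. -/
def splitCl (χ : G →* ℤˣ) : Set (ConjClasses G) :=
  {c | ∀ g, ConjClasses.mk g = c → ∀ h, Commute g h → χ h = 1}

theorem mk_mem_splitCl {χ : G →* ℤˣ} {g : G} :
    ConjClasses.mk g ∈ splitCl χ ↔ ∀ h, Commute g h → χ h = 1 := by
  refine ⟨fun H => H g rfl, fun H g' hg h hh => ?_⟩
  obtain ⟨z, rfl⟩ := isConj_iff.1 (ConjClasses.mk_eq_mk_iff_isConj.1 hg)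
  have := H _ (hh.conj z)
  rwa [map_mul, map_mul, map_inv, mul_inv_cancel_comm] at this

open Classical in
theorem sum_commute_eq [Fintype G] (χ : G →* ℤˣ) (g : G) :
    ∑ h with Commute g h, (χ h : ℤ) =
      if ConjClasses.mk g ∈ splitCl χ then (#{h | Commute g h} : ℤ) else 0 := by
  rw [mk_mem_splitCl]
  split_ifs with H
  · rw [sum_congr rfl fun h hh => by rw [H h (mem_filter.1 hh).2]]
    simp
  · push Not at H
    obtain ⟨z, hz, h1⟩ := H
    have h2 : χ z = -1 := (Int.units_eq_one_or _).resolve_left h1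
    have : ∑ h with Commute g h, (χ h : ℤ) = ∑ h with Commute g h, -(χ h : ℤ) := by
      refine sum_nbij' (z⁻¹ * ·) (z * ·) (fun h hh => ?_) (fun h hh => ?_) (by simp) (by simp)
        fun h _ => by simp [h2]
      · simpa using hz.inv_right.mul_right (by simpa using hh)
      · simpa using hz.mul_right (by simpa using hh)
    rw [sum_neg_distrib] at this
    omega

theorem two_mul_card_ker [Finite G] (χ : G →* ℤˣ) {z : G} (hz : χ z = -1) :
    2 * Nat.card (ConjClasses χ.ker) = Nat.card (ConjClasses G) + 3 * (splitCl χ).ncard := by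
  classical
  have := Fintype.ofFinite G
  have hc : Fintype.card G = 2 * Fintype.card χ.ker := by
    have h1 := χ.ker.card_mul_index
    rw [Subgroup.index_ker, MonoidHom.range_eq_top.2 (fun u => by
      rcases Int.units_eq_one_or u with rfl | rfl
      exacts [⟨1, map_one χ⟩, ⟨z, hz⟩]), Subgroup.card_top, Nat.card_eq_fintype_card,
      Nat.card_eq_fintype_card, Nat.card_eq_fintype_card, Fintype.card_units_int] at h1
    omega
  have h1 := sum_card_commute (G := G) Set.univ
  have h2 := sum_card_commute (G := χ.ker) Set.univ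
  have h3 := sum_card_commute (splitCl χ)
  rw [Set.ncard_univ] at h1 h2
  simp only [Set.mem_univ, filter_true] at h1 h2
  have h4 : ∑ g, ∑ h with Commute g h, (χ h : ℤ) = (splitCl χ).ncard * Fintype.card G := by
    simp only [sum_commute_eq, ← sum_filter]
    exact_mod_cast h3
  have h5 : ∑ g, ∑ h with Commute g h, (χ g : ℤ) = (splitCl χ).ncard * Fintype.card G := by
    rw [← h4]
    exact sum_comm' fun g h => by simp [commute_iff_eq, eq_comm]
  have h6 : ∑ g, ∑ h with Commute g h, (χ g : ℤ) * χ h = (splitCl χ).ncard * Fintype.card G := by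
    rw [← h4]
    refine sum_congr rfl fun g _ => ?_
    rw [← mul_sum, sum_commute_eq]
    split_ifs with H
    · rw [mk_mem_splitCl.1 H g (Commute.refl g)]; simp
    · simp
  have h7 : ∑ g, ∑ h with Commute g h, (1 + (χ g : ℤ)) * (1 + χ h) =
      4 * ∑ g : χ.ker, (#{h | Commute g h} : ℤ) := by
    have e : ∀ u : ℤˣ, 1 + (u : ℤ) = if u = 1 then 2 else 0 := by decide
    have e' : ∀ g : χ.ker, (#{h | Commute g h} : ℤ) = ∑ h with Commute g.1 h,
        if χ h = 1 then 1 else 0 := fun g => by
      rw [← sum_filter, sum_const, nsmul_eq_mul, mul_one, Nat.cast_inj]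
      refine card_bij (fun h _ => h.1) (fun h hh => ?_) (fun _ _ _ _ => Subtype.ext)
        fun h hh => ?_
      · exact mem_filter.2 ⟨mem_filter.2 ⟨mem_univ _, (mem_filter.1 hh).2.map χ.ker.subtype⟩, h.2⟩
      · have : Commute g.1 h ∧ χ h = 1 := by simpa using hh
        exact ⟨⟨h, this.2⟩, mem_filter.2 ⟨mem_univ _, Subtype.ext this.1.eq⟩, rfl⟩
    simp only [e, e']
    rw [← sum_subtype (s := {g | χ g = 1}) (f := fun g => ∑ h with Commute g h,
      if χ h = 1 then (1 : ℤ) else 0) (by simp), sum_filter, mul_sum]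
    refine sum_congr rfl fun g _ => ?_
    split_ifs
    · rw [mul_sum]; exact sum_congr rfl fun h _ => by split_ifs <;> rfl
    · simp
  have h8 : ∑ g, ∑ h with Commute g h, (1 + (χ g : ℤ)) * (1 + χ h) =
      ∑ g : G, (#{h | Commute g h} : ℤ) + ∑ g, ∑ h with Commute g h, (χ h : ℤ) +
        ∑ g, ∑ h with Commute g h, (χ g : ℤ) + ∑ g, ∑ h with Commute g h, (χ g : ℤ) * χ h := by
    simp only [← sum_add_distrib, card_eq_sum_ones, Nat.cast_sum, Nat.cast_one]
    exact sum_congr rfl fun g _ => sum_congr rfl fun h _ => by ring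
  rw [h7, h4, h5, h6, ← Nat.cast_sum, ← Nat.cast_sum, h1, h2, hc] at h8
  refine Nat.eq_of_mul_eq_mul_right (m := 2 * Fintype.card χ.ker) (by positivity) ?_
  zify
  push_cast at h8
  linear_combination h8

end Cfsg.Agent.Lib.Wall
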