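import Mathlib
import Cfsg.Agent.Lib.Wall.Final
import Cfsg.Agent.Lib.Wall.Index

/-!
Class number bounds for `Ω` in odd dimension.
-/

set_option autoImplicit false

open Module QuadraticMap

namespace Cfsg.Agent.Lib.Wall

open Cfsg.Agent.Lib.Forms Cfsg.Agent.Lib.GL.SymTwo Cfsg.Agent.Lib.GL.OrthConj

universe u

variable {F : Type u} [Field F] [Fintype F]

section Low

open Polynomial

theorem exists_sqc_eq (h2 : (2 : F) ≠ 0) (δ : ℤˣ) : ∃ a : F, a ≠ 0 ∧ sqc a = δ := by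
  rcases Int.units_eq_one_or δ with rfl | rfl
  · exact ⟨1, one_ne_zero, sqc_one⟩
  · obtain ⟨ν, hν⟩ := exists_nonsquare h2
    exact ⟨ν, fun h => hν (h ▸ IsSquare.zero), sqc_eq_neg_one_iff.2 hν⟩

theorem exists_line (h2 : (2 : F) ≠ 0) (δ : ℤˣ) {ε : F} (hε : ε * ε = 1) :
    ∃ P : Obj F, HC P (X - C (2 * ε)) ∧ disc P.Q = δ := by
  obtain ⟨a, ha, rfl⟩ := exists_sqc_eq h2 δ
  have hQ : Nondeg (QD (LinearMap.id : F →ₗ[F] F) (a / 2)) :=
    nondeg_QD (fun a h => by simpa using h 1) fun x hx => by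
      simpa [mul_div_cancel₀ _ h2, ha] using hx
  refine ⟨Obj.scal hQ hε, by simpa using hc_scal hQ hε, ?_⟩
  rw [hQ.disc_eq (Basis.singleton Unit F), Matrix.det_unique]
  simp [gram, QD_apply, mul_div_cancel₀ _ h2]

theorem lower_odd_dim (h2 : (2 : F) ≠ 0) (n : ℕ) {S : Set (Obj F)}
    (hS : ∀ Y : Obj F, Y.dim = 2 * n + 1 → Y ∈ S) (δ : ℤˣ) :
    2 * (Fintype.card F : ℝ) ^ n ≤
      PowerSeries.coeff (2 * n + 1) (gf True ((discTy F).sel S δ)) := by
  classical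
  have h4 : (2 : F) * 1 ≠ 2 * -1 := fun h => mul_ne_zero h2 h2 (by linear_combination h)
  have key : ∀ f g : F[X], f.Monic → g.Monic →
      f ^ 2 * (X - C (2 * 1)) ≠ g ^ 2 * (X - C (2 * -1)) := fun f g hf hg h => by
    have := congrArg (rootMultiplicity (2 * 1)) h
    rw [rootMultiplicity_mul (mul_ne_zero (pow_ne_zero _ hf.ne_zero) (X_sub_C_ne_zero _)),
      rootMultiplicity_mul (mul_ne_zero (pow_ne_zero _ hg.ne_zero) (X_sub_C_ne_zero _)),
      pow_two, pow_two, rootMultiplicity_mul (mul_ne_zero hf.ne_zero hf.ne_zero),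
      rootMultiplicity_mul (mul_ne_zero hg.ne_zero hg.ne_zero), rootMultiplicity_X_sub_C,
      rootMultiplicity_X_sub_C, if_pos rfl, if_neg h4] at this
    omega
  have := ncard_le_coeff (b := True)
    (T := {f : F[X] | f.Monic ∧ f.natDegree = n} ×ˢ (Set.univ : Set Bool))
    (S := (discTy F).sel S δ) (d := 2 * n + 1)
    (fun p => p.1 ^ 2 * (X - C (2 * cond p.2 1 (-1)))) ?_ ?_
  · rw [Set.ncard_prod, card_monic, Set.ncard_univ] at this
    simpa [mul_comm] using this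
  · rintro ⟨f, _ | _⟩ ⟨hf, -⟩ ⟨g, _ | _⟩ ⟨hg, -⟩ h
    · exact Prod.ext (sq_injOn hf.1 hg.1 (mul_right_cancel₀ (X_sub_C_ne_zero _) h)) rfl
    · exact absurd h.symm (key g f hg.1 hf.1)
    · exact absurd h (key f g hf.1 hg.1)
    · exact Prod.ext (sq_injOn hf.1 hg.1 (mul_right_cancel₀ (X_sub_C_ne_zero _) h)) rfl
  · rintro ⟨f, c⟩ ⟨hf, -⟩
    obtain ⟨Y, hY⟩ := exists_hc (exists_plane_odd h2) hf.1
    obtain ⟨P, h1, h3⟩ := exists_line h2 (disc Y.Q * δ) (ε := cond c 1 (-1)) (by cases c <;> simp)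
    have : (Y.prod P).dim = 2 * n + 1 := by
      rw [Obj.dim_prod, hY.dim_eq, h1.dim_eq, natDegree_pow, hf.2, natDegree_X_sub_C]
    refine ⟨Y.prod P, ⟨hS _ this, (disc_prod Y.hQ P.hQ).trans ?_⟩, this, hY.prod h1⟩
    rw [h3, ← mul_assoc, Int.units_mul_self, one_mul]

end Low

section Up

open PowerSeries

theorem aS_le (h2 : (2 : F) ≠ 0) {w : ℕ} (hw : 0 < w) :
    aS ({2, -2} : Set F) w ≤ geom (Fintype.card F) w := by
  rw [← aS_mul_odd h2 hw]
  exact le_mul_of_one_le_right (aS_nonneg _ _) (one_le_pow₀ (one_le_geom zero_le_one hw))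

theorem aS_two_le (h2 : (2 : F) ≠ 0) :
    aS ({2, -2} : Set F) 2 ≤ (1 - C (5 / 3) * X ^ 2) * geom (Fintype.card F) 2 := by
  have h1 := aS_mul_odd h2 two_pos
  have h3 := geom_one_mul two_pos
  have h4 := mul_le_mul_of_nonneg_left (X_sq_mul_geom_le (q := Fintype.card F) (x := 1 / 3)
    (by positivity) (by linarith [three_le_card h2])) (X_pow_nonneg 2)
  have h5 : (C (5 / 3) : ℝ⟦X⟧) = 2 - C (1 / 3) := by
    rw [← C_ofNat, ← map_sub]; norm_num
  rw [← sub_nonneg] at h4 ⊢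
  refine h4.trans_eq ?_
  rw [h5]
  linear_combination (1 - X ^ 2) ^ 2 * h1 -
    aS ({2, -2} : Set F) 2 * (geom 1 2 * (1 - X ^ 2) + 1) * h3

theorem Pev_mul_le (h2 : (2 : F) ≠ 0) (k : ℕ) :
    Pev (k + 1) ^ 2 * ∏ i ∈ Finset.range (2 * (k + 1)), aS ({2, -2} : Set F) (2 * (i + 1)) ≤
      Pi' (Fintype.card F) 0 (2 * k + 1) * aS ({2, -2} : Set F) 2 := by
  induction k with
  | zero =>
    simp only [Pev, Pi', Finset.prod_range_succ, Finset.range_zero, Finset.prod_empty]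
    rw [← aS_mul_odd h2 (by norm_num)]
    exact le_of_eq (by ring)
  | succ k ih =>
    have h1 := mul_le_mul ih (aS_le h2 (w := 2 * (2 * k + 1 + 1 + 1)) (by omega)) (aS_nonneg _ _)
      (mul_nonneg (Finset.prod_nonneg fun _ _ => geom_nonneg (by positivity) _) (aS_nonneg _ _))
    have h3 := mul_le_mul_of_nonneg_right h1
      (geom_nonneg (c := Fintype.card F) (by positivity) (2 * (2 * k + 1 + 1 + 1 + 1)))
    have e : ∀ L, Pi' (Fintype.card F) 0 (L + 1) =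
        Pi' (Fintype.card F) 0 L * geom (Fintype.card F) (2 * (L + 1 + 1)) := fun L =>
      Finset.prod_range_succ _ _
    rw [show 2 * (k + 1 + 1) = 2 * (k + 1) + 1 + 1 by ring, Finset.prod_range_succ,
      Finset.prod_range_succ, Pev, Finset.prod_range_succ, ← Pev,
      show 2 * (k + 1) + 1 = 2 * k + 1 + 1 + 1 by ring, e, e]
    refine le_of_eq_of_le ?_ (h3.trans_eq (by ring))
    rw [← aS_mul_odd h2 (w := 2 * (2 * k + 1 + 1 + 1 + 1)) (by omega)]
    ring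

theorem gf_pure_le (h2 : (2 : F) ≠ 0) (δ : ℤˣ) (k : ℕ) :
    gf True ({Y : Obj F | Y.dim ≤ 2 * (k + 1)} ∩ Pure δ) ≤
      Hser (k + 1) ^ 2 * Pi' (Fintype.card F) 0 (2 * k + 1) * aS ({2, -2} : Set F) 2 := by
  have h1 := gf_E_pure h2 δ (k + 1)
  have h3 := gf_sum_le_of h1 (gf_sum_le_of (gf_negS.trans h1) (gf_reg (2 * (k + 1))))
  refine ((gf_mono fun Y hY => ?_).trans h3).trans ?_
  · obtain ⟨A, B, A', B', s, s', e1, e2, e3⟩ := exists_decomp Y hY.1
    exact ⟨A, ⟨e1, Pure.of_emb hY.2 s.i⟩, B,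
      ⟨A', ⟨e2, Pure.neg (Pure.of_emb hY.2 (s.j.comp s'.i))⟩, B', e3, ⟨s'⟩⟩, ⟨s⟩⟩
  · rw [mul_assoc (Hser (k + 1) ^ 2)]
    exact le_of_eq_of_le (by ring)
      (mul_le_mul_of_nonneg_left (Pev_mul_le h2 k) (pow_nonneg (Hser_nonneg _) 2))

omit [Fintype F] in
theorem le_Hser_sq {k : ℕ} (hk : 2 ≤ k) : 2 * X + 2 * X ^ 3 ≤ Hser k ^ 2 := by
  have hX := X_nonneg
  have h1 : Hser 2 ≤ Hser k := by
    induction k, hk using Nat.le_induction with
    | base => exact le_rfl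
    | succ k _ ih =>
      rw [Hser, Hser, Finset.prod_range_succ _ k]
      exact ih.trans (le_mul_of_one_le_right (Hser_nonneg _)
        (le_add_of_nonneg_right (X_pow_nonneg _)))
  refine le_trans ?_ (pow_le_pow_left₀ (Hser_nonneg _) h1 2)
  rw [← sub_nonneg]
  refine le_of_le_of_eq (b := 1 + X ^ 2 + 4 * X ^ 4 + 2 * X ^ 5 + X ^ 6 + 2 * X ^ 7 + X ^ 8)
    (by positivity) ?_
  simp only [Hser, Finset.prod_range_succ, Finset.range_zero, Finset.prod_empty]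
  ring

omit [Fintype F] in
theorem ev_Pi_five {q : ℝ} (hq : 5 ≤ q) {L : ℕ} (hL : 1 ≤ L) : Ev q (Pi' q 0 L) 1.35 0 :=
  ev_Pi' (x := 1 / 5) (by linarith) (by linarith) (by norm_num) (by norm_num)
    (pi_le (x := 1 / 5) (κ := 1 / 4) (a := 0) (c := 1.35) (by norm_num) (by norm_num)
      (by norm_num) (by norm_num) (by norm_num [Finset.prod_range_succ]) hL)

theorem upper_pure (h2 : (2 : F) ≠ 0) (δ : ℤˣ) (m : ℕ) :
    coeff (2 * (m + 2) + 1) (gf True ({Y : Obj F | Y.dim ≤ 2 * (m + 2 + 3 + 1)} ∩ Pure δ)) ≤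
      5 * (Fintype.card F : ℝ) ^ (m + 2) := by
  have h3 := three_le_card h2
  have hq : (0 : ℝ) < Fintype.card F := by linarith
  have h1 := gf_pure_le h2 δ (m + 2 + 3)
  have hH := ev_H_sq h3 (k := m + 2 + 3 + 1) (by omega)
  have hP : 1 ≤ Pi' (Fintype.card F) 0 (2 * (m + 2 + 3) + 1) :=
    Finset.one_le_prod fun _ _ => one_le_geom hq.le (by omega)
  have hf := mul_nonneg hH.1 (zero_le_one.trans hP)
  by_cases h5 : (5 : ℝ) ≤ Fintype.card F
  · have h6 := hH.mul₀ hq.le (ev_Pi_five h5 (L := 2 * (m + 2 + 3) + 1) (by omega))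
    refine ((h1.trans (mul_le_mul_of_nonneg_left (aS_le h2 two_pos) hf)) _).trans
      ((h6.coeff_odd _).trans ?_)
    gcongr
    norm_num
  · have h4 : (Fintype.card F : ℝ) = 3 := by
      have hc : ringChar F ≠ 2 := fun h => h2 (by simpa [h] using (ringChar.spec F 2).2)
      have h1 := FiniteField.odd_card_of_char_ne_two hc
      have : 3 ≤ Fintype.card F := by exact_mod_cast h3
      have : ¬ 5 ≤ Fintype.card F := by exact_mod_cast h5
      exact_mod_cast (show Fintype.card F = 3 by omega)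
    have h6 := (hH.mul₀ hq.le (ev_Pi_three h3 (L := 2 * (m + 2 + 3) + 1) (by omega))).coeff_odd
      (m + 2)
    have h7 := (le_Hser_sq (k := m + 2 + 3 + 1) (by omega)).trans (le_mul_of_one_le_right hH.1 hP)
    have h8 := h1.trans (mul_le_mul_of_nonneg_left (aS_two_le h2) hf)
    generalize Hser (m + 2 + 3 + 1) ^ 2 * Pi' (Fintype.card F) 0 (2 * (m + 2 + 3) + 1) = f at *
    have h9 := mul_le_mul_of_nonneg_right h7 (mul_nonneg (mul_nonneg
      (C_nonneg (a := 5 / 3) (by norm_num)) (X_pow_nonneg 2)) (geom_nonneg hq.le 2))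
    have h10 : f * ((1 - C (5 / 3) * X ^ 2) * geom (Fintype.card F) 2) ≤
        f * geom (Fintype.card F) 2 - C (10 / 3) * (X * geom (Fintype.card F) 2 * X ^ 2 +
          X * geom (Fintype.card F) 2 * X ^ 4) := by
      rw [show (C (10 / 3) : ℝ⟦X⟧) = 2 * C (5 / 3) by rw [← C_ofNat, ← map_mul]; norm_num]
      rw [← sub_nonneg] at h9 ⊢
      exact h9.trans_eq (by ring)
    have h11 := (h8.trans h10) (2 * (m + 2) + 1)
    rw [map_sub, coeff_C_mul, map_add, show 2 * (m + 2) + 1 = 2 * (m + 1) + 1 + 2 by ring,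
      coeff_mul_X_pow, coeff_X_mul_geom_odd, show 2 * (m + 1) + 1 + 2 = 2 * m + 1 + 4 by ring,
      coeff_mul_X_pow, coeff_X_mul_geom_odd, show 2 * m + 1 + 4 = 2 * (m + 2) + 1 by ring] at h11
    have : (0 : ℝ) ≤ 3 ^ m := by positivity
    simp only [h4, pow_add] at h6 h11 ⊢
    linarith

end Up

variable {V : Type u} [AddCommGroup V] [Module F V] [FiniteDimensional F V]
  {Q : QuadraticForm F V}

theorem disc_eq_of_orth (h2 : (2 : F) ≠ 0) (hQ : Nondeg Q) {n : ℕ} (b : Basis (Fin n) F V)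
    (hb : ∀ i, Q (b i) ≠ 0) (ho : ∀ i j, i ≠ j → polar Q (b i) (b j) = 0) :
    disc Q = sqc (2 : F) ^ n * sqc (∏ i, Q (b i)) := by
  have hg : gram Q b = Matrix.diagonal fun i => 2 * Q (b i) := by
    ext i j
    by_cases hij : i = j
    · subst hij; simp [gram, two_mul]
    · simp [gram, ho i j hij, hij]
  rw [hQ.disc_eq b, hg, Matrix.det_diagonal, Finset.prod_mul_distrib, Finset.prod_const,
    sqc_mul (pow_ne_zero _ h2) (Finset.prod_ne_zero_iff.mpr fun i _ => hb i), sqc_pow h2,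
    Finset.card_univ, Fintype.card_fin]

theorem exists_commute_of_emb (h2 : (2 : F) ≠ 0) (hQ : Nondeg Q) {g : OG Q} {A : Obj F}
    (i : Emb A (Obj.of hQ g)) : ∃ h, Commute g h ∧ dick h = (-1) ^ A.dim ∧
      spin h = sqc (2 : F) ^ A.dim * disc A.Q := by
  obtain ⟨b, hb, ho⟩ := A.hQ.exists_orth_basis h2
  have hp : ∀ u v, polar Q (i.f u) (i.f v) = polar A.Q u v := i.map_polar
  have hq : ∀ u, Q (i.f u) = A.Q u := i.map_Q
  have hg : ∀ u, i.f (A.g u) = g.1 (i.f u) := i.map_g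
  obtain ⟨h, h1, h3, h4⟩ := hQ.exists_refl_prod (hQ.nonExc_of_two h2) (fun j => i.f (b j))
    (fun j => hq _ ▸ hb j) (fun j k e => hp _ _ ▸ ho j k e) Finset.univ
  refine ⟨h, OG.ext' fun v => ?_, by simpa [Obj.dim] using h1, ?_⟩
  · have e1 : ∀ a, h.1 (i.f a) = -i.f a := fun a => by
      refine LinearMap.congr_fun (f := h.1.toLinearMap ∘ₗ i.f) (g := -i.f) (b.ext fun j => ?_) a
      change h.1 (i.f (b j)) = -i.f (b j)
      rw [h4, Finset.sum_eq_single j, ← refl_apply, refl_apply_self (hq _ ▸ hb j)]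
      · intro k _ hk
        rw [hp, ho j k hk.symm]; simp
      · simp
    have e2 : ∀ w, (∀ a, polar Q w (i.f a) = 0) → h.1 w = w := fun w hw => by simp [h4, hw]
    obtain ⟨a, ha⟩ : ∃ a, v - h.1 v = i.f a :=
      ⟨∑ j, ((Q (i.f (b j)))⁻¹ * polar Q v (i.f (b j))) • b j, by simp [h4]⟩
    have e3 := e2 (g.1 (v + h.1 v)) fun c => by
      obtain ⟨c, rfl⟩ := LinearMap.injective_iff_surjective.1 A.g_injective c
      have := polar_map_of_isom h.1.toLinearMap h.2 v (i.f c)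
      rw [LinearEquiv.coe_coe, e1, polar_neg_right] at this
      rw [hg]
      refine (polar_map_of_isom g.1.toLinearMap g.2 _ _).trans ?_
      rw [polar_add_left, ← this, neg_add_cancel]
    have e4 := e1 (A.g a)
    rw [hg, ← ha] at e4
    simp only [map_add, map_sub] at e3 e4
    rw [OG.mul_apply, OG.mul_apply]
    refine smul_right_injective V h2 ?_
    simp only [two_smul]
    linear_combination (norm := abel1) -e3 - e4
  · rw [h3, disc_eq_of_orth h2 A.hQ b hb ho, ← mul_assoc, Obj.dim, Int.units_mul_self, one_mul]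
    simp only [hq]

theorem four_mul_card_Om (h2 : (2 : F) ≠ 0) (hQ : Nondeg Q) (hV : Odd (finrank F V))
    (hV' : 2 ≤ finrank F V) {L : ℕ} (hL : finrank F V ≤ L) : ∃ k : ℕ,
      4 * Nat.card (ConjClasses (Om Q)) = Nat.card (ConjClasses (OG Q)) + 3 * k ∧
      (k : ℝ) ≤ PowerSeries.coeff (finrank F V)
        (gf True ({Y : Obj F | Y.dim ≤ L} ∩ Pure (disc Q))) := by
  have hN := hQ.nonExc_of_two h2
  obtain ⟨χ, h1, h3⟩ : ∃ χ : OG Q →* ℤˣ, (∀ g, dick g = 1 → χ g = spin g) ∧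
      ∀ g, dick g = -1 → χ g = spin g * spin (negOG Q) := by
    rcases Int.units_eq_one_or (spin (negOG Q)) with h | h
    · exact ⟨hQ.spinHom hN, fun _ _ => rfl, fun _ _ => by rw [h, mul_one]; rfl⟩
    · exact ⟨hQ.spinHom hN * hQ.dickHom hN, fun g hg => (congrArg (spin g * ·) hg).trans (mul_one _),
        fun g hg => h ▸ congrArg (spin g * ·) hg⟩
  obtain ⟨h4, h5⟩ := hQ.dick_spin_neg h2
  rw [hV.neg_one_pow] at h4
  have : Finite V := Module.finite_of_finite F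
  have : Finite (OG Q) := Finite.of_injective (fun g : OG Q => (g.1 : V → V))
    fun _ _ h => OG.ext' (congrFun h)
  obtain ⟨ν, hν, hν'⟩ := exists_sqc_eq h2 (-1)
  obtain ⟨u, hu⟩ := hQ.exists_Q_eq hV' 1
  obtain ⟨v, hv⟩ := hQ.exists_Q_eq hV' ν
  have hu' : Q u ≠ 0 := hu ▸ one_ne_zero
  have hv' : Q v ≠ 0 := hv ▸ hν
  have h6 := two_mul_card_ker χ (z := refl Q u * refl Q v) (by
    rw [h1 _ (by rw [hQ.dick_refl_mul hu', hQ.dick_refl hv', neg_neg]), hQ.spin_mul hN,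
      hQ.spin_refl hu', hQ.spin_refl hv', hu, hv, sqc_one, one_mul, hν'])
  let z : χ.ker := ⟨negOG Q, by rw [MonoidHom.mem_ker, h3 _ h4, Int.units_mul_self]⟩
  have h7 := two_mul_card_ker ((hQ.dickHom hN).comp χ.ker.subtype) (z := z) h4
  have h8 : splitCl ((hQ.dickHom hN).comp χ.ker.subtype) = ∅ :=
    Set.eq_empty_of_forall_notMem fun c hc => by
      obtain ⟨g, rfl⟩ := ConjClasses.mk_surjective c
      exact absurd (h4.symm.trans (mk_mem_splitCl.1 hc z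
        (Subtype.ext (OG.ext' fun v => map_neg g.1.1 v)))) (by decide)
  let e : ((hQ.dickHom hN).comp χ.ker.subtype).ker ≃* Om Q :=
    { toFun := fun x => ⟨x.1.1, (hQ.mem_Om_iff hN _).2 ⟨x.2, (h1 _ x.2).symm.trans x.1.2⟩⟩
      invFun := fun x => ⟨⟨x.1, (h1 _ ((hQ.mem_Om_iff hN _).1 x.2).1).trans
        ((hQ.mem_Om_iff hN _).1 x.2).2⟩, ((hQ.mem_Om_iff hN _).1 x.2).1⟩
      left_inv := fun _ => rfl
      right_inv := fun _ => rfl
      map_mul' := fun _ _ => rfl }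
  rw [h8, Set.ncard_empty, card_conjClasses_congr e] at h7
  refine ⟨(splitCl χ).ncard, by omega, ?_⟩
  choose r hr using ConjClasses.mk_surjective (α := OG Q)
  rw [gf, coeff_gfs, Nat.cast_le]
  refine Set.ncard_le_ncard_of_injOn (fun c => cl True (Obj.of hQ (r c)))
    (fun c hc => ⟨⟨_, ⟨hL, fun A hi hA => ?_⟩, rfl⟩, rfl⟩) (fun c _ c' _ h => ?_) (lf_cl _ _)
  · obtain ⟨h, e1, e2, e3⟩ := exists_commute_of_emb h2 hQ hi.some
    have := hc _ (hr c) h e1
    rw [h3 _ (e2.trans hA.neg_one_pow), e3, h5] at this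
    obtain ⟨a, ha⟩ := hA
    obtain ⟨a', ha'⟩ := hV
    rw [ha, ha', pow_succ, pow_succ, pow_mul, pow_mul, Int.units_sq, one_pow, one_pow, one_mul,
      mul_mul_mul_comm, Int.units_mul_self, one_mul] at this
    rw [← mul_one (disc A.Q), ← Int.units_mul_self (disc Q), ← mul_assoc, this, one_mul]
  · rw [← hr c, ← hr c']
    exact ConjClasses.mk_eq_mk_iff_isConj.2 ((isConj_iff_iso hQ _ _).2 (cl_eq.1 h))

theorem bounds_Om (h2 : (2 : F) ≠ 0) (hQ : Nondeg Q) {n : ℕ} (hn : 2 ≤ n)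
    (hV : finrank F V = 2 * n + 1) : Fintype.card F ^ n ≤ 2 * Nat.card (ConjClasses (Om Q)) ∧
      10 * Nat.card (ConjClasses (Om Q)) ≤ 73 * Fintype.card F ^ n := by
  obtain ⟨m, rfl⟩ : ∃ m, n = m + 2 := ⟨n - 2, by omega⟩
  have h := card_OG_odd h2 hQ (L := 2 * (m + 2 + 3 + 1)) (by omega)
  obtain ⟨k, h1, h3⟩ := four_mul_card_Om h2 hQ ⟨_, hV⟩ (by omega) (L := 2 * (m + 2 + 3 + 1))
    (by omega)
  rw [hV] at h h3
  have h4 := lower_odd_dim h2 (m + 2) (S := {Y : Obj F | Y.dim ≤ 2 * (m + 2 + 3 + 1)})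
    (fun Y hY => by simp only [Set.mem_ofPred_eq]; omega) (disc Q)
  have h5 := (upper_odd h2 (m + 2) (disc Q)).2
  have h6 := h3.trans (upper_pure h2 _ m)
  rw [← h] at h4 h5
  have h7 : 4 * (Nat.card (ConjClasses (Om Q)) : ℝ) = Nat.card (ConjClasses (OG Q)) + 3 * k := by
    exact_mod_cast h1
  have : (0 : ℝ) ≤ (Fintype.card F : ℝ) ^ (m + 2) := by positivity
  have : (0 : ℝ) ≤ k := by positivity
  have h8 : (Fintype.card F : ℝ) ^ (m + 2) ≤ 2 * Nat.card (ConjClasses (Om Q)) := by linarith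
  have h9 : 10 * (Nat.card (ConjClasses (Om Q)) : ℝ) ≤ 73 * (Fintype.card F : ℝ) ^ (m + 2) := by
    linarith
  exact ⟨by exact_mod_cast h8, by exact_mod_cast h9⟩

end Cfsg.Agent.Lib.Wall
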